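/-
The Baumann subgroup: it is normal in every `p`-subgroup containing it.  Hence a `p`-subgroup
normalized by a block normalizes it.
-/
import Cfsg.Agent.Lib.PLocal.Thompson
import Cfsg.Agent.Lib.LocalEven.Util
import Cfsg.Agent.Lib.LocalEven.CharP
import Cfsg.Agent.Lib.Components.Basic
import Cfsg.Agent.Lib.LocalStruct.PCoreOf
import Cfsg.Prelude.Def_BaumannBlocks

set_option autoImplicit false
set_option linter.unusedSectionVars false

namespace Cfsg.Agent.Lib.LocalEven.Baumann

open Subgroup Cfsg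
open Cfsg.Agent.Lib.PLocal.Thompson
open Cfsg.Agent.Lib.LocalEven.Util
open scoped commutatorElement

variable {G : Type*} [Group G] [Finite G] {p : ℕ}

theorem normalizer_le_omegaOne (H : Subgroup G) :
    normalizer (H : Set G) ≤ normalizer (omegaOne p H : Set G) := by
  intro g hg
  apply mem_normalizer_of_conj_le
  intro y hy
  induction hy using closure_induction with
  | mem x hx =>
    refine subset_closure ⟨conj_mem_of_mem_normalizer hg hx.1, ?_⟩
    rw [conj_pow, hx.2]
    simp
  | one => simp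
  | mul x y _ _ hx hy =>
    have e : g * (x * y) * g⁻¹ = (g * x * g⁻¹) * (g * y * g⁻¹) := by group
    rw [e]
    exact mul_mem hx hy
  | inv x _ hx =>
    have e : g * x⁻¹ * g⁻¹ = (g * x * g⁻¹)⁻¹ := by group
    rw [e]
    exact inv_mem hx

theorem normalizer_le_centralizer (H : Subgroup G) :
    normalizer (H : Set G) ≤ normalizer (centralizer (H : Set G) : Set G) := by
  intro g hg
  apply mem_normalizer_of_conj_le
  intro c hc
  rw [mem_centralizer_iff] at hc ⊢
  intro w hw
  have h1 := hc (g⁻¹ * w * g) (by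
    have := conj_mem_of_mem_normalizer (inv_mem hg) hw
    simpa using this)
  calc w * (g * c * g⁻¹) = g * ((g⁻¹ * w * g) * c) * g⁻¹ := by group
    _ = g * (c * (g⁻¹ * w * g)) * g⁻¹ := by rw [h1]
    _ = g * c * g⁻¹ * w := by group

theorem normalizer_le_jOf (P : Subgroup G) :
    normalizer (P : Set G) ≤ normalizer (jOf p P : Set G) := by
  intro g hg
  apply mem_normalizer_of_conj_le
  intro y hy
  have h1 : (jOf p P).map (MulAut.conj g).toMonoidHom = jOf p (P.map (MulAut.conj g).toMonoidHom) :=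
    jOf_conj p P g
  have h2 : P.map (MulAut.conj g).toMonoidHom = P := by
    apply Subgroup.eq_of_le_of_card_ge
    · rintro _ ⟨a, ha, rfl⟩
      exact conj_mem_of_mem_normalizer hg ha
    · rw [Subgroup.card_map_of_injective (MulAut.conj g).injective]
  rw [h2] at h1
  rw [← h1]
  exact ⟨y, hy, rfl⟩

theorem normalizer_le_zjOf (P : Subgroup G) :
    normalizer (P : Set G) ≤ normalizer (omegaOne p (zjOf p P) : Set G) := by
  intro g hg
  apply normalizer_le_omegaOne
  have h1 := normalizer_le_jOf (p := p) P hg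
  apply mem_normalizer_of_conj_le
  intro y hy
  exact mem_inf.2 ⟨conj_mem_of_mem_normalizer h1 (mem_inf.1 hy).1,
    conj_mem_of_mem_normalizer (normalizer_le_centralizer _ h1) (mem_inf.1 hy).2⟩

section Sylow

variable [Fact p.Prime]

open scoped Pointwise in
/-- The Thompson subgroup of any `p`-subgroup containing `J(T)`. -/
theorem jOf_of_le (T : Sylow p G) {R : Subgroup G} (hR : IsPGroup p R)
    (hJ : jOf p (T : Subgroup G) ≤ R) : jOf p R = jOf p (T : Subgroup G) := by
  obtain ⟨S, hS⟩ := hR.exists_le_sylow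
  obtain ⟨g, hg⟩ := MulAction.exists_smul_eq G T S
  have hSmap : (S : Subgroup G) = (T : Subgroup G).map (MulAut.conj g).toMonoidHom := by
    rw [← hg, Sylow.coe_subgroup_smul, Subgroup.pointwise_smul_def]
    rfl
  have hJS : jOf p (S : Subgroup G) = jOf p (T : Subgroup G) := by
    have h1 : (jOf p (T : Subgroup G)).map (MulAut.conj g⁻¹).toMonoidHom ≤ (T : Subgroup G) := by
      rintro _ ⟨y, hy, rfl⟩
      have hyS := hS (hJ hy)
      rw [hSmap] at hyS
      obtain ⟨t, ht, rfl⟩ := hyS
      show g⁻¹ * (g * t * g⁻¹) * g⁻¹⁻¹ ∈ (T : Subgroup G)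
      have e : g⁻¹ * (g * t * g⁻¹) * g⁻¹⁻¹ = t := by group
      rw [e]
      exact ht
    have h2 := jOf_weakly_closed h1
    rw [hSmap, ← jOf_conj]
    apply le_antisymm
    · rintro _ ⟨y, hy, rfl⟩
      have h3 : g⁻¹ * (g * y * g⁻¹) * g⁻¹⁻¹ = y := by group
      have hinv : g ∈ normalizer ((jOf p (T : Subgroup G) : Subgroup G) : Set G) := by
        rw [← inv_inv g]
        apply inv_mem
        apply mem_normalizer_of_conj_le
        intro z hz
        rw [← h2]
        exact ⟨z, hz, rfl⟩
      exact conj_mem_of_mem_normalizer hinv hy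
    · intro y hy
      have hm : g⁻¹ * y * g⁻¹⁻¹ ∈ (jOf p (T : Subgroup G)).map (MulAut.conj g⁻¹).toMonoidHom :=
        ⟨y, hy, rfl⟩
      rw [h2] at hm
      refine ⟨g⁻¹ * y * g⁻¹⁻¹, hm, ?_⟩
      show g * (g⁻¹ * y * g⁻¹⁻¹) * g⁻¹ = y
      group
  rw [← hJS]
  exact jOf_eq_of_le hS (by rw [hJS]; exact hJ)

/-- The centralizer of `Ω₁(Z(J(T)))` in any `p`-group containing `B(T)` and normalizing `J(T)`. -/
theorem eq_baumann_of_le (T : Sylow p G) {D : Subgroup G} (hD : IsPGroup p D)
    (hDN : D ≤ normalizer ((jOf p (T : Subgroup G) : Subgroup G) : Set G))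
    (hDC : D ≤ centralizer (omegaOne p (zjOf p (T : Subgroup G)) : Set G))
    (hB : baumannSubgroupOf p (T : Subgroup G) ≤ D) :
    D = baumannSubgroupOf p (T : Subgroup G) := by
  set N : Subgroup G := normalizer ((jOf p (T : Subgroup G) : Subgroup G) : Set G) with hN
  have hTN : (T : Subgroup G) ≤ N := fun t ht => normalizer_le_jOf _ (le_normalizer ht)
  obtain ⟨h, hhN, hh⟩ := exists_conj_into_sylow (T.subtype hTN) D hD hDN
  have hmap : (T.subtype hTN : Subgroup N).map N.subtype ≤ (T : Subgroup G) := by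
    rw [Sylow.coe_subtype, map_subgroupOf_eq_of_le hTN]
  have hZ : h⁻¹ ∈ normalizer (centralizer (omegaOne p (zjOf p (T : Subgroup G)) : Set G) : Set G) := by
    apply inv_mem
    apply normalizer_le_centralizer
    apply normalizer_le_omegaOne
    apply mem_normalizer_of_conj_le
    intro y hy
    exact mem_inf.2 ⟨conj_mem_of_mem_normalizer hhN (mem_inf.1 hy).1,
      conj_mem_of_mem_normalizer (normalizer_le_centralizer _ hhN) (mem_inf.1 hy).2⟩
  have hle : D.map (MulAut.conj h⁻¹).toMonoidHom ≤ baumannSubgroupOf p (T : Subgroup G) := by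
    rintro _ ⟨t, ht, rfl⟩
    have e : (MulAut.conj h⁻¹).toMonoidHom t = h⁻¹ * t * h := by
      show h⁻¹ * t * h⁻¹⁻¹ = h⁻¹ * t * h
      rw [inv_inv]
    rw [e]
    refine mem_inf.2 ⟨hmap (hh t ht), ?_⟩
    have h1 := conj_mem_of_mem_normalizer hZ (hDC ht)
    have h2 : centerThompsonOf p (T : Subgroup G) = zjOf p (T : Subgroup G) := centerThompsonOf_eq _ _
    rw [h2]
    rwa [inv_inv] at h1
  have hcard : Nat.card D ≤ Nat.card (baumannSubgroupOf p (T : Subgroup G)) := by
    have := Subgroup.card_le_of_le hle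
    rwa [Subgroup.card_map_of_injective (MulAut.conj h⁻¹).injective] at this
  exact (Subgroup.eq_of_le_of_card_ge hB hcard).symm

theorem baumann_eq (T : Subgroup G) :
    baumannSubgroupOf p T = T ⊓ centralizer (omegaOne p (zjOf p T) : Set G) := by
  have h2 : centerThompsonOf p T = zjOf p T := centerThompsonOf_eq _ _
  rw [baumannSubgroupOf, h2]

theorem jOf_le_baumann (T : Subgroup G) : jOf p T ≤ baumannSubgroupOf p T := by
  rw [baumann_eq]
  refine le_inf (jOf_le p T) ?_
  intro x hx
  rw [mem_centralizer_iff]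
  intro z hz
  have hz' : z ∈ zjOf p T := by
    have : omegaOne p (zjOf p T) ≤ zjOf p T := (closure_le _).2 fun _ h => h.1
    exact this hz
  have := (mem_zjOf_iff.1 hz').2 x hx
  exact this.symm

theorem baumann_le (T : Subgroup G) : baumannSubgroupOf p T ≤ T := inf_le_left

/-- `B(T)` is normal in every `p`-subgroup containing it. -/
theorem le_normalizer_baumann (T : Sylow p G) {R : Subgroup G} (hR : IsPGroup p R)
    (hB : baumannSubgroupOf p (T : Subgroup G) ≤ R) :
    R ≤ normalizer ((baumannSubgroupOf p (T : Subgroup G) : Subgroup G) : Set G) := by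
  have hJ : jOf p (T : Subgroup G) ≤ R := (jOf_le_baumann _).trans hB
  have hJR := jOf_of_le T hR hJ
  have hRN : R ≤ normalizer ((jOf p (T : Subgroup G) : Subgroup G) : Set G) := by
    rw [← hJR]
    exact fun r hr => normalizer_le_jOf _ (le_normalizer hr)
  have hzR : zjOf p R = zjOf p (T : Subgroup G) := by
    rw [zjOf, zjOf, hJR]
  have hRZ : R ≤ normalizer (omegaOne p (zjOf p (T : Subgroup G)) : Set G) := by
    rw [← hzR]
    exact fun r hr => normalizer_le_zjOf _ (le_normalizer hr)
  have hD : R ⊓ centralizer (omegaOne p (zjOf p (T : Subgroup G)) : Set G) =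
      baumannSubgroupOf p (T : Subgroup G) := by
    apply eq_baumann_of_le T (hR.to_le inf_le_left) (inf_le_left.trans hRN) inf_le_right
    refine le_inf hB ?_
    rw [baumann_eq]
    exact inf_le_right
  rw [← hD]
  intro r hr
  apply mem_normalizer_of_conj_le
  intro y hy
  exact mem_inf.2 ⟨mul_mem (mul_mem hr (mem_inf.1 hy).1) (inv_mem hr),
    conj_mem_of_mem_normalizer (normalizer_le_centralizer _ (hRZ hr)) (mem_inf.1 hy).2⟩

/-- A general principle: if `K = [K, B]` is generated by `p'`-elements, `B` a `p`-group, and `Q`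
is normalized by `⟨K, B⟩` and normalizes `B`, then `Q` normalizes `K`. -/
theorem le_normalizer_of_comm {K B Q : Subgroup G}
    (hgen : closure {g : G | g ∈ K ∧ (orderOf g).Coprime p} = K)
    (hBp : IsPGroup p B) (hcomm : ⁅K, B⁆ = K) (hQ1 : K ⊔ B ≤ normalizer (Q : Set G))
    (hQ2 : Q ≤ normalizer (B : Set G)) : Q ≤ normalizer (K : Set G) := by
  classical
  have hBK : B ≤ normalizer (K : Set G) := by
    have := Cfsg.Agent.Lib.LocalEven.CharP.le_normalizer_commutator B K
    rwa [Subgroup.commutator_comm, hcomm] at this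
  let C : Subgroup G := closure {x | ∃ k ∈ K, ∃ j ∈ B, x = k * j * k⁻¹}
  have hKC : K ≤ C := by
    conv_lhs => rw [← hcomm]
    rw [Subgroup.commutator_le]
    intro k hk j hj
    have h1 : k * j * k⁻¹ ∈ C := subset_closure ⟨k, hk, j, hj, rfl⟩
    have h2 : j ∈ C := subset_closure ⟨1, one_mem _, j, hj, by simp⟩
    have : ⁅k, j⁆ = (k * j * k⁻¹) * j⁻¹ := rfl
    rw [this]
    exact mul_mem h1 (inv_mem h2)
  have hJC : B ≤ C := fun j hj => subset_closure ⟨1, one_mem _, j, hj, by simp⟩
  have hBC : K ⊔ B ≤ C := sup_le hKC hJC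
  have hconj : ∀ q ∈ Q, ∀ x ∈ K ⊔ B, q * x * q⁻¹ ∈ K ⊔ B := by
    intro q hq x hx
    have hx' : x ∈ C := hBC hx
    clear hx
    induction hx' using closure_induction with
    | mem x hx₁ =>
      obtain ⟨k, hk, j, hj, rfl⟩ := hx₁
      have hkQ : k ∈ normalizer (Q : Set G) := hQ1 (mem_sup_left hk)
      have hq' : k⁻¹ * q * k ∈ Q := by
        have := (mem_normalizer_iff.1 (inv_mem hkQ) q).1 hq
        simpa using this
      have hj' : (k⁻¹ * q * k) * j * (k⁻¹ * q * k)⁻¹ ∈ B :=
        (mem_normalizer_iff.1 (hQ2 hq') j).1 hj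
      have : q * (k * j * k⁻¹) * q⁻¹ = k * ((k⁻¹ * q * k) * j * (k⁻¹ * q * k)⁻¹) * k⁻¹ := by
        group
      rw [this]
      exact mul_mem (mul_mem (mem_sup_left hk) (mem_sup_right hj')) (inv_mem (mem_sup_left hk))
    | one => simp
    | mul x y hx hy ihx ihy =>
      have : q * (x * y) * q⁻¹ = (q * x * q⁻¹) * (q * y * q⁻¹) := by group
      rw [this]
      exact mul_mem ihx ihy
    | inv x hx ihx =>
      have : q * x⁻¹ * q⁻¹ = (q * x * q⁻¹)⁻¹ := by group
      rw [this]
      exact inv_mem ihx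
  have hodd : ∀ x ∈ K ⊔ B, (orderOf x).Coprime p → x ∈ K := by
    intro x hx hxo
    rw [sup_comm] at hx
    obtain ⟨j, hj, k, hk, rfl⟩ :=
      Cfsg.Agent.Lib.Components.Basic.mem_sup_of_le_normalizer hBK hx
    obtain ⟨m, hm⟩ := hBp ⟨j, hj⟩
    have hjm : j ^ (p ^ m) = 1 := by
      have := congrArg Subtype.val hm
      simpa using this
    have hpow : ∀ n : ℕ, ∃ k' ∈ K, (j * k) ^ n = k' * j ^ n := by
      intro n
      induction n with
      | zero => exact ⟨1, one_mem _, by simp⟩
      | succ n ih =>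
        obtain ⟨k', hk', he⟩ := ih
        have hjn : j ^ n ∈ normalizer (K : Set G) := pow_mem (hBK hj) n
        have hj1 : j ∈ normalizer (K : Set G) := hBK hj
        refine ⟨k' * (j ^ n * (j * k * j⁻¹) * (j ^ n)⁻¹), mul_mem hk' ?_, ?_⟩
        · refine (mem_normalizer_iff.1 hjn _).1 ((mem_normalizer_iff.1 hj1 _).1 hk)
        · rw [pow_succ, he, pow_succ]
          group
    obtain ⟨k', hk', he⟩ := hpow (p ^ m)
    rw [hjm, mul_one] at he
    have hcop : Nat.Coprime (p ^ m) (orderOf (j * k)) :=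
      Nat.Coprime.pow_left _ hxo.symm
    obtain ⟨r, hr⟩ := exists_pow_eq_self_of_coprime hcop
    rw [← hr, he]
    exact pow_mem hk' r
  have hcl : ∀ q ∈ Q, ∀ x ∈ K, q * x * q⁻¹ ∈ K := by
    intro q hq x hx
    have hx' : x ∈ closure {g : G | g ∈ K ∧ (orderOf g).Coprime p} := by
      rw [hgen]; exact hx
    clear hx
    induction hx' using closure_induction with
    | mem x hx₁ =>
      refine hodd _ (hconj q hq x (mem_sup_left hx₁.1)) ?_
      have : orderOf (q * x * q⁻¹) = orderOf x := by
        have := orderOf_injective (MulAut.conj q).toMonoidHom (MulAut.conj q).injective x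
        simpa using this
      rw [this]; exact hx₁.2
    | one => simp
    | mul x y hx hy ihx ihy =>
      have : q * (x * y) * q⁻¹ = (q * x * q⁻¹) * (q * y * q⁻¹) := by group
      rw [this]
      exact mul_mem ihx ihy
    | inv x hx ihx =>
      have : q * x⁻¹ * q⁻¹ = (q * x * q⁻¹)⁻¹ := by group
      rw [this]
      exact inv_mem ihx
  intro q hq
  exact mem_normalizer_of_conj_le (hcl q hq)

theorem closure_of_pResidualOf {E : Subgroup G} (h : pResidualOf p E = E) :
    closure {g : G | g ∈ E ∧ (orderOf g).Coprime p} = E := by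
  apply le_antisymm
  · rw [closure_le]
    exact fun g hg => hg.1
  · conv_lhs => rw [← h]
    rw [pResidualOf, pResidual, MonoidHom.map_closure, closure_le]
    rintro _ ⟨g, hg, rfl⟩
    refine subset_closure ⟨g.2, ?_⟩
    have : orderOf (E.subtype g) = orderOf g := Subgroup.orderOf_coe g
    rw [this]
    exact hg

/-- A `p`-subgroup normalized by `B(T)` and by a block normalizes the block. -/
theorem le_normalizer_block (T : Sylow p G) {E Q : Subgroup G}
    (hE : IsBaumannBlock p (T : Subgroup G) E) (hQ : IsPGroup p Q)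
    (hBQ : baumannSubgroupOf p (T : Subgroup G) ≤ normalizer (Q : Set G))
    (hEQ : E ≤ normalizer (Q : Set G)) : Q ≤ normalizer (E : Set G) := by
  have hBp : IsPGroup p (baumannSubgroupOf p (T : Subgroup G)) :=
    T.isPGroup'.to_le (baumann_le _)
  have hR : IsPGroup p (Q ⊔ baumannSubgroupOf p (T : Subgroup G) : Subgroup G) :=
    hQ.to_sup_of_normal_left' hBp hBQ
  refine le_normalizer_of_comm (closure_of_pResidualOf hE.1) hBp hE.2.1 (sup_le hEQ hBQ) ?_
  exact le_sup_left.trans (le_normalizer_baumann T hR le_sup_right)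

end Sylow

end Cfsg.Agent.Lib.LocalEven.Baumann
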