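/-
Natural modules are irreducible: the derived group of `SL₂(F)` on `F²`, and `Alt(n)` on the
even-weight module.
-/
import Mathlib
import Cfsg.Prelude.Def_BaumannBlocks
import Cfsg.Agent.Lib.LocalEven.Util

set_option autoImplicit false
set_option linter.unusedSectionVars false

namespace Cfsg.Agent.Lib.LocalEven.SecIrr

open Subgroup Cfsg Matrix
open Cfsg.Agent.Lib.LocalEven.Util
open scoped commutatorElement

section SL2

variable {F : Type*} [Field F]

/-- Upper unitriangular matrices. -/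
def uu (c : F) : SpecialLinearGroup (Fin 2) F := ⟨!![1, c; 0, 1], by simp [Matrix.det_fin_two]⟩

/-- Lower unitriangular matrices. -/
def ll (c : F) : SpecialLinearGroup (Fin 2) F := ⟨!![1, 0; c, 1], by simp [Matrix.det_fin_two]⟩

/-- The Weyl element. -/
def ww : SpecialLinearGroup (Fin 2) F := ⟨!![0, 1; -1, 0], by simp [Matrix.det_fin_two]⟩

theorem uu_mul (a c : F) : uu a * uu c = uu (a + c) := by
  apply Subtype.ext
  show !![1, a; 0, 1] * !![1, c; 0, 1] = !![1, a + c; 0, 1]
  rw [Matrix.mul_fin_two]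
  simp [add_comm]

theorem ww_mul_uu (c : F) : ww * uu c * ww⁻¹ = ll (-c) := by
  rw [mul_inv_eq_iff_eq_mul]
  apply Subtype.ext
  show !![0, 1; -1, 0] * !![1, c; 0, 1] = !![1, 0; -c, 1] * !![0, 1; -1, 0]
  rw [Matrix.mul_fin_two, Matrix.mul_fin_two]
  simp

theorem ll_eq (c : F) : ll c = ⁅(ww : SpecialLinearGroup (Fin 2) F), uu (-c)⁆ * uu (-c) := by
  rw [commutatorElement_def, inv_mul_cancel_right, ww_mul_uu, neg_neg]

theorem ll_mem (c : F) : ∃ r ∈ commutator (SpecialLinearGroup (Fin 2) F), ll c = r * uu (-c) :=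
  ⟨_, commutator_mem_commutator (mem_top _) (mem_top _), ll_eq c⟩

theorem exists_comm_mul (g : SpecialLinearGroup (Fin 2) F) :
    ∃ r ∈ commutator (SpecialLinearGroup (Fin 2) F), ∃ c, g = r * uu c := by
  have hnorm : (commutator (SpecialLinearGroup (Fin 2) F)).Normal := inferInstance
  let P : SpecialLinearGroup (Fin 2) F → Prop := fun g =>
    ∃ r ∈ commutator (SpecialLinearGroup (Fin 2) F), ∃ c, g = r * uu c
  have hu : ∀ y, P (uu y) := fun y => ⟨1, one_mem _, y, by simp⟩
  have hU : ∀ a g, P g → P (uu a * g) := by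
    rintro a g ⟨r, hr, c, rfl⟩
    refine ⟨uu a * r * (uu a)⁻¹, hnorm.conj_mem r hr _, a + c, ?_⟩
    rw [← uu_mul]
    group
  have hL : ∀ a g, P g → P (ll a * g) := by
    rintro a g ⟨r, hr, c, rfl⟩
    obtain ⟨ρ, hρ, hl⟩ := ll_mem a
    refine ⟨ll a * r * (ll a)⁻¹ * ρ, mul_mem (hnorm.conj_mem r hr _) hρ, -a + c, ?_⟩
    have e1 : ll a * (r * uu c) = (ll a * r * (ll a)⁻¹) * (ll a * uu c) := by group
    have e2 : ll a * uu c = ρ * uu (-a + c) := by
      rw [hl, mul_assoc, uu_mul]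
    rw [e1, e2, ← mul_assoc]
  have hmain : ∀ g : SpecialLinearGroup (Fin 2) F, (g : Matrix (Fin 2) (Fin 2) F) 1 0 ≠ 0 → P g := by
    intro g hc
    set a := (g : Matrix (Fin 2) (Fin 2) F) 0 0 with ha
    set b := (g : Matrix (Fin 2) (Fin 2) F) 0 1 with hb
    set c := (g : Matrix (Fin 2) (Fin 2) F) 1 0 with hcd
    set d := (g : Matrix (Fin 2) (Fin 2) F) 1 1 with hd
    have hdet : a * d - b * c = 1 := by
      have := g.2
      rw [Matrix.det_fin_two] at this
      exact this
    have e : g = uu ((a - 1) / c) * (ll c * uu ((d - 1) / c)) := by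
      apply Subtype.ext
      show (g : Matrix (Fin 2) (Fin 2) F) =
        !![1, (a - 1) / c; 0, 1] * (!![1, 0; c, 1] * !![1, (d - 1) / c; 0, 1])
      rw [Matrix.eta_fin_two (g : Matrix (Fin 2) (Fin 2) F), Matrix.mul_fin_two, Matrix.mul_fin_two]
      have e1 : 1 * 1 + (a - 1) / c * (c * 1 + 1 * 0) = a := by
        field_simp
        ring
      have e2 : 1 * (1 * ((d - 1) / c) + 0 * 1) + (a - 1) / c * (c * ((d - 1) / c) + 1 * 1) = b := by
        field_simp
        linear_combination hdet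
      have e3 : (0 : F) * (1 * 1 + 0 * 0) + 1 * (c * 1 + 1 * 0) = c := by ring
      have e4 : (0 : F) * (1 * ((d - 1) / c) + 0 * 1) + 1 * (c * ((d - 1) / c) + 1 * 1) = d := by
        field_simp
        ring
      simp only [mul_one, mul_zero, add_zero, one_mul, zero_mul, zero_add] at e1 e2 e3 e4 ⊢
      rw [e1, e2, e4]
    rw [e]
    exact hU _ _ (hL _ _ (hu _))
  by_cases hc : (g : Matrix (Fin 2) (Fin 2) F) 1 0 = 0
  · have hdet : (g : Matrix (Fin 2) (Fin 2) F) 0 0 * (g : Matrix (Fin 2) (Fin 2) F) 1 1 -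
        (g : Matrix (Fin 2) (Fin 2) F) 0 1 * (g : Matrix (Fin 2) (Fin 2) F) 1 0 = 1 := by
      have := g.2
      rw [Matrix.det_fin_two] at this
      exact this
    have ha : (g : Matrix (Fin 2) (Fin 2) F) 0 0 ≠ 0 := by
      intro h0
      rw [h0, hc] at hdet
      simp at hdet
    have h1 : ((ll 1 * g : SpecialLinearGroup (Fin 2) F) : Matrix (Fin 2) (Fin 2) F) 1 0 ≠ 0 := by
      have e : ((ll 1 * g : SpecialLinearGroup (Fin 2) F) : Matrix (Fin 2) (Fin 2) F) =
          !![1, 0; 1, 1] * (g : Matrix (Fin 2) (Fin 2) F) := rfl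
      rw [e, Matrix.mul_apply, Fin.sum_univ_two]
      simp [hc]
      exact ha
    have h2 : g = ll (-1) * (ll 1 * g) := by
      rw [← mul_assoc]
      have : ll (-1 : F) * ll 1 = 1 := by
        apply Subtype.ext
        show !![1, 0; -1, 1] * !![1, 0; 1, 1] = (1 : Matrix (Fin 2) (Fin 2) F)
        rw [Matrix.mul_fin_two, Matrix.one_fin_two]
        simp
      rw [this, one_mul]
    rw [h2]
    exact hL _ _ (hmain _ h1)
  · exact hmain g hc

theorem uu_mulVec (c : F) : ((uu c : SpecialLinearGroup (Fin 2) F) : Matrix (Fin 2) (Fin 2) F).mulVec ![1, 0] = ![1, 0] := by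
  ext i
  fin_cases i <;> simp [uu, Matrix.mulVec, dotProduct, Fin.sum_univ_two]

/-- The derived group of `SL₂(F)` is transitive on nonzero vectors. -/
theorem exists_comm_mulVec (v : Fin 2 → F) (hv : v ≠ 0) :
    ∃ r ∈ commutator (SpecialLinearGroup (Fin 2) F),
      ((r : SpecialLinearGroup (Fin 2) F) : Matrix (Fin 2) (Fin 2) F).mulVec ![1, 0] = v := by
  obtain ⟨g, hg⟩ : ∃ g : SpecialLinearGroup (Fin 2) F,
      ((g : SpecialLinearGroup (Fin 2) F) : Matrix (Fin 2) (Fin 2) F).mulVec ![1, 0] = v := by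
    by_cases h0 : v 0 = 0
    · have h1 : v 1 ≠ 0 := by
        intro h1
        apply hv
        ext i
        fin_cases i <;> simp [h0, h1]
      refine ⟨⟨!![0, -(v 1)⁻¹; v 1, 0], by simp [Matrix.det_fin_two, h1]⟩, ?_⟩
      ext i
      fin_cases i <;> simp [Matrix.mulVec, dotProduct, Fin.sum_univ_two, h0]
    · refine ⟨⟨!![v 0, 0; v 1, (v 0)⁻¹], by simp [Matrix.det_fin_two, h0]⟩, ?_⟩
      ext i
      fin_cases i <;> simp [Matrix.mulVec, dotProduct, Fin.sum_univ_two]
  obtain ⟨r, hr, c, rfl⟩ := exists_comm_mul g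
  refine ⟨r, hr, ?_⟩
  rw [← hg]
  have : ((r * uu c : SpecialLinearGroup (Fin 2) F) : Matrix (Fin 2) (Fin 2) F) =
      (r : Matrix (Fin 2) (Fin 2) F) * (uu c : Matrix (Fin 2) (Fin 2) F) := rfl
  rw [this, ← Matrix.mulVec_mulVec, uu_mulVec]

end SL2

section Irr

variable {G : Type*} [Group G]

/-- The section `U / U₀` is irreducible under `E`. -/
def SecIrr (E U U₀ : Subgroup G) : Prop :=
  ∀ D : Subgroup G, U₀ ≤ D → D ≤ U → E ≤ normalizer (D : Set G) → (∃ u ∈ D, u ∉ U₀) → U ≤ D

theorem secIrr_of_sl2 {F : Type*} [Field F] {E U U₀ : Subgroup G}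
    (h : ActsAsSL2OnSection F (commutator (SpecialLinearGroup (Fin 2) F)) E U U₀) :
    SecIrr E U U₀ := by
  obtain ⟨-, hU₀, ρ, ψ, hρ, hψs, hker, hact⟩ := h
  intro D hD hDU hED ⟨u, huD, huU₀⟩
  have huU : u ∈ U := hDU huD
  have hu0 : ψ ⟨u, huU⟩ ≠ 1 := fun h1 => huU₀ ((hker _).1 h1)
  set v₀ : Fin 2 → F := Multiplicative.toAdd (ψ ⟨u, huU⟩) with hv₀
  have hv₀0 : v₀ ≠ 0 := by
    intro h0
    apply hu0
    have : ψ ⟨u, huU⟩ = Multiplicative.ofAdd (0 : Fin 2 → F) := by
      rw [← h0, hv₀]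
      rfl
    rw [this]
    rfl
  -- the image of `D` contains every nonzero vector
  have hall : ∀ w : U, Multiplicative.toAdd (ψ w) ≠ 0 → ∃ d : U, (d : G) ∈ D ∧ ψ d = ψ w := by
    intro w hw
    obtain ⟨r₀, hr₀, hr₀v⟩ := exists_comm_mulVec v₀ hv₀0
    obtain ⟨r₁, hr₁, hr₁v⟩ := exists_comm_mulVec (Multiplicative.toAdd (ψ w)) hw
    have hr : r₁ * r₀⁻¹ ∈ ρ.range := by
      rw [hρ]
      exact mul_mem hr₁ (inv_mem hr₀)
    obtain ⟨e, he⟩ := hr
    obtain ⟨w', hw', hw''⟩ := hact e ⟨u, huU⟩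
    refine ⟨w', ?_, ?_⟩
    · rw [hw']
      exact conj_mem_of_mem_normalizer (hED e.2) huD
    · apply Multiplicative.toAdd.injective
      rw [hw'', he]
      have e1 : ((r₁ * r₀⁻¹ : SpecialLinearGroup (Fin 2) F) : Matrix (Fin 2) (Fin 2) F).mulVec v₀ =
          ((r₁ : SpecialLinearGroup (Fin 2) F) : Matrix (Fin 2) (Fin 2) F).mulVec
            (((r₀⁻¹ : SpecialLinearGroup (Fin 2) F) : Matrix (Fin 2) (Fin 2) F).mulVec v₀) := by
        have : ((r₁ * r₀⁻¹ : SpecialLinearGroup (Fin 2) F) : Matrix (Fin 2) (Fin 2) F) =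
            (r₁ : Matrix (Fin 2) (Fin 2) F) * ((r₀⁻¹ : SpecialLinearGroup (Fin 2) F) : Matrix (Fin 2) (Fin 2) F) := rfl
        rw [this, Matrix.mulVec_mulVec]
      have e2 : ((r₀⁻¹ : SpecialLinearGroup (Fin 2) F) : Matrix (Fin 2) (Fin 2) F).mulVec v₀ = ![1, 0] := by
        have : ((r₀⁻¹ : SpecialLinearGroup (Fin 2) F) : Matrix (Fin 2) (Fin 2) F) * (r₀ : Matrix (Fin 2) (Fin 2) F) = 1 :=
          congrArg Subtype.val (inv_mul_cancel r₀)
        rw [← hr₀v, Matrix.mulVec_mulVec, this, Matrix.one_mulVec]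
      rw [e1, e2, hr₁v]
  intro w hw
  by_cases hw0 : Multiplicative.toAdd (ψ ⟨w, hw⟩) = 0
  · have : ψ ⟨w, hw⟩ = 1 := by
      apply Multiplicative.toAdd.injective
      rw [hw0]
      rfl
    exact hD ((hker _).1 this)
  · obtain ⟨d, hd, hdw⟩ := hall ⟨w, hw⟩ hw0
    have h1 : ψ (⟨w, hw⟩ * d⁻¹) = 1 := by
      rw [map_mul, map_inv, ← hdw, mul_inv_cancel]
    have h2 := hD ((hker _).1 h1)
    have h3 : w * (d : G)⁻¹ ∈ D := h2
    have h4 := mul_mem h3 hd
    simpa using h4

/-- `Alt(n)` is irreducible on the even-weight module. -/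
theorem secIrr_of_perm {n : ℕ} (hn : Odd n) {E U U₀ : Subgroup G}
    (h : ActsAsOddPermModuleOnSection n (alternatingGroup (Fin n)) E U U₀) :
    SecIrr E U U₀ := by
  classical
  obtain ⟨-, hU₀, ρ, ψ, hρ, hsum, hsurj, hker, hact⟩ := h
  intro D hD hDU hED ⟨u, huD, huU₀⟩
  -- the image of `D`
  let S : Set (Fin n → ZMod 2) := {v | ∃ d : U, (d : G) ∈ D ∧ Multiplicative.toAdd (ψ d) = v}
  have hS0 : (0 : Fin n → ZMod 2) ∈ S := ⟨1, one_mem _, by rw [map_one]; rfl⟩
  have hSadd : ∀ v w, v ∈ S → w ∈ S → v + w ∈ S := by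
    rintro _ _ ⟨d₁, hd₁, rfl⟩ ⟨d₂, hd₂, rfl⟩
    refine ⟨d₁ * d₂, mul_mem hd₁ hd₂, ?_⟩
    rw [map_mul]
    rfl
  have hSinv : ∀ (σ : Equiv.Perm (Fin n)), σ ∈ alternatingGroup (Fin n) → ∀ v ∈ S,
      (fun i => v (σ⁻¹ i)) ∈ S := by
    rintro σ hσ _ ⟨d, hd, rfl⟩
    have hr : σ ∈ ρ.range := by
      rw [hρ]
      exact hσ
    obtain ⟨e, rfl⟩ := hr
    obtain ⟨w', hw', hw''⟩ := hact e d
    refine ⟨w', ?_, ?_⟩
    · rw [hw']
      exact conj_mem_of_mem_normalizer (hED e.2) hd
    · funext i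
      exact hw'' i
  -- an element of `S` of weight two
  have huU : u ∈ U := hDU huD
  set v₀ : Fin n → ZMod 2 := Multiplicative.toAdd (ψ ⟨u, huU⟩) with hv₀
  have hv₀S : v₀ ∈ S := ⟨⟨u, huU⟩, huD, rfl⟩
  have hv₀0 : v₀ ≠ 0 := by
    intro h0
    apply huU₀
    refine (hker ⟨u, huU⟩).1 ?_
    apply Multiplicative.toAdd.injective
    rw [← hv₀, h0]
    rfl
  have hsumv : ∑ i, v₀ i = 0 := hsum _
  have h2 : ∀ x : ZMod 2, x = 0 ∨ x = 1 := by decide
  have h11 : (1 : ZMod 2) + 1 = 0 := by decide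
  have hne1 : ∀ x : ZMod 2, x ≠ 0 → x = 1 := fun x hx => (h2 x).resolve_left hx
  obtain ⟨i, hi⟩ : ∃ i, v₀ i ≠ 0 := by
    by_contra hcon
    push Not at hcon
    exact hv₀0 (funext hcon)
  have hi1 : v₀ i = 1 := hne1 _ hi
  obtain ⟨j, hj⟩ : ∃ j, v₀ j = 0 := by
    by_contra hcon
    push Not at hcon
    have hall : ∀ x, v₀ x = 1 := fun x => hne1 _ (hcon x)
    have : ∑ x, v₀ x = (n : ZMod 2) := by
      simp [hall]
    rw [hsumv] at this
    have h3 : ((n : ℕ) : ZMod 2) = 1 := by
      obtain ⟨m, rfl⟩ := hn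
      push_cast
      have : (2 : ZMod 2) = 0 := by decide
      rw [this]
      simp
    rw [h3] at this
    exact zero_ne_one this
  have hij : i ≠ j := by
    rintro rfl
    rw [hi1] at hj
    exact one_ne_zero hj
  have hn3 : 2 < Fintype.card (Fin n) := by
    rw [Fintype.card_fin]
    have h1 : 1 < Fintype.card (Fin n) := Fintype.one_lt_card_iff.2 ⟨i, j, hij⟩
    rw [Fintype.card_fin] at h1
    obtain ⟨m, rfl⟩ := hn
    omega
  obtain ⟨k, hki, hkj⟩ : ∃ k, k ≠ i ∧ k ≠ j := by
    have h3 : (({i, j} : Finset (Fin n)) : Set (Fin n)).ncard ≤ 2 := by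
      rw [Set.ncard_coe_finset]
      exact Finset.card_le_two
    obtain ⟨k, -, hk⟩ := Set.exists_mem_notMem_of_ncard_lt_ncard (s := (({i, j} : Finset (Fin n)) : Set (Fin n)))
      (t := Set.univ) (by rw [Set.ncard_univ, Nat.card_eq_fintype_card]; omega)
    simp only [Finset.coe_insert, Finset.coe_singleton, Set.mem_insert_iff, Set.mem_singleton_iff,
      not_or] at hk
    exact ⟨k, hk.1, hk.2⟩
  -- single vectors
  let ee : Fin n → Fin n → ZMod 2 := fun a => Pi.single a 1
  have hpair0 : ∃ a b, a ≠ b ∧ ee a + ee b ∈ S := by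
    let t : Equiv.Perm (Fin n) := Equiv.swap i j * Equiv.swap j k
    have ht3 : t.IsThreeCycle := by
      have := Equiv.Perm.isThreeCycle_swap_mul_swap_same (a := j) (b := i) (c := k) hij.symm hkj.symm hki.symm
      rwa [Equiv.swap_comm j i] at this
    have htA : t ∈ alternatingGroup (Fin n) := ht3.mem_alternatingGroup
    have hti : t i = j := by
      simp [t, Equiv.swap_apply_of_ne_of_ne hij hki.symm]
    have htj : t j = k := by
      simp [t, Equiv.swap_apply_of_ne_of_ne hki hkj]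
    have htk : t k = i := by
      simp [t]
    have hto : ∀ x, x ≠ i → x ≠ j → x ≠ k → t x = x := by
      intro x h1 h2 h3
      simp [t, Equiv.swap_apply_of_ne_of_ne h2 h3, Equiv.swap_apply_of_ne_of_ne h1 h2]
    have hv₁ : v₀ + (fun x => v₀ (t x)) ∈ S := by
      refine hSadd _ _ hv₀S ?_
      have := hSinv t⁻¹ (inv_mem htA) v₀ hv₀S
      simpa using this
    have hval : ∀ x, (v₀ + fun x => v₀ (t x)) x = v₀ x + v₀ (t x) := fun x => rfl
    rcases h2 (v₀ k) with hk0 | hk1
    · refine ⟨i, k, hki.symm, ?_⟩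
      convert hv₁ using 1
      funext x
      rw [hval]
      by_cases hxi : x = i
      · subst hxi
        rw [hti, hi1, hj]
        simp [ee, hki.symm]
      by_cases hxj : x = j
      · subst hxj
        rw [htj, hj, hk0]
        simp [ee, hij.symm, hkj.symm]
      by_cases hxk : x = k
      · subst hxk
        rw [htk, hk0, hi1]
        simp [ee, hki]
      · rw [hto x hxi hxj hxk]
        have h5 : v₀ x + v₀ x = 0 := by
          rcases h2 (v₀ x) with h6 | h6 <;> rw [h6]
          · simp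
          · exact h11
        rw [h5]
        simp [ee, hxi, hxk]
    · refine ⟨i, j, hij, ?_⟩
      convert hv₁ using 1
      funext x
      rw [hval]
      by_cases hxi : x = i
      · subst hxi
        rw [hti, hi1, hj]
        simp [ee, hij]
      by_cases hxj : x = j
      · subst hxj
        rw [htj, hj, hk1]
        simp [ee, hij.symm]
      by_cases hxk : x = k
      · subst hxk
        rw [htk, hk1, hi1, h11]
        simp [ee, hki, hkj]
      · rw [hto x hxi hxj hxk]
        have h5 : v₀ x + v₀ x = 0 := by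
          rcases h2 (v₀ x) with h6 | h6 <;> rw [h6]
          · simp
          · exact h11
        rw [h5]
        simp [ee, hxi, hxj]
  obtain ⟨a, b, hab, habS⟩ := hpair0
  have hee : ∀ (σ : Equiv.Perm (Fin n)) (c : Fin n), (fun x => ee c (σ⁻¹ x)) = ee (σ c) := by
    intro σ c
    funext x
    by_cases hx : x = σ c
    · subst hx
      simp [ee]
    · have hthis : σ⁻¹ x ≠ c := by
        intro h
        apply hx
        rw [← h]
        simp
      show (Pi.single c (1 : ZMod 2) : Fin n → ZMod 2) (σ⁻¹ x) = (Pi.single (σ c) (1 : ZMod 2) : Fin n → ZMod 2) x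
      rw [Pi.single_eq_of_ne hthis, Pi.single_eq_of_ne hx]
  have hall : ∀ a' b', a' ≠ b' → ee a' + ee b' ∈ S := by
    intro a' b' hab'
    let π₁ : Equiv.Perm (Fin n) := Equiv.swap a a'
    let π : Equiv.Perm (Fin n) := Equiv.swap (π₁ b) b' * π₁
    have hπa : π a = a' := by
      have h1 : π₁ a = a' := by simp [π₁]
      have h2' : a' ≠ π₁ b := by
        rw [← h1]
        exact fun h => hab (π₁.injective h)
      simp only [π, Equiv.Perm.coe_mul, Function.comp_apply, h1]
      exact Equiv.swap_apply_of_ne_of_ne h2' hab'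
    have hπb : π b = b' := by
      simp [π]
    by_cases hsign : Equiv.Perm.sign π = 1
    · have := hSinv π (Equiv.Perm.mem_alternatingGroup.2 hsign) _ habS
      have e : (fun i => (ee a + ee b) (π⁻¹ i)) = ee (π a) + ee (π b) := by
        funext x
        have h1 := congrFun (hee π a) x
        have h2' := congrFun (hee π b) x
        show ee a (π⁻¹ x) + ee b (π⁻¹ x) = ee (π a) x + ee (π b) x
        rw [← h1, ← h2']
      rw [e, hπa, hπb] at this
      exact this
    · have hsign' : Equiv.Perm.sign π = -1 := (Int.units_eq_one_or _).resolve_left hsign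
      have hs2 : Equiv.Perm.sign (π * Equiv.swap a b) = 1 := by
        rw [map_mul, hsign', Equiv.Perm.sign_swap hab]
        rfl
      have := hSinv (π * Equiv.swap a b) (Equiv.Perm.mem_alternatingGroup.2 hs2) _ habS
      have e : (fun i => (ee a + ee b) ((π * Equiv.swap a b)⁻¹ i)) =
          ee ((π * Equiv.swap a b) a) + ee ((π * Equiv.swap a b) b) := by
        funext x
        have h1 := congrFun (hee (π * Equiv.swap a b) a) x
        have h2' := congrFun (hee (π * Equiv.swap a b) b) x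
        show ee a ((π * Equiv.swap a b)⁻¹ x) + ee b ((π * Equiv.swap a b)⁻¹ x) =
          ee ((π * Equiv.swap a b) a) x + ee ((π * Equiv.swap a b) b) x
        rw [← h1, ← h2']
      have e1 : (π * Equiv.swap a b) a = b' := by simp [hπb]
      have e2 : (π * Equiv.swap a b) b = a' := by simp [hπa]
      rw [e, e1, e2, add_comm] at this
      exact this
  -- every even-weight vector
  have hev : ∀ x : Fin n → ZMod 2, ∑ y, x y = 0 → x ∈ S := by
    intro x hx
    have hterm : ∀ y, (x y) • (ee y + ee a) ∈ S := by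
      intro y
      rcases h2 (x y) with h0 | h1
      · rw [h0, zero_smul]
        exact hS0
      · rw [h1, one_smul]
        by_cases hya : y = a
        · subst hya
          have : ee y + ee y = 0 := by
            funext z
            show ee y z + ee y z = 0
            rcases h2 (ee y z) with h6 | h6 <;> rw [h6]
            · simp
            · exact h11
          rw [this]
          exact hS0
        · exact hall y a hya
    have hsumS : ∀ s : Finset (Fin n), ∑ y ∈ s, (x y) • (ee y + ee a) ∈ S := by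
      intro s
      induction s using Finset.induction_on with
      | empty => simpa using hS0
      | insert y s hy ih =>
        rw [Finset.sum_insert hy]
        exact hSadd _ _ (hterm y) ih
    have e : x = ∑ y, (x y) • (ee y + ee a) := by
      funext z
      simp only [Finset.sum_apply, Pi.smul_apply, Pi.add_apply, smul_eq_mul, mul_add]
      rw [Finset.sum_add_distrib, ← Finset.sum_mul, hx, zero_mul, add_zero]
      simp [ee, Pi.single_apply]
    rw [e]
    exact hsumS _
  intro w hw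
  obtain ⟨d, hd, hdw⟩ := hev _ (hsum ⟨w, hw⟩)
  have hψ : ψ d = ψ ⟨w, hw⟩ := Multiplicative.toAdd.injective hdw
  have h1 : ψ (⟨w, hw⟩ * d⁻¹) = 1 := by
    rw [map_mul, map_inv, ← hψ, mul_inv_cancel]
  have h3 : w * (d : G)⁻¹ ∈ D := hD ((hker _).1 h1)
  have h4 := mul_mem h3 hd
  simpa using h4

end Irr

end Cfsg.Agent.Lib.LocalEven.SecIrr
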