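/-
Blocks relative to the Baumann subgroup in a group of characteristic `p`: the residual of
`E O_p(G)`, the location of the commutator module.
-/
import Cfsg.Agent.Lib.LocalEven.Baumann
import Cfsg.Agent.Lib.LocalEven.SecIrr
import Cfsg.Agent.Lib.PReduced.RelNorm
import Cfsg.Agent.Lib.QuadAct.Replacement

set_option autoImplicit false
set_option linter.unusedSectionVars false

namespace Cfsg.Agent.Lib.LocalEven.BaumannBlock

open Subgroup Cfsg
open Cfsg.Agent.Lib.PLocal.Thompson
open Cfsg.Agent.Lib.LocalEven.Util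
open Cfsg.Agent.Lib.LocalEven.Baumann
open Cfsg.Agent.Lib.LocalEven.SecIrr
open Cfsg.Agent.Lib.PReduced.RelNorm (mem_omegaOne_center_iff)
open Cfsg.Agent.Lib.QuadAct.Replacement (iterCommutator_le exists_iterCommutator_eq_bot)
open Cfsg.Agent.Lib.LocalStruct.PCoreOf
open scoped commutatorElement

variable {G : Type*} [Group G] [Finite G] {p : ℕ}

theorem mem_omegaOneCenter {Y : Subgroup G} {x : G} :
    x ∈ omegaOneCenter p Y ↔ x ∈ Y ∧ x ∈ centralizer (Y : Set G) ∧ x ^ p = 1 := by
  show x ∈ omegaOne p (Y ⊓ centralizer (Y : Set G)) ↔ _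
  rw [mem_omegaOne_center_iff, mem_inf, and_assoc]

theorem omegaOneCenter_le (Y : Subgroup G) : omegaOneCenter p Y ≤ Y :=
  fun _ hx => (mem_omegaOneCenter.1 hx).1

theorem omegaOneCenter_comm (Y : Subgroup G) {a b : G} (ha : a ∈ omegaOneCenter p Y)
    (hb : b ∈ omegaOneCenter p Y) : a * b = b * a :=
  (mem_centralizer_iff.1 (mem_omegaOneCenter.1 hb).2.1 a (mem_omegaOneCenter.1 ha).1)

theorem pow_eq_one_of_mem_omegaOneCenter {Y : Subgroup G} {x : G} (hx : x ∈ omegaOneCenter p Y) :
    x ^ p = 1 := (mem_omegaOneCenter.1 hx).2.2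

theorem isPGroup_omegaOneCenter (Y : Subgroup G) : IsPGroup p (omegaOneCenter p Y) := by
  rintro ⟨x, hx⟩
  refine ⟨1, ?_⟩
  apply Subtype.ext
  simpa using pow_eq_one_of_mem_omegaOneCenter hx

theorem normalizer_le_omegaOneCenter (H : Subgroup G) :
    normalizer (H : Set G) ≤ normalizer (omegaOneCenter p H : Set G) := by
  intro g hg
  apply normalizer_le_omegaOne
  apply mem_normalizer_of_conj_le
  intro y hy
  exact mem_inf.2 ⟨conj_mem_of_mem_normalizer hg (mem_inf.1 hy).1,
    conj_mem_of_mem_normalizer (normalizer_le_centralizer _ hg) (mem_inf.1 hy).2⟩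

/-- The `p'`-elements of `K B` lie in `K`, for a `p`-group `B` normalizing `K`. -/
theorem mem_of_coprime_of_mem_sup {K B : Subgroup G} (hBp : IsPGroup p B)
    (hBK : B ≤ normalizer (K : Set G)) {x : G} (hx : x ∈ K ⊔ B) (hxo : (orderOf x).Coprime p) :
    x ∈ K := by
  rw [sup_comm] at hx
  obtain ⟨j, hj, k, hk, rfl⟩ :=
    Cfsg.Agent.Lib.Components.Basic.mem_sup_of_le_normalizer hBK hx
  obtain ⟨m, hm⟩ := hBp ⟨j, hj⟩
  have hjm : j ^ (p ^ m) = 1 := by
    have := congrArg Subtype.val hm
    simpa using this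
  have hpow : ∀ n : ℕ, ∃ k' ∈ K, (j * k) ^ n = k' * j ^ n := by
    intro n
    induction n with
    | zero => exact ⟨1, one_mem _, by simp⟩
    | succ n ih =>
      obtain ⟨k', hk', he⟩ := ih
      have hjn : j ^ n ∈ normalizer (K : Set G) := pow_mem (hBK hj) n
      have hj1 : j ∈ normalizer (K : Set G) := hBK hj
      refine ⟨k' * (j ^ n * (j * k * j⁻¹) * (j ^ n)⁻¹), mul_mem hk' ?_, ?_⟩
      · refine (mem_normalizer_iff.1 hjn _).1 ((mem_normalizer_iff.1 hj1 _).1 hk)
      · rw [pow_succ, he, pow_succ]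
        group
  obtain ⟨k', hk', he⟩ := hpow (p ^ m)
  rw [hjm, mul_one] at he
  have hcop : Nat.Coprime (p ^ m) (orderOf (j * k)) :=
    Nat.Coprime.pow_left _ hxo.symm
  obtain ⟨r, hr⟩ := exists_pow_eq_self_of_coprime hcop
  rw [← hr, he]
  exact pow_mem hk' r

theorem le_of_le_sup_comm [Fact p.Prime] {U N A : Subgroup G}
    (hUab : ∀ a ∈ U, ∀ b ∈ U, a * b = b * a)
    (hU : IsPGroup p U) (hA : IsPGroup p A) (hAU : A ≤ normalizer (U : Set G))
    (hAN : A ≤ normalizer (N : Set G)) (hNU : N ≤ U) (h : U ≤ N ⊔ ⁅U, A⁆) : U ≤ N := by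
  have hXU : ∀ i, iterCommutator U A i ≤ U := iterCommutator_le hAU
  have hXN : ∀ i, A ≤ normalizer (iterCommutator U A i : Set G) := by
    intro i a ha
    induction i with
    | zero => exact hAU ha
    | succ i ih => exact mem_normalizer_commutator ih (le_normalizer ha)
  have key : ∀ i, iterCommutator U A i ≤ N ⊔ iterCommutator U A (i + 1) := by
    intro i
    induction i with
    | zero => exact h
    | succ i ih =>
      show ⁅iterCommutator U A i, A⁆ ≤ N ⊔ ⁅iterCommutator U A (i + 1), A⁆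
      rw [Subgroup.commutator_le]
      intro x hx a ha
      have hx' := ih hx
      have hNX : N ≤ normalizer (iterCommutator U A (i + 1) : Set G) := by
        intro n hn
        apply mem_normalizer_of_conj_le
        intro y hy
        have : n * y * n⁻¹ = y := by
          rw [hUab n (hNU hn) y (hXU _ hy)]
          group
        rw [this]
        exact hy
      obtain ⟨n, hn, y, hy, rfl⟩ :=
        Cfsg.Agent.Lib.Components.Basic.mem_sup_of_le_normalizer hNX hx'
      have hu₁ : a * n⁻¹ * a⁻¹ ∈ N := conj_mem_of_mem_normalizer (hAN ha) (inv_mem hn)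
      have hu₂ : a * y⁻¹ * a⁻¹ ∈ U :=
        conj_mem_of_mem_normalizer (hAU ha) (inv_mem (hXU _ hy))
      have hny : ⁅n * y, a⁆ = ⁅n, a⁆ * ⁅y, a⁆ := by
        simp only [commutatorElement_def]
        have hc := hUab (a * n⁻¹ * a⁻¹) (hNU hu₁) (y * (a * y⁻¹ * a⁻¹))
          (mul_mem (hXU _ hy) hu₂)
        calc n * y * a * (n * y)⁻¹ * a⁻¹
            = n * ((y * (a * y⁻¹ * a⁻¹)) * (a * n⁻¹ * a⁻¹)) := by group
          _ = n * ((a * n⁻¹ * a⁻¹) * (y * (a * y⁻¹ * a⁻¹))) := by rw [hc]
          _ = n * a * n⁻¹ * a⁻¹ * (y * a * y⁻¹ * a⁻¹) := by group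
      rw [hny]
      refine mul_mem (mem_sup_left ?_) (mem_sup_right (commutator_mem_commutator hy ha))
      have : ⁅n, a⁆ = n * (a * n⁻¹ * a⁻¹) := by
        simp only [commutatorElement_def]
        group
      rw [this]
      exact mul_mem hn hu₁
  have all : ∀ i, U ≤ N ⊔ iterCommutator U A i := by
    intro i
    induction i with
    | zero => exact le_sup_right
    | succ i ih =>
      refine ih.trans (sup_le le_sup_left (key i))
  obtain ⟨n, hn⟩ := exists_iterCommutator_eq_bot hU hAU (fun a ha => by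
    obtain ⟨k, hk⟩ := hA ⟨a, ha⟩
    refine ⟨k, ?_⟩
    have : a ^ (p ^ k) = 1 := by
      have := congrArg Subtype.val hk
      simpa using this
    rw [this]
    exact one_mem _)
  have := all n
  rwa [hn, sup_bot_eq] at this

section Block

variable [Fact p.Prime] {T E : Subgroup G}

theorem block_secIrr (hE : IsBaumannBlock p T E) :
    SecIrr E (omegaOneCenter p (pCoreOf p E))
      (omegaOneCenter p (pCoreOf p E) ⊓ centralizer (E : Set G)) := by
  rcases hE.2.2.2.2 with ⟨F, _, _, n, _, _, h, _⟩ | ⟨_, m, _, h, _⟩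
  · exact secIrr_of_sl2 h
  · exact secIrr_of_perm ⟨m, rfl⟩ h

theorem block_le_normalizer_pCoreOf (E : Subgroup G) :
    E ≤ normalizer (omegaOneCenter p (pCoreOf p E) : Set G) :=
  (le_normalizer_pCoreOf E).trans (normalizer_le_omegaOneCenter _)

theorem block_gen (hE : IsBaumannBlock p T E) :
    closure {g : G | g ∈ E ∧ (orderOf g).Coprime p} = E :=
  closure_of_pResidualOf hE.1

theorem block_not_central (hE : IsBaumannBlock p T E) :
    ¬ omegaOneCenter p (pCoreOf p E) ≤ centralizer (E : Set G) := by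
  classical
  intro hcen
  have hmem : ∀ u ∈ omegaOneCenter p (pCoreOf p E),
      u ∈ omegaOneCenter p (pCoreOf p E) ⊓ centralizer (E : Set G) :=
    fun u hu => mem_inf.2 ⟨hu, hcen hu⟩
  rcases hE.2.2.2.2 with ⟨F, _, _, n, _, _, h, _⟩ | ⟨_, m, hiso, h, _⟩
  · obtain ⟨-, -, ρ, ψ, hρ, hψs, hker, hact⟩ := h
    obtain ⟨u, hu⟩ := hψs (Multiplicative.ofAdd ![1, 0])
    have h1 : ψ u = 1 := (hker u).2 (hmem u u.2)
    rw [h1] at hu
    have h2 : (![1, 0] : Fin 2 → F) = 0 := by
      have := congrArg Multiplicative.toAdd hu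
      exact this.symm
    have h3 := congrFun h2 0
    simp at h3
  · obtain ⟨-, -, ρ, ψ, hρ, hsum, hsurj, hker, hact⟩ := h
    rcases Nat.eq_zero_or_pos m with rfl | hm
    · -- `E` is a `p`-group generated by `p'`-elements
      obtain ⟨e⟩ := hiso
      have hsub : Subsingleton (↥E ⧸ pCore p ↥E) := by
        have : Subsingleton (alternatingGroup (Fin (2 * 0 + 1))) := by
          have : Subsingleton (Equiv.Perm (Fin (2 * 0 + 1))) := by
            simp only [Nat.mul_zero, Nat.zero_add]
            infer_instance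
          infer_instance
        exact e.toEquiv.subsingleton
      have hpE : pCore p ↥E = ⊤ := by
        rw [eq_top_iff]
        intro x _
        have : (x : ↥E ⧸ pCore p ↥E) = 1 := Subsingleton.elim _ _
        exact (QuotientGroup.eq_one_iff x).1 this
      have hEp : IsPGroup p ↥E := by
        intro x
        have hx : x ∈ pCore p ↥E := by rw [hpE]; trivial
        obtain ⟨k, hk⟩ := (Cfsg.Agent.Lib.Core.Basic.pCore_isPGroup (p := p) (G := ↥E)) ⟨x, hx⟩
        refine ⟨k, ?_⟩
        have := congrArg Subtype.val hk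
        simpa using this
      have hbot : E = ⊥ := by
        have hgen := block_gen hE
        rw [← hgen, closure_eq_bot_iff]
        rintro g ⟨hg, hco⟩
        obtain ⟨k, hk⟩ := hEp ⟨g, hg⟩
        have hgk : g ^ (p ^ k) = 1 := by
          have := congrArg Subtype.val hk
          simpa using this
        have hcop : Nat.Coprime (p ^ k) (orderOf g) := Nat.Coprime.pow_left _ hco.symm
        have : orderOf g ∣ p ^ k := orderOf_dvd_of_pow_eq_one hgk
        have h1 : orderOf g = 1 := Nat.Coprime.eq_one_of_dvd hcop.symm this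
        rw [Set.mem_singleton_iff]
        exact orderOf_eq_one_iff.1 h1
      apply hE.2.2.2.1
      rw [hbot, commutator_bot_left]
    · have : NeZero (2 * m + 1) := ⟨by omega⟩
      let a : Fin (2 * m + 1) := ⟨0, by omega⟩
      let b : Fin (2 * m + 1) := ⟨1, by omega⟩
      have hab : a ≠ b := by
        intro h
        have := congrArg Fin.val h
        simp [a, b] at this
      let v : Fin (2 * m + 1) → ZMod 2 := Pi.single a 1 + Pi.single b 1
      have hv : ∑ i, v i = 0 := by
        simp only [v, Pi.add_apply, Finset.sum_add_distrib, Finset.sum_pi_single', Finset.mem_univ,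
          if_true]
        decide
      obtain ⟨u, hu⟩ := hsurj v hv
      have h1 : ψ u = 1 := (hker u).2 (hmem u u.2)
      rw [h1] at hu
      have h3 := congrFun hu a
      simp only [v, Pi.add_apply, Pi.single_eq_same, Pi.single_eq_of_ne hab] at h3
      have h4 : (0 : ZMod 2) = 1 + 0 := h3
      exact absurd h4 (by decide)

end Block

theorem commute_of_coprime {g u : G} (hv : g * (g * u * g⁻¹ * u⁻¹) = (g * u * g⁻¹ * u⁻¹) * g)
    (hvp : (g * u * g⁻¹ * u⁻¹) ^ p = 1) (hco : (orderOf g).Coprime p) : g * u = u * g := by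
  set v := g * u * g⁻¹ * u⁻¹ with hvdef
  have hgv : g * u * g⁻¹ = v * u := by rw [hvdef]; group
  have h : ∀ n : ℕ, g ^ n * u * (g ^ n)⁻¹ = v ^ n * u := by
    intro n
    induction n with
    | zero => simp
    | succ n ih =>
      have hc : Commute g (v ^ n) := (show Commute g v from hv).pow_right n
      calc g ^ (n + 1) * u * (g ^ (n + 1))⁻¹ = g * (g ^ n * u * (g ^ n)⁻¹) * g⁻¹ := by
            rw [pow_succ']; group
        _ = g * (v ^ n) * u * g⁻¹ := by rw [ih]; group
        _ = v ^ n * g * u * g⁻¹ := by rw [hc.eq]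
        _ = v ^ n * (g * u * g⁻¹) := by group
        _ = v ^ (n + 1) * u := by rw [hgv, pow_succ]; group
  have h1 := h (orderOf g)
  rw [pow_orderOf_eq_one] at h1
  simp only [one_mul, inv_one, mul_one] at h1
  have h2 : v ^ (orderOf g) = 1 := by
    have : v ^ (orderOf g) * u = 1 * u := by rw [one_mul, ← h1]
    exact mul_right_cancel this
  have h3 : orderOf v ∣ Nat.gcd (orderOf g) p :=
    Nat.dvd_gcd (orderOf_dvd_of_pow_eq_one h2) (orderOf_dvd_of_pow_eq_one hvp)
  rw [hco] at h3
  have h4 : v = 1 := orderOf_eq_one_iff.1 (Nat.dvd_one.1 h3)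
  rw [h4, one_mul] at hgv
  calc g * u = (g * u * g⁻¹) * g := by group
    _ = u * g := by rw [hgv]

theorem normalizer_le_normalizer_pCoreOf [Fact p.Prime] (K : Subgroup G) :
    normalizer (K : Set G) ≤ normalizer (pCoreOf p K : Set G) := by
  intro g hg
  apply mem_normalizer_of_conj_le
  intro y hy
  have h1 : K.map (MulAut.conj g).toMonoidHom = K := by
    apply Subgroup.eq_of_le_of_card_ge
    · rintro _ ⟨a, ha, rfl⟩
      exact conj_mem_of_mem_normalizer hg ha
    · rw [Subgroup.card_map_of_injective (MulAut.conj g).injective]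
  have h2 : g * y * g⁻¹ ∈ (pCoreOf p K).map (MulAut.conj g).toMonoidHom := ⟨y, hy, rfl⟩
  rwa [pCoreOf_conj, h1] at h2

section Main

variable [Fact p.Prime] {T : Sylow p G} {E : Subgroup G}

theorem mem_normalizer_pCore (g : G) : g ∈ normalizer (pCore p G : Set G) := by
  have := normalizer_eq_top_iff.2 (pCore_normal p G)
  rw [this]
  trivial

theorem pCore_le_normalizer_block (hE : IsBaumannBlock p (T : Subgroup G) E) :
    pCore p G ≤ normalizer (E : Set G) :=
  le_normalizer_block T hE Cfsg.Agent.Lib.Core.Basic.pCore_isPGroup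
    (fun g _ => mem_normalizer_pCore g) (fun g _ => mem_normalizer_pCore g)

theorem block_residual (hE : IsBaumannBlock p (T : Subgroup G) E) :
    pResidualOf p (E ⊔ pCore p G) = E := by
  apply le_antisymm
  · rw [pResidualOf, pResidual, MonoidHom.map_closure, closure_le]
    rintro _ ⟨g, hg, rfl⟩
    refine mem_of_coprime_of_mem_sup (p := p) Cfsg.Agent.Lib.Core.Basic.pCore_isPGroup
      (pCore_le_normalizer_block hE) g.2 ?_
    have : orderOf (g : G) = orderOf g := Subgroup.orderOf_coe g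
    show (orderOf (g : G)).Coprime p
    rw [this]
    exact hg
  · conv_lhs => rw [← block_gen hE]
    rw [closure_le]
    rintro g ⟨hg, hco⟩
    refine ⟨⟨g, mem_sup_left hg⟩, subset_closure ?_, rfl⟩
    have : orderOf (⟨g, mem_sup_left hg⟩ : ↥(E ⊔ pCore p G)) = orderOf g :=
      Subgroup.orderOf_mk _ _
    show (orderOf _).Coprime p
    rw [this]
    exact hco

theorem block_comm_le (hG : centralizer (pCore p G : Set G) ≤ pCore p G)
    (hE : IsBaumannBlock p (T : Subgroup G) E) :
    ⁅omegaOneCenter p (pCoreOf p E), E⁆ ≤ omegaOneCenter p (pCore p G) := by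
  set Q := pCoreOf p E with hQ
  set Ω := omegaOneCenter p Q with hΩ
  set C := Ω ⊓ centralizer (E : Set G) with hC
  set P := pCore p G with hP
  have hPE : P ≤ normalizer (E : Set G) := pCore_le_normalizer_block hE
  have hPQ : P ≤ normalizer (Q : Set G) := hPE.trans (normalizer_le_normalizer_pCoreOf E)
  have hPΩ : P ≤ normalizer (Ω : Set G) := hPQ.trans (normalizer_le_omegaOneCenter Q)
  have hPC : P ≤ normalizer (C : Set G) := fun x hx =>
    Cfsg.Agent.Lib.PReduced.RelNorm.mem_normalizer_inf (hPΩ hx)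
      (Cfsg.Agent.Lib.PReduced.RelNorm.mem_normalizer_centralizer (hPE hx))
  have hEΩ : E ≤ normalizer (Ω : Set G) := block_le_normalizer_pCoreOf E
  have hEC : E ≤ normalizer (C : Set G) := fun x hx =>
    Cfsg.Agent.Lib.PReduced.RelNorm.mem_normalizer_inf (hEΩ hx)
      (Cfsg.Agent.Lib.PReduced.RelNorm.mem_normalizer_centralizer (le_normalizer hx))
  have hPp : IsPGroup p P := Cfsg.Agent.Lib.Core.Basic.pCore_isPGroup
  have hEP : ⁅E, P⁆ ≤ Q := by
    have h1 : ⁅E, P⁆ ≤ E := Cfsg.Agent.Lib.QuadAct.Basic.commutator_le_of_le_normalizer hPE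
    have h2 : ⁅E, P⁆ ≤ P := by
      have : P.Normal := pCore_normal p G
      exact Subgroup.commutator_le_right _ _
    have h3 : E ⊓ P ≤ Q := by
      apply le_pCoreOf inf_le_left
      · intro x hx
        exact Cfsg.Agent.Lib.PReduced.RelNorm.mem_normalizer_inf (le_normalizer hx)
          (mem_normalizer_pCore x)
      · exact hPp.to_le inf_le_right
    exact (le_inf h1 h2).trans h3
  have h1 : ⁅⁅E, P⁆, Ω⁆ = ⊥ := by
    rw [commutator_eq_bot_iff_le_centralizer]
    intro x hx
    rw [mem_centralizer_iff]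
    intro y hy
    exact (mem_centralizer_iff.1 (mem_omegaOneCenter.1 hy).2.1 x (hEP hx)).symm
  have hΩP : ⁅Ω, P⁆ ≤ Ω := Cfsg.Agent.Lib.QuadAct.Basic.commutator_le_of_le_normalizer hPΩ
  have hCle : ⁅Ω, P⁆ ≤ C := by
    by_contra hcon
    obtain ⟨u, hu, huC⟩ := SetLike.not_le_iff_exists.1 hcon
    have hirr := block_secIrr hE (⁅Ω, P⁆ ⊔ C) le_sup_right (sup_le hΩP inf_le_left)
      (fun x hx => Cfsg.Agent.Lib.PReduced.RelNorm.mem_normalizer_sup
        (mem_normalizer_commutator (hEΩ hx) (mem_normalizer_pCore x)) (hEC hx))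
      ⟨u, mem_sup_left hu, huC⟩
    have := le_of_le_sup_comm (U := Ω) (N := C) (A := P) (p := p)
      (fun a ha b hb => omegaOneCenter_comm _ ha hb) (isPGroup_omegaOneCenter _) hPp hPΩ hPC
      inf_le_left (by rw [sup_comm]; exact hirr)
    exact block_not_central hE (this.trans inf_le_right)
  have h2 : ⁅⁅P, Ω⁆, E⁆ = ⊥ := by
    rw [commutator_eq_bot_iff_le_centralizer, commutator_comm]
    exact hCle.trans inf_le_right
  have h3 : ⁅⁅Ω, E⁆, P⁆ = ⊥ := commutator_commutator_eq_bot_of_rotate h1 h2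
  rw [commutator_eq_bot_iff_le_centralizer] at h3
  have hWΩ : ⁅Ω, E⁆ ≤ Ω := Cfsg.Agent.Lib.QuadAct.Basic.commutator_le_of_le_normalizer hEΩ
  intro w hw
  have hwP : w ∈ centralizer (P : Set G) := h3 hw
  exact mem_omegaOneCenter.2 ⟨hG hwP, hwP, (mem_omegaOneCenter.1 (hWΩ hw)).2.2⟩

theorem block_comm_ne (hG : centralizer (pCore p G : Set G) ≤ pCore p G)
    (hE : IsBaumannBlock p (T : Subgroup G) E) :
    ⁅⁅omegaOneCenter p (pCoreOf p E), E⁆, thompsonSubgroupOf p (T : Subgroup G)⁆ ≠ ⊥ := by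
  intro hbot
  set Q := pCoreOf p E with hQ
  set Ω := omegaOneCenter p Q with hΩ
  set W := ⁅Ω, E⁆ with hW
  rw [thompsonSubgroupOf_eq, commutator_eq_bot_iff_le_centralizer] at hbot
  have hEΩ : E ≤ normalizer (Ω : Set G) := block_le_normalizer_pCoreOf E
  have hWΩ : W ≤ Ω := Cfsg.Agent.Lib.QuadAct.Basic.commutator_le_of_le_normalizer hEΩ
  have hWP : W ≤ pCore p G := (block_comm_le hG hE).trans (omegaOneCenter_le _)
  have hWT : W ≤ (T : Subgroup G) := hWP.trans (Cfsg.Agent.Lib.Core.Basic.pCore_le_sylow T)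
  have hEW : E ≤ normalizer (W : Set G) := fun x hx =>
    mem_normalizer_commutator (hEΩ hx) (le_normalizer hx)
  -- `W` lies in `Ω₁(Z(J(T)))`
  have hWZ : W ≤ omegaOne p (zjOf p (T : Subgroup G)) := by
    intro w hw
    have hwp : w ^ p = 1 := (mem_omegaOneCenter.1 (hWΩ hw)).2.2
    have hwc : w ∈ centralizer (jOf p (T : Subgroup G) : Set G) := hbot hw
    have hwA : ∀ A, IsMaxIn p (T : Subgroup G) A → w ∈ A := by
      intro A hA
      exact hA.mem_of_commute (hWT hw) hwp
        (fun a ha => (mem_centralizer_iff.1 hwc a (hA.le_jOf ha)))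
    obtain ⟨A, hA⟩ := exists_isMaxIn p (T : Subgroup G)
    refine subset_closure ⟨?_, hwp⟩
    exact mem_inf.2 ⟨hA.le_jOf (hwA A hA), hwc⟩
  -- `B(T)` centralizes `W`
  have hBW : baumannSubgroupOf p (T : Subgroup G) ≤ centralizer (W : Set G) := by
    rw [baumann_eq]
    intro b hb
    rw [mem_centralizer_iff]
    intro w hw
    exact mem_centralizer_iff.1 (mem_inf.1 hb).2 w (hWZ hw)
  -- `E = [E, B(T)]` centralizes `W`
  have hEcW : E ≤ centralizer (W : Set G) := by
    conv_lhs => rw [← hE.2.1]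
    rw [Subgroup.commutator_le]
    intro e he b hb
    have h1 : e * b * e⁻¹ ∈ centralizer (W : Set G) :=
      conj_mem_of_mem_normalizer (normalizer_le_centralizer _ (hEW he)) (hBW hb)
    exact mul_mem h1 (inv_mem (hBW hb))
  apply block_not_central hE
  intro u hu
  rw [mem_centralizer_iff]
  intro e he
  have hEu : E ≤ centralizer ({u} : Set G) := by
    conv_lhs => rw [← block_gen hE]
    rw [closure_le]
    rintro g ⟨hg, hco⟩
    have hv : g * u * g⁻¹ * u⁻¹ ∈ W := by
      have h1 : ⁅u, g⁆ ∈ W := commutator_mem_commutator hu hg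
      have h2 := inv_mem h1
      have h3 : ⁅u, g⁆⁻¹ = g * u * g⁻¹ * u⁻¹ := by
        simp only [commutatorElement_def]
        group
      rwa [h3] at h2
    have h5 := commute_of_coprime (p := p) (g := g) (u := u)
      (mem_centralizer_iff.1 (hEcW hg) _ hv).symm (mem_omegaOneCenter.1 (hWΩ hv)).2.2 hco
    show g ∈ centralizer ({u} : Set G)
    rw [mem_centralizer_iff]
    intro h hh
    rw [Set.mem_singleton_iff] at hh
    rw [hh]
    exact h5.symm
  have := mem_centralizer_iff.1 (hEu he) u rfl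
  exact this.symm

end Main

end Cfsg.Agent.Lib.LocalEven.BaumannBlock
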