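/-
Elementary facts on `p`-minimal groups.
-/
import Cfsg.Agent.Lib.Subnormal.Basic
import Cfsg.Agent.Lib.Components.SylowSub
import Cfsg.Agent.Lib.Coprime.Action
import Cfsg.Agent.Lib.Transfer.Basic
import Cfsg.Agent.Lib.Core.Basic
import Cfsg.Agent.Lib.LocalEven.Util
import Cfsg.Prelude.Def_LocalEven

set_option autoImplicit false
set_option linter.unusedSectionVars false

namespace Cfsg.Agent.Lib.LocalEven.PMinimal

open Subgroup Cfsg Cfsg.Agent.Lib.Subnormal.Basic Cfsg.Agent.Lib.Coprime.Action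
  Cfsg.Agent.Lib.Core.Basic Cfsg.Agent.Lib.LocalEven.Util
open scoped Pointwise

variable {P : Type*} [Group P] [Finite P] {p : ℕ} [Fact p.Prime]

/-- Every proper subgroup containing `S` lies in the unique maximal subgroup containing `S`. -/
theorem le_of_sylow_le (hP : IsPMinimal p P) (S : Sylow p P) {M : Subgroup P} (hM : IsCoatom M)
    (hSM : (S : Subgroup P) ≤ M) {H : Subgroup P} (hS : (S : Subgroup P) ≤ H) (hne : H ≠ ⊤) :
    H ≤ M := by
  obtain ⟨-, M', ⟨hM'c, hSM'⟩, huniq⟩ := hP S
  obtain h | ⟨C, hC, hHC⟩ := eq_top_or_exists_le_coatom H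
  · exact absurd h hne
  · have h1 := huniq C ⟨hC, hS.trans hHC⟩
    have h2 := huniq M ⟨hM, hSM⟩
    rw [h2, ← h1]
    exact hHC

theorem conj_smul_top (g : P) : MulAut.conj g • (⊤ : Subgroup P) = ⊤ := by
  ext y
  rw [mem_conj]
  simp

/-- One step up a subnormal chain. -/
theorem SN.exists_step {A T : Subgroup P} (h : SN A T) (hne : A ≠ T) :
    ∃ c, Nml A c ∧ A < c ∧ SN c T := by
  induction h using Relation.ReflTransGen.head_induction_on with
  | refl => exact absurd rfl hne
  | @head a c h1 h2 ih =>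
    by_cases hac : a = c
    · subst hac
      exact ih hne
    · exact ⟨c, h1, lt_of_le_of_ne h1.1 hac, h2⟩

/-- `N ∩ S ≤ O_p(P)` for `N` subnormal in `M`. -/
theorem inf_sylow_le_pCore (hP : IsPMinimal p P) (S : Sylow p P) {M : Subgroup P} (hM : IsCoatom M)
    (hSM : (S : Subgroup P) ≤ M) {N : Subgroup P} (hN : N.IsSubnormal) (hNM : N ≤ M) :
    N ⊓ (S : Subgroup P) ≤ pCore p P := by
  classical
  let Φ : Subgroup P → Prop := fun X => X.IsSubnormal ∧ X ≤ M
  obtain ⟨K, hNK, hK⟩ := Finite.exists_le_maximal (p := Φ) (a := N) ⟨hN, hNM⟩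
  have hKsn : K.IsSubnormal := hK.prop.1
  have hKM : K ≤ M := hK.prop.2
  have hKSN : SN K ⊤ := isSubnormal_iff_SN_top.1 hKsn
  have hSK : (S : Subgroup P) ≤ normalizer (K : Set P) := by
    intro s hs
    have hconj : SN (MulAut.conj s • K) ⊤ := by
      have := SN.conj hKSN s
      rwa [conj_smul_top] at this
    have h1 : Φ (K ⊔ MulAut.conj s • K) :=
      ⟨isSubnormal_iff_SN_top.2 (SN.sup hKSN hconj), sup_le hKM (conj_le_of_mem (hSM hs) hKM)⟩
    have h2 := hK.le_of_ge h1 le_sup_left
    have h3 : MulAut.conj s • K ≤ K := le_sup_right.trans h2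
    apply mem_normalizer_of_conj_le
    intro y hy
    exact h3 (conj_mem_conj hy)
  have hKtop : K ≠ ⊤ := fun h => hM.1 (top_le_iff.1 (h ▸ hKM))
  obtain ⟨K₂, hNml, hlt, hK₂⟩ := SN.exists_step hKSN hKtop
  have hK₂M : ¬ K₂ ≤ M := fun h =>
    not_le_of_gt hlt (hK.le_of_ge ⟨isSubnormal_iff_SN_top.2 hK₂, h⟩ hlt.le)
  obtain ⟨x, hxK₂, hxM⟩ := SetLike.not_le_iff_exists.1 hK₂M
  set T₁ : Subgroup P := (S : Subgroup P) ⊓ K with hT₁def
  have hT₁ : IsSylowIn p T₁ K := by
    refine ⟨inf_le_right, S.isPGroup'.to_le inf_le_left, ?_⟩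
    rw [hT₁def, Subgroup.inf_relIndex_right]
    exact Cfsg.Agent.Lib.Components.SylowSub.not_dvd_relIndex S hKsn
  have h1 := hT₁.conj_of_mem_normalizer (hNml.2 hxK₂)
  obtain ⟨y, hyK, hy⟩ := hT₁.exists_conj h1
  have hn : y⁻¹ * x ∈ normalizer (T₁ : Set P) := by
    apply mem_normalizer_of_conj_smul_eq
    have e : MulAut.conj (y⁻¹ * x) • T₁ = MulAut.conj y⁻¹ • (MulAut.conj x • T₁) := by
      rw [map_mul, mul_smul]
    rw [e, ← hy]
    exact conj_inv_conj y T₁
  have hnM : ¬ normalizer (T₁ : Set P) ≤ M := by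
    intro hle
    apply hxM
    have h2 := hle hn
    have h3 := mul_mem (hKM hyK) h2
    simpa using h3
  have hSN : (S : Subgroup P) ≤ normalizer (T₁ : Set P) := by
    intro s hs
    apply mem_normalizer_of_conj_le
    intro t ht
    obtain ⟨ht1, ht2⟩ := mem_inf.1 ht
    exact mem_inf.2 ⟨mul_mem (mul_mem hs ht1) (inv_mem hs), (mem_normalizer_iff.1 (hSK hs) t).1 ht2⟩
  have htop : normalizer (T₁ : Set P) = ⊤ := by
    by_contra hne
    exact hnM (le_of_sylow_le hP S hM hSM hSN hne)
  have hT₁n : T₁.Normal := normalizer_eq_top_iff.1 htop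
  have hle := le_pCore hT₁n hT₁.2.1
  refine le_trans ?_ hle
  rw [hT₁def, inf_comm]
  exact inf_le_inf_left _ hNK

/-- Normal subgroups: they contain `O^p(P)` or lie in the core. -/
theorem pResidual_le_or_le_normalCore (hP : IsPMinimal p P) (S : Sylow p P) {M : Subgroup P}
    (hM : IsCoatom M) (hSM : (S : Subgroup P) ≤ M) {N : Subgroup P} (hN : N.Normal) :
    pResidual p P ≤ N ∨ N ≤ M.normalCore := by
  by_cases htop : (S : Subgroup P) ⊔ N = ⊤
  · left
    haveI := hN
    apply Cfsg.Agent.Lib.Transfer.Basic.pResidual_le_of_isPGroup_quotient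
    intro y
    obtain ⟨g, rfl⟩ := QuotientGroup.mk_surjective y
    have hg : g ∈ (S : Subgroup P) ⊔ N := by rw [htop]; trivial
    rw [mem_sup_of_normal_right] at hg
    obtain ⟨s, hs, n, hn, rfl⟩ := hg
    obtain ⟨k, hk⟩ := S.isPGroup' ⟨s, hs⟩
    refine ⟨k, ?_⟩
    have hk' : s ^ p ^ k = 1 := by simpa using congrArg Subtype.val hk
    rw [QuotientGroup.mk_mul, (QuotientGroup.eq_one_iff n).2 hn, mul_one, ← QuotientGroup.mk_pow,
      hk']
    rfl
  · right
    have hle := le_of_sylow_le hP S hM hSM le_sup_left htop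
    haveI := hN
    exact (Subgroup.normal_le_normalCore).2 (le_sup_right.trans hle)

theorem sylow_sup_pResidual_not_le (S : Sylow p P) {M : Subgroup P} (hM : IsCoatom M)
    (hSM : (S : Subgroup P) ≤ M) : ¬ pResidual p P ≤ M := by
  intro h
  have := Cfsg.Agent.Lib.Transfer.Basic.sylow_sup_pResidual (p := p) S
  apply hM.1
  rw [eq_top_iff, ← this]
  exact sup_le hSM h

/-- Prime divisors when `O^p(P)` has a normal Sylow `p`-subgroup. -/
theorem primeFactors_card_le (hP : IsPMinimal p P) (S : Sylow p P) {M : Subgroup P}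
    (hM : IsCoatom M) (hSM : (S : Subgroup P) ≤ M)
    (h : ∀ T : Sylow p ↥(pResidual p P), (T : Subgroup ↥(pResidual p P)).Normal) :
    (Nat.card P).primeFactors.card ≤ 2 := by
  classical
  have hp : p.Prime := Fact.out
  set R := pResidual p P with hR
  haveI hRn : R.Normal := Cfsg.Agent.Lib.Transfer.Basic.pResidual_normal p
  set A₀ := pCore p P with hA₀
  haveI hA₀n : A₀.Normal := pCore_normal p P
  have hA₀p : IsPGroup p A₀ := pCore_isPGroup
  have hA₀S : A₀ ≤ (S : Subgroup P) := pCore_le_sylow S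
  set f : P →* P ⧸ A₀ := QuotientGroup.mk' A₀ with hf
  have hfs : Function.Surjective f := QuotientGroup.mk'_surjective A₀
  -- `Rb` is a `p'`-group
  obtain ⟨T⟩ : Nonempty (Sylow p ↥R) := inferInstance
  have hT₀ : (T : Subgroup ↥R).map R.subtype ≤ A₀ := by
    apply le_pCore_of_isSubnormal
    · refine IsSubnormal.step _ R (map_subtype_le _) hRn.isSubnormal ?_
      have : ((T : Subgroup ↥R).map R.subtype).subgroupOf R = (T : Subgroup ↥R) := by
        ext w
        simp [mem_subgroupOf]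
      rw [this]
      exact h T
    · exact T.isPGroup'.map _
  set Rb := R.map f with hRb
  set Sb := (S : Subgroup P).map f with hSb
  have hRbc : (Nat.card Rb).Coprime p := by
    have hg : Rb = (f.comp R.subtype).range := by
      rw [MonoidHom.range_comp, range_subtype]
    rw [hg, ← Subgroup.index_ker]
    have hle : (T : Subgroup ↥R) ≤ (f.comp R.subtype).ker := by
      intro t ht
      rw [MonoidHom.mem_ker]
      exact (QuotientGroup.eq_one_iff _).2 (hT₀ ⟨t, ht, rfl⟩)
    have hd : (f.comp R.subtype).ker.index ∣ (T : Subgroup ↥R).index :=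
      Subgroup.index_dvd_of_le hle
    refine Nat.Coprime.coprime_dvd_left hd ?_
    exact ((Nat.Prime.coprime_iff_not_dvd hp).2 T.not_dvd_index).symm
  have hSbp : IsPGroup p Sb := S.isPGroup'.map f
  have hSbc : (Nat.card Sb).Coprime (Nat.card Rb) := by
    obtain ⟨n, hn⟩ := IsPGroup.iff_card.1 hSbp
    rw [hn]
    exact Nat.Coprime.pow_left _ hRbc.symm
  have hSbRb : Sb ≤ normalizer (Rb : Set (P ⧸ A₀)) := by
    have : Rb.Normal := hRn.map f hfs
    rw [normalizer_eq_top_iff.2 this]
    exact le_top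
  have hsolv : Group.IsSolvable Sb := by
    haveI : Group.IsNilpotent Sb := hSbp.isNilpotent
    infer_instance
  -- the key alternative
  have hkey : ∃ q : ℕ, q.Prime ∧ q ≠ p ∧ ∃ Qb : Subgroup (P ⧸ A₀), IsPGroup q Qb ∧
      Sb ≤ normalizer (Qb : Set (P ⧸ A₀)) ∧ Qb ⊔ Sb = ⊤ := by
    by_contra hno
    push Not at hno
    have hall : Rb ≤ M.map f := by
      have hX : (M.map f).subgroupOf Rb = ⊤ := by
        apply eq_top_of_forall_sylow_le
        intro q hq
        by_cases hqp : q = p
        · subst hqp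
          obtain ⟨P'⟩ : Nonempty (Sylow q ↥Rb) := inferInstance
          refine ⟨P', ?_⟩
          have hbot : (P' : Subgroup ↥Rb) = ⊥ := by
            have hcard : Nat.card (P' : Subgroup ↥Rb) = 1 := by
              obtain ⟨n, hn⟩ := IsPGroup.iff_card.1 P'.isPGroup'
              have hd : Nat.card (P' : Subgroup ↥Rb) ∣ Nat.card Rb :=
                Subgroup.card_subgroup_dvd_card _
              rw [hn] at hd ⊢
              cases n with
              | zero => simp
              | succ n =>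
                exfalso
                have : q ∣ Nat.card Rb := (dvd_pow_self q (Nat.succ_ne_zero n)).trans hd
                exact (Nat.Prime.coprime_iff_not_dvd hp).1 hRbc.symm this
            exact Subgroup.eq_bot_of_card_eq _ hcard
          rw [hbot]
          exact bot_le
        · obtain ⟨Qb, hQb, hQbS⟩ := exists_invariant_sylowIn (p := q) hSbRb hSbc (Or.inl hsolv)
          have hne := hno q hq.out hqp Qb hQb.2.1 hQbS
          -- `U_q` is proper, contains `S`
          set U : Subgroup P := (Qb ⊔ Sb).comap f with hU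
          have hSU : (S : Subgroup P) ≤ U := by
            intro s hs
            exact mem_sup_right ⟨s, hs, rfl⟩
          have hUne : U ≠ ⊤ := by
            intro htop
            apply hne
            rw [eq_top_iff]
            intro y _
            obtain ⟨g, rfl⟩ := hfs y
            have : g ∈ U := by rw [htop]; trivial
            exact this
          have hUM := le_of_sylow_le hP S hM hSM hSU hUne
          obtain ⟨P', hP'⟩ := exists_sylow_of_isSylowIn hQb
          refine ⟨P', ?_⟩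
          intro y hy
          rw [mem_subgroupOf]
          have hyQ : (y : P ⧸ A₀) ∈ Qb := by
            rw [← hP']
            exact ⟨y, hy, rfl⟩
          obtain ⟨g, hg⟩ := hfs (y : P ⧸ A₀)
          have hgU : g ∈ U := by
            show f g ∈ Qb ⊔ Sb
            rw [hg]
            exact mem_sup_left hyQ
          exact ⟨g, hUM hgU, hg⟩
      intro y hy
      have : (⟨y, hy⟩ : Rb) ∈ (M.map f).subgroupOf Rb := by rw [hX]; trivial
      rwa [mem_subgroupOf] at this
    apply sylow_sup_pResidual_not_le (p := p) S hM hSM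
    intro r hr
    obtain ⟨m, hm, hme⟩ := hall ⟨r, hr, rfl⟩
    have h1 : m⁻¹ * r ∈ A₀ := by
      exact QuotientGroup.eq.1 hme
    have h2 : m⁻¹ * r ∈ M := hSM (hA₀S h1)
    have h3 := mul_mem hm h2
    simpa using h3
  obtain ⟨q, hq, hqp, Qb, hQbp, hQbS, hQbtop⟩ := hkey
  haveI : Fact q.Prime := ⟨hq⟩
  have hinf : Sb ⊓ Qb = ⊥ := by
    rw [← disjoint_iff]
    apply Subgroup.disjoint_of_coprime_natCard
    obtain ⟨a, ha⟩ := IsPGroup.iff_card.1 hSbp
    obtain ⟨b, hb⟩ := IsPGroup.iff_card.1 hQbp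
    rw [ha, hb]
    exact Nat.Coprime.pow _ _ ((Nat.coprime_primes hp hq).2 hqp.symm)
  have hcard := card_sup_of_le_normalizer (A := Sb) (K := Qb) hQbS (by rw [inf_comm]; exact hinf)
  rw [sup_comm] at hcard
  have hcard' : Nat.card Qb * Nat.card Sb = Nat.card (P ⧸ A₀) := by
    rw [hcard, sup_comm, hQbtop, Subgroup.card_top]
  have hcardP : Nat.card P = Nat.card A₀ * Nat.card (P ⧸ A₀) :=
    (Subgroup.card_eq_card_quotient_mul_card_subgroup A₀).trans (mul_comm _ _)
  obtain ⟨a, ha⟩ := IsPGroup.iff_card.1 hA₀p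
  obtain ⟨b, hb⟩ := IsPGroup.iff_card.1 hSbp
  obtain ⟨c, hc⟩ := IsPGroup.iff_card.1 hQbp
  have hsub : (Nat.card P).primeFactors ⊆ {p, q} := by
    intro r hr
    have hrp : r.Prime := Nat.prime_of_mem_primeFactors hr
    have hrd : r ∣ Nat.card P := Nat.dvd_of_mem_primeFactors hr
    rw [hcardP, ← hcard', ha, hb, hc] at hrd
    simp only [Finset.mem_insert, Finset.mem_singleton]
    rcases (Nat.Prime.dvd_mul hrp).1 hrd with h1 | h1
    · exact Or.inl ((Nat.prime_dvd_prime_iff_eq hrp hp).1 (hrp.dvd_of_dvd_pow h1))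
    · rcases (Nat.Prime.dvd_mul hrp).1 h1 with h2 | h2
      · exact Or.inr ((Nat.prime_dvd_prime_iff_eq hrp hq).1 (hrp.dvd_of_dvd_pow h2))
      · exact Or.inl ((Nat.prime_dvd_prime_iff_eq hrp hp).1 (hrp.dvd_of_dvd_pow h2))
  calc (Nat.card P).primeFactors.card ≤ ({p, q} : Finset ℕ).card := Finset.card_le_card hsub
    _ ≤ 2 := Finset.card_le_two

end Cfsg.Agent.Lib.LocalEven.PMinimal
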