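import Mathlib
import Cfsg.Agent.Lib.LocalEven.AltCore
import Cfsg.Agent.S2119
import Cfsg.Prelude.Def_LocalEven

/-!
# 3-minimal alternating groups

A proper pair of overgroups of a 3-subgroup of `Alt(Ω)`, given by stabilizers of invariant
equivalence relations.
-/

set_option autoImplicit false

namespace Cfsg.Agent.Lib.LocalEven.AltMin

open Equiv Equiv.Perm Subgroup Cfsg
open Cfsg.Agent.S2119 (cyc cyc_isThreeCycle cyc_a cyc_b cyc_c cyc_other cyc_conj)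
open Cfsg.Agent.Lib.LocalEven.AltCore

variable {Ω : Type*} [DecidableEq Ω] [Fintype Ω]

/-- The stabilizer of a relation. -/
def relStab (r : Ω → Ω → Prop) : Subgroup (Perm Ω) where
  carrier := {g | ∀ x y, r x y ↔ r (g x) (g y)}
  mul_mem' := by
    intro a b ha hb x y
    rw [hb x y, ha (b x) (b y)]
    rfl
  one_mem' := by
    intro x y
    rfl
  inv_mem' := by
    intro a ha x y
    have := ha (a⁻¹ x) (a⁻¹ y)
    simpa using this.symm

theorem mem_relStab {r : Ω → Ω → Prop} {g : Perm Ω} :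
    g ∈ relStab r ↔ ∀ x y, r x y ↔ r (g x) (g y) := Iff.rfl

theorem mem_relStab_of_rel {r : Ω → Ω → Prop} (hr : Equivalence r) {g : Perm Ω}
    (hg : ∀ x, r x (g x)) : g ∈ relStab r := by
  intro x y
  constructor
  · intro h
    exact hr.trans (hr.symm (hg x)) (hr.trans h (hg y))
  · intro h
    exact hr.trans (hg x) (hr.trans h (hr.symm (hg y)))

/-- A 3-cycle in a class of `r` stabilizes `r`. -/
theorem cyc_mem_relStab {r : Ω → Ω → Prop} (hr : Equivalence r) {a b c : Ω} (hab : r a b)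
    (hac : r a c) (h1 : a ≠ b) (h2 : a ≠ c) (h3 : b ≠ c) : cyc a b c ∈ relStab r := by
  apply mem_relStab_of_rel hr
  intro x
  by_cases hxa : x = a
  · subst hxa
    rw [cyc_a h1 h2]
    exact hab
  by_cases hxb : x = b
  · subst hxb
    rw [cyc_b h2 h3]
    exact hr.trans (hr.symm hab) hac
  by_cases hxc : x = c
  · subst hxc
    rw [cyc_c]
    exact hr.symm hac
  rw [cyc_other hxa hxb hxc]
  exact hr.refl x

/-- Stabilizers of nontrivial relations are proper in the alternating group. -/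
theorem relStab_subgroupOf_ne_top {r : Ω → Ω → Prop} (hcard : 4 ≤ Fintype.card Ω) {u v w : Ω}
    (huv : r u v) (huw : ¬ r u w) (hne : u ≠ v) (hrefl : r u u) :
    (relStab r).subgroupOf (alternatingGroup Ω) ≠ ⊤ := by
  classical
  intro htop
  have huw' : u ≠ w := fun h => huw (h ▸ hrefl)
  have hvw : v ≠ w := fun h => huw (h ▸ huv)
  obtain ⟨z, hz⟩ : ∃ z, z ∉ ({u, v, w} : Finset Ω) := by
    by_contra hall
    push Not at hall
    have h1 : (Finset.univ : Finset Ω) ⊆ {u, v, w} := fun x _ => hall x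
    have h2 := Finset.card_le_card h1
    have h3 : ({u, v, w} : Finset Ω).card ≤ 3 := Finset.card_le_three
    rw [Finset.card_univ] at h2
    omega
  simp only [Finset.mem_insert, Finset.mem_singleton, not_or] at hz
  obtain ⟨hzu, hzv, hzw⟩ := hz
  have hzu' : u ≠ z := fun h => hzu h.symm
  have hzv' : v ≠ z := fun h => hzv h.symm
  have hzw' : w ≠ z := fun h => hzw h.symm
  have h3 : (cyc v w z).IsThreeCycle := cyc_isThreeCycle hvw hzv' hzw'
  have hmem : (cyc v w z) ∈ alternatingGroup Ω := h3.mem_alternatingGroup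
  have h4 : (⟨cyc v w z, hmem⟩ : alternatingGroup Ω) ∈ (relStab r).subgroupOf (alternatingGroup Ω) := by
    rw [htop]
    exact mem_top _
  rw [mem_subgroupOf] at h4
  have h5 := (h4 u v).1 huv
  have h6 : cyc v w z u = u := cyc_other hne huw' hzu'
  rw [h6] at h5
  have h7 : cyc v w z v = w := cyc_a hvw hzv'
  rw [show (⟨cyc v w z, hmem⟩ : alternatingGroup Ω).1 v = w from h7] at h5
  exact huw h5

/-- The generation criterion. -/
theorem sup_eq_top_of_conn (Y₁ Y₂ : Subgroup (alternatingGroup Ω))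
    (hne : ∃ t ∈ Y₁ ⊔ Y₂, (t : Perm Ω).IsThreeCycle)
    (hconn : ∀ x y : Ω, ∃ g ∈ closure {t : Perm Ω | t ∈ (Y₁ ⊔ Y₂).map (alternatingGroup Ω).subtype ∧ t.IsThreeCycle},
      g x = y) : Y₁ ⊔ Y₂ = ⊤ := by
  set G' := Y₁ ⊔ Y₂ with hG'
  set 𝒯 : Set (Perm Ω) := {t : Perm Ω | t ∈ G'.map (alternatingGroup Ω).subtype ∧ t.IsThreeCycle} with h𝒯
  have h1 : closure 𝒯 = alternatingGroup Ω := by
    apply closure_eq_alternating (fun t ht => ht.2) _ hconn
    obtain ⟨t, ht, h3⟩ := hne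
    exact ⟨t, ⟨t, ht, rfl⟩, h3⟩
  rw [eq_top_iff]
  intro g _
  have h2 : (g : Perm Ω) ∈ closure 𝒯 := by
    rw [h1]
    exact g.2
  have h3 : closure 𝒯 ≤ G'.map (alternatingGroup Ω).subtype := by
    rw [closure_le]
    exact fun t ht => ht.1
  obtain ⟨g', hg', hgg⟩ := h3 h2
  have : g' = g := Subtype.ext hgg
  rwa [← this]

/-- A 3-minimal group has no two proper overgroups of a Sylow subgroup generating it. -/
theorem false_of_sup_eq_top {X : Type*} [Group X] [Finite X] {p : ℕ} [Fact p.Prime]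
    (hX : IsPMinimal p X) (T : Sylow p X) {Y₁ Y₂ : Subgroup X} (h1 : (T : Subgroup X) ≤ Y₁)
    (h2 : (T : Subgroup X) ≤ Y₂) (hY₁ : Y₁ ≠ ⊤) (hY₂ : Y₂ ≠ ⊤) (hsup : Y₁ ⊔ Y₂ = ⊤) : False := by
  obtain ⟨-, M, ⟨hM, -⟩, huniq⟩ := hX T
  obtain ⟨M₁, hM₁, hY₁M⟩ := (eq_top_or_exists_le_coatom Y₁).resolve_left hY₁
  obtain ⟨M₂, hM₂, hY₂M⟩ := (eq_top_or_exists_le_coatom Y₂).resolve_left hY₂
  have e1 := huniq M₁ ⟨hM₁, h1.trans hY₁M⟩
  have e2 := huniq M₂ ⟨hM₂, h2.trans hY₂M⟩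
  rw [e1] at hY₁M
  rw [e2] at hY₂M
  apply hM.1
  rw [eq_top_iff, ← hsup]
  exact sup_le hY₁M hY₂M

section Conn

variable (𝒯 : Set (Perm Ω))

/-- Connected under the closure of `𝒯`. -/
def Conn (x y : Ω) : Prop := ∃ g ∈ closure 𝒯, g x = y

variable {𝒯}

theorem Conn.refl (x : Ω) : Conn 𝒯 x x := ⟨1, one_mem _, rfl⟩

theorem Conn.symm {x y : Ω} (h : Conn 𝒯 x y) : Conn 𝒯 y x := by
  obtain ⟨g, hg, rfl⟩ := h
  exact ⟨g⁻¹, inv_mem hg, by simp⟩

theorem Conn.trans {x y z : Ω} (h : Conn 𝒯 x y) (h' : Conn 𝒯 y z) : Conn 𝒯 x z := by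
  obtain ⟨g, hg, rfl⟩ := h
  obtain ⟨g', hg', rfl⟩ := h'
  exact ⟨g' * g, mul_mem hg' hg, rfl⟩

theorem Conn.of_mem {t : Perm Ω} (ht : t ∈ 𝒯) (x : Ω) : Conn 𝒯 x (t x) :=
  ⟨t, Subgroup.subset_closure ht, rfl⟩

end Conn

/-- Two disjoint invariant sets give two overgroups. -/
theorem false_of_two_sets (hcard : 4 ≤ Fintype.card Ω) (hX : IsPMinimal 3 (alternatingGroup Ω))
    (T : Sylow 3 (alternatingGroup Ω)) (U₁ U₂ : Set Ω)
    (hT₁ : ∀ t ∈ (T : Subgroup (alternatingGroup Ω)), ∀ x, (t : Perm Ω) x ∈ U₁ ↔ x ∈ U₁)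
    (hT₂ : ∀ t ∈ (T : Subgroup (alternatingGroup Ω)), ∀ x, (t : Perm Ω) x ∈ U₂ ↔ x ∈ U₂)
    (hdis : Disjoint U₁ U₂) {a₁ a₂ z : Ω} (ha₁ : a₁ ∈ U₁) (ha₂ : a₂ ∈ U₂) (hz₁ : z ∉ U₁)
    (hz₂ : z ∉ U₂) (h₁ : ∀ x y, x ∉ U₁ → y ∉ U₁ → ∃ w, w ∉ U₁ ∧ w ≠ x ∧ w ≠ y)
    (h₂ : ∀ x y, x ∉ U₂ → y ∉ U₂ → ∃ w, w ∉ U₂ ∧ w ≠ x ∧ w ≠ y) : False := by
  classical
  let r₁ : Ω → Ω → Prop := fun x y => x ∈ U₁ ↔ y ∈ U₁
  let r₂ : Ω → Ω → Prop := fun x y => x ∈ U₂ ↔ y ∈ U₂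
  have hr₁ : Equivalence r₁ := ⟨fun _ => Iff.rfl, fun h => h.symm, fun h h' => h.trans h'⟩
  have hr₂ : Equivalence r₂ := ⟨fun _ => Iff.rfl, fun h => h.symm, fun h h' => h.trans h'⟩
  let Y₁ := (relStab r₁).subgroupOf (alternatingGroup Ω)
  let Y₂ := (relStab r₂).subgroupOf (alternatingGroup Ω)
  have hTY₁ : (T : Subgroup (alternatingGroup Ω)) ≤ Y₁ := by
    intro t ht
    rw [mem_subgroupOf]
    intro x y
    show (x ∈ U₁ ↔ y ∈ U₁) ↔ ((t : Perm Ω) x ∈ U₁ ↔ (t : Perm Ω) y ∈ U₁)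
    rw [hT₁ t ht x, hT₁ t ht y]
  have hTY₂ : (T : Subgroup (alternatingGroup Ω)) ≤ Y₂ := by
    intro t ht
    rw [mem_subgroupOf]
    intro x y
    show (x ∈ U₂ ↔ y ∈ U₂) ↔ ((t : Perm Ω) x ∈ U₂ ↔ (t : Perm Ω) y ∈ U₂)
    rw [hT₂ t ht x, hT₂ t ht y]
  have hz₁₂ : ∀ x, x ∈ U₁ → x ∉ U₂ := fun x hx hx' => (Set.disjoint_left.1 hdis) hx hx'
  -- 3-cycles
  have hcyc₁ : ∀ x y w, x ∉ U₁ → y ∉ U₁ → w ∉ U₁ → x ≠ y → w ≠ x → w ≠ y →
      ∃ t ∈ Y₁, (t : Perm Ω) = cyc x y w := by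
    intro x y w hx hy hw h1 h2 h3
    have h4 : (cyc x y w).IsThreeCycle := cyc_isThreeCycle h1 h2.symm h3.symm
    refine ⟨⟨_, h4.mem_alternatingGroup⟩, ?_, rfl⟩
    rw [mem_subgroupOf]
    exact cyc_mem_relStab hr₁ (by simp [r₁, hx, hy]) (by simp [r₁, hx, hw]) h1 h2.symm h3.symm
  have hcyc₂ : ∀ x y w, x ∉ U₂ → y ∉ U₂ → w ∉ U₂ → x ≠ y → w ≠ x → w ≠ y →
      ∃ t ∈ Y₂, (t : Perm Ω) = cyc x y w := by
    intro x y w hx hy hw h1 h2 h3
    have h4 : (cyc x y w).IsThreeCycle := cyc_isThreeCycle h1 h2.symm h3.symm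
    refine ⟨⟨_, h4.mem_alternatingGroup⟩, ?_, rfl⟩
    rw [mem_subgroupOf]
    exact cyc_mem_relStab hr₂ (by simp [r₂, hx, hy]) (by simp [r₂, hx, hw]) h1 h2.symm h3.symm
  -- properness
  obtain ⟨w₁, hw₁, hw₁z, -⟩ := h₁ z z hz₁ hz₁
  obtain ⟨w₂, hw₂, hw₂z, -⟩ := h₂ z z hz₂ hz₂
  have hY₁ : Y₁ ≠ ⊤ := relStab_subgroupOf_ne_top (r := r₁) (u := z) (v := w₁) (w := a₁) hcard
    (by simp [r₁, hz₁, hw₁]) (by simp [r₁, hz₁, ha₁]) hw₁z.symm Iff.rfl
  have hY₂ : Y₂ ≠ ⊤ := relStab_subgroupOf_ne_top (r := r₂) (u := z) (v := w₂) (w := a₂) hcard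
    (by simp [r₂, hz₂, hw₂]) (by simp [r₂, hz₂, ha₂]) hw₂z.symm Iff.rfl
  set 𝒯 : Set (Perm Ω) :=
    {t : Perm Ω | t ∈ (Y₁ ⊔ Y₂).map (alternatingGroup Ω).subtype ∧ t.IsThreeCycle} with h𝒯
  have hconnz : ∀ x, Conn 𝒯 x z := by
    intro x
    by_cases hxz : x = z
    · rw [hxz]
      exact Conn.refl z
    by_cases hx₁ : x ∈ U₁
    · have hx₂ : x ∉ U₂ := hz₁₂ x hx₁
      obtain ⟨w, hw, h1, h2⟩ := h₂ x z hx₂ hz₂
      obtain ⟨t, ht, hte⟩ := hcyc₂ x z w hx₂ hz₂ hw hxz h1 h2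
      have h3 : cyc x z w ∈ 𝒯 :=
        ⟨⟨t, mem_sup_right ht, hte⟩, cyc_isThreeCycle hxz h1.symm h2.symm⟩
      have h4 := Conn.of_mem h3 x
      rwa [cyc_a hxz h1.symm] at h4
    · obtain ⟨w, hw, h1, h2⟩ := h₁ x z hx₁ hz₁
      obtain ⟨t, ht, hte⟩ := hcyc₁ x z w hx₁ hz₁ hw hxz h1 h2
      have h3 : cyc x z w ∈ 𝒯 :=
        ⟨⟨t, mem_sup_left ht, hte⟩, cyc_isThreeCycle hxz h1.symm h2.symm⟩
      have h4 := Conn.of_mem h3 x
      rwa [cyc_a hxz h1.symm] at h4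
  have hsup : Y₁ ⊔ Y₂ = ⊤ := by
    apply sup_eq_top_of_conn
    · obtain ⟨w, hw, h1, h2⟩ := h₁ z w₁ hz₁ hw₁
      obtain ⟨t, ht, hte⟩ := hcyc₁ z w₁ w hz₁ hw₁ hw hw₁z.symm h1 h2
      refine ⟨t, mem_sup_left ht, ?_⟩
      rw [hte]
      exact cyc_isThreeCycle hw₁z.symm h1.symm h2.symm
    · intro x y
      exact (hconnz x).trans (hconnz y).symm
  exact false_of_sup_eq_top hX T hTY₁ hTY₂ hY₁ hY₂ hsup

theorem mem_relStab_of_imp {r : Ω → Ω → Prop} {g : Perm Ω} (hg : ∀ u v, r u v → r (g u) (g v)) :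
    g ∈ relStab r := by
  have hpow : ∀ k : ℕ, ∀ u v, r u v → r ((g ^ k) u) ((g ^ k) v) := by
    intro k
    induction k with
    | zero =>
      intro u v h
      simpa using h
    | succ k ih =>
      intro u v h
      rw [pow_succ']
      exact hg _ _ (ih u v h)
  intro u v
  refine ⟨hg u v, fun h => ?_⟩
  have hm : 0 < orderOf g := orderOf_pos g
  have h1 := hpow (orderOf g - 1) _ _ h
  have e : g ^ (orderOf g - 1) * g = 1 := by
    rw [← pow_succ, Nat.sub_add_cancel hm, pow_orderOf_eq_one]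
  have e' : ∀ x, (g ^ (orderOf g - 1)) (g x) = x := by
    intro x
    have := congrArg (fun f : Perm Ω => f x) e
    simpa using this
  rwa [e', e'] at h1

/-- Swap of two triples. -/
def tswap (a₁ a₂ a₃ c₁ c₂ c₃ : Ω) : Perm Ω := swap a₁ c₁ * swap a₂ c₂ * swap a₃ c₃

/-- Swap of two classes of size three. -/
theorem tswap_facts {r : Ω → Ω → Prop} (hr : Equivalence r) {a₁ a₂ a₃ c₁ c₂ c₃ : Ω}
    (h12 : a₁ ≠ a₂) (h13 : a₁ ≠ a₃) (h23 : a₂ ≠ a₃) (k12 : c₁ ≠ c₂) (k13 : c₁ ≠ c₃) (k23 : c₂ ≠ c₃)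
    (ha : ∀ w, r a₁ w ↔ w = a₁ ∨ w = a₂ ∨ w = a₃) (hc : ∀ w, r c₁ w ↔ w = c₁ ∨ w = c₂ ∨ w = c₃)
    (hn : ¬ r a₁ c₁) :
    tswap a₁ a₂ a₃ c₁ c₂ c₃ ∈ relStab r ∧ tswap a₁ a₂ a₃ c₁ c₂ c₃ a₁ = c₁ ∧
      (∀ x, ¬ r a₁ x → ¬ r c₁ x → tswap a₁ a₂ a₃ c₁ c₂ c₃ x = x) ∧
      Perm.sign (tswap a₁ a₂ a₃ c₁ c₂ c₃) = -1 := by
  have key : ∀ u v, r a₁ u → r c₁ v → u ≠ v := fun u v h1 h2 h =>
    hn (hr.trans h1 (hr.symm (h ▸ h2)))
  have ra1 : r a₁ a₁ := (ha a₁).2 (Or.inl rfl)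
  have ra2 : r a₁ a₂ := (ha a₂).2 (Or.inr (Or.inl rfl))
  have ra3 : r a₁ a₃ := (ha a₃).2 (Or.inr (Or.inr rfl))
  have rc1 : r c₁ c₁ := (hc c₁).2 (Or.inl rfl)
  have rc2 : r c₁ c₂ := (hc c₂).2 (Or.inr (Or.inl rfl))
  have rc3 : r c₁ c₃ := (hc c₃).2 (Or.inr (Or.inr rfl))
  have d11 := key _ _ ra1 rc1
  have d12 := key _ _ ra1 rc2
  have d13 := key _ _ ra1 rc3
  have d21 := key _ _ ra2 rc1
  have d22 := key _ _ ra2 rc2
  have d23 := key _ _ ra2 rc3
  have d31 := key _ _ ra3 rc1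
  have d32 := key _ _ ra3 rc2
  have d33 := key _ _ ra3 rc3
  set g := tswap a₁ a₂ a₃ c₁ c₂ c₃ with hg
  have ga1 : g a₁ = c₁ := by
    simp only [hg, tswap, Perm.mul_apply]
    rw [swap_apply_of_ne_of_ne h13 d13, swap_apply_of_ne_of_ne h12 d12, swap_apply_left]
  have ga2 : g a₂ = c₂ := by
    simp only [hg, tswap, Perm.mul_apply]
    rw [swap_apply_of_ne_of_ne h23 d23, swap_apply_left,
      swap_apply_of_ne_of_ne d12.symm k12.symm]
  have ga3 : g a₃ = c₃ := by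
    simp only [hg, tswap, Perm.mul_apply]
    rw [swap_apply_left, swap_apply_of_ne_of_ne d23.symm k23.symm,
      swap_apply_of_ne_of_ne d13.symm k13.symm]
  have gc1 : g c₁ = a₁ := by
    simp only [hg, tswap, Perm.mul_apply]
    rw [swap_apply_of_ne_of_ne d31.symm k13, swap_apply_of_ne_of_ne d21.symm k12, swap_apply_right]
  have gc2 : g c₂ = a₂ := by
    simp only [hg, tswap, Perm.mul_apply]
    rw [swap_apply_of_ne_of_ne d32.symm k23, swap_apply_right,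
      swap_apply_of_ne_of_ne h12.symm d21]
  have gc3 : g c₃ = a₃ := by
    simp only [hg, tswap, Perm.mul_apply]
    rw [swap_apply_right, swap_apply_of_ne_of_ne h23.symm d32,
      swap_apply_of_ne_of_ne h13.symm d31]
  have hA : ∀ u, r a₁ u → r c₁ (g u) := by
    intro u hu
    rcases (ha u).1 hu with h | h | h
    · rw [h, ga1]; exact rc1
    · rw [h, ga2]; exact rc2
    · rw [h, ga3]; exact rc3
  have hC : ∀ u, r c₁ u → r a₁ (g u) := by
    intro u hu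
    rcases (hc u).1 hu with h | h | h
    · rw [h, gc1]; exact ra1
    · rw [h, gc2]; exact ra2
    · rw [h, gc3]; exact ra3
  have hE : ∀ x, ¬ r a₁ x → ¬ r c₁ x → g x = x := by
    intro x h1 h2
    have e1 : x ≠ a₁ := fun h => h1 (h ▸ ra1)
    have e2 : x ≠ a₂ := fun h => h1 (h ▸ ra2)
    have e3 : x ≠ a₃ := fun h => h1 (h ▸ ra3)
    have f1 : x ≠ c₁ := fun h => h2 (h ▸ rc1)
    have f2 : x ≠ c₂ := fun h => h2 (h ▸ rc2)
    have f3 : x ≠ c₃ := fun h => h2 (h ▸ rc3)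
    simp only [hg, tswap, Perm.mul_apply]
    rw [swap_apply_of_ne_of_ne e3 f3, swap_apply_of_ne_of_ne e2 f2, swap_apply_of_ne_of_ne e1 f1]
  refine ⟨?_, ga1, hE, ?_⟩
  · apply mem_relStab_of_imp
    intro u v huv
    by_cases hu1 : r a₁ u
    · have hv1 : r a₁ v := hr.trans hu1 huv
      exact hr.trans (hr.symm (hA u hu1)) (hA v hv1)
    by_cases hu2 : r c₁ u
    · have hv2 : r c₁ v := hr.trans hu2 huv
      exact hr.trans (hr.symm (hC u hu2)) (hC v hv2)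
    have hv1 : ¬ r a₁ v := fun h => hu1 (hr.trans h (hr.symm huv))
    have hv2 : ¬ r c₁ v := fun h => hu2 (hr.trans h (hr.symm huv))
    rw [hE u hu1 hu2, hE v hv1 hv2]
    exact huv
  · simp only [hg, tswap, map_mul]
    rw [sign_swap d11, sign_swap d22, sign_swap d33]
    decide

/-- Two invariant relations, the finer with classes of size three, give two overgroups. -/
theorem false_of_two_rels (hcard : 4 ≤ Fintype.card Ω) (hX : IsPMinimal 3 (alternatingGroup Ω))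
    (T : Sylow 3 (alternatingGroup Ω)) (r₁ r₂ : Ω → Ω → Prop) (hr₁ : Equivalence r₁)
    (hr₂ : Equivalence r₂)
    (hT₁ : ∀ t ∈ (T : Subgroup (alternatingGroup Ω)), (t : Perm Ω) ∈ relStab r₁)
    (hT₂ : ∀ t ∈ (T : Subgroup (alternatingGroup Ω)), (t : Perm Ω) ∈ relStab r₂)
    (h3 : ∀ x, ∃ y z, x ≠ y ∧ x ≠ z ∧ y ≠ z ∧ ∀ w, r₁ x w ↔ w = x ∨ w = y ∨ w = z)
    (hle : ∀ x y, r₁ x y → r₂ x y) {p b d y₀ : Ω} (hpb : r₂ p b) (hpd : r₂ p d)
    (hpb' : ¬ r₁ p b) (hpd' : ¬ r₁ p d) (hbd : ¬ r₁ b d) (hy₀ : ¬ r₂ p y₀) : False := by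
  classical
  let Y₁ := (relStab r₁).subgroupOf (alternatingGroup Ω)
  let Y₂ := (relStab r₂).subgroupOf (alternatingGroup Ω)
  have hTY₁ : (T : Subgroup (alternatingGroup Ω)) ≤ Y₁ := fun t ht => mem_subgroupOf.2 (hT₁ t ht)
  have hTY₂ : (T : Subgroup (alternatingGroup Ω)) ≤ Y₂ := fun t ht => mem_subgroupOf.2 (hT₂ t ht)
  obtain ⟨p₂, p₃, hp12, hp13, hp23, hpc⟩ := h3 p
  obtain ⟨b₂, b₃, hb12, hb13, hb23, hbc⟩ := h3 b
  obtain ⟨d₂, d₃, hd12, hd13, hd23, hdc⟩ := h3 d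
  have hrp₂ : r₁ p p₂ := (hpc p₂).2 (Or.inr (Or.inl rfl))
  have hpb0 : p ≠ b := fun h => hpb' (h ▸ hr₁.refl p)
  have hpd0 : p ≠ d := fun h => hpd' (h ▸ hr₁.refl p)
  have hbd0 : b ≠ d := fun h => hbd (h ▸ hr₁.refl b)
  have hY₁ : Y₁ ≠ ⊤ := relStab_subgroupOf_ne_top (r := r₁) (u := p) (v := p₂) (w := b) hcard hrp₂ hpb'
    hp12 (hr₁.refl p)
  have hY₂ : Y₂ ≠ ⊤ := relStab_subgroupOf_ne_top (r := r₂) (u := p) (v := b) (w := y₀) hcard hpb hy₀
    hpb0 (hr₂.refl p)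
  have hcyc₂ : ∀ x y w, r₂ p x → r₂ p y → r₂ p w → x ≠ y → x ≠ w → y ≠ w →
      ∃ t ∈ Y₂, (t : Perm Ω) = cyc x y w := by
    intro x y w hx hy hw h1 h2 h3
    have h4 : (cyc x y w).IsThreeCycle := cyc_isThreeCycle h1 h2 h3
    refine ⟨⟨_, h4.mem_alternatingGroup⟩, ?_, rfl⟩
    rw [mem_subgroupOf]
    exact cyc_mem_relStab hr₂ (hr₂.trans (hr₂.symm hx) hy) (hr₂.trans (hr₂.symm hx) hw) h1 h2 h3
  set 𝒯 : Set (Perm Ω) :=
    {t : Perm Ω | t ∈ (Y₁ ⊔ Y₂).map (alternatingGroup Ω).subtype ∧ t.IsThreeCycle} with h𝒯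
  have hrpp : r₂ p p := hr₂.refl p
  have hconn : ∀ x, Conn 𝒯 p x := by
    intro x
    by_cases hxp : x = p
    · rw [hxp]
      exact Conn.refl p
    by_cases hx2 : r₂ p x
    · -- inside the big class
      obtain ⟨w, hw, hw1, hw2⟩ : ∃ w, r₂ p w ∧ p ≠ w ∧ x ≠ w := by
        by_cases hxb : x = b
        · exact ⟨d, hpd, hpd0, by rw [hxb]; exact hbd0⟩
        · exact ⟨b, hpb, hpb0, hxb⟩
      obtain ⟨t, ht, hte⟩ := hcyc₂ p x w hrpp hx2 hw (Ne.symm hxp) hw1 hw2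
      have h3 : cyc p x w ∈ 𝒯 :=
        ⟨⟨t, mem_sup_right ht, hte⟩, cyc_isThreeCycle (Ne.symm hxp) hw1 hw2⟩
      have h4 := Conn.of_mem h3 p
      rwa [cyc_a (Ne.symm hxp) hw1] at h4
    · -- outside: swap two triples
      obtain ⟨q₂, q₃, hq12, hq13, hq23, hqc⟩ := h3 x
      have hnpx : ¬ r₁ p x := fun h => hx2 (hle _ _ h)
      obtain ⟨hg₁, hg₁p, hg₁o, hg₁s⟩ := tswap_facts hr₁ hp12 hp13 hp23 hq12 hq13 hq23 hpc hqc hnpx
      set g₁ := tswap p p₂ p₃ x q₂ q₃ with hg₁def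
      let g₂ : Perm Ω := swap b b₂
      have hg₂ : g₂ ∈ relStab r₁ := by
        apply mem_relStab_of_rel hr₁
        intro u
        show r₁ u (swap b b₂ u)
        by_cases hub : u = b
        · rw [hub, swap_apply_left]
          exact (hbc b₂).2 (Or.inr (Or.inl rfl))
        by_cases hub2 : u = b₂
        · rw [hub2, swap_apply_right]
          exact hr₁.symm ((hbc b₂).2 (Or.inr (Or.inl rfl)))
        rw [swap_apply_of_ne_of_ne hub hub2]
        exact hr₁.refl u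
      have hg₂s : Perm.sign g₂ = -1 := sign_swap hb12
      let g : Perm Ω := g₁ * g₂
      have hgalt : g ∈ alternatingGroup Ω := by
        rw [mem_alternatingGroup, show g = g₁ * g₂ from rfl, map_mul, hg₁s, hg₂s]
        decide
      have hgY : (⟨g, hgalt⟩ : alternatingGroup Ω) ∈ Y₁ := by
        rw [mem_subgroupOf]
        exact mul_mem hg₁ hg₂
      -- the points
      have rd1 : r₁ d d := hr₁.refl d
      have rd2 : r₁ d d₂ := (hdc d₂).2 (Or.inr (Or.inl rfl))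
      have hr2d2 : r₂ p d₂ := hr₂.trans hpd (hle _ _ rd2)
      have hdp : ∀ u, r₁ d u → ¬ r₁ p u := fun u h1 h2 => hpd' (hr₁.trans h2 (hr₁.symm h1))
      have hdx : ∀ u, r₁ d u → ¬ r₁ x u := fun u h1 h2 =>
        hx2 (hr₂.trans hpd (hle _ _ (hr₁.trans h1 (hr₁.symm h2))))
      have hdb : ∀ u, r₁ d u → ¬ r₁ b u := fun u h1 h2 => hbd (hr₁.trans h2 (hr₁.symm h1))
      have hgfix : ∀ u, r₁ d u → g u = u := by
        intro u hu
        show g₁ (swap b b₂ u) = u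
        have h1 : u ≠ b := fun h => hdb u hu (h ▸ hr₁.refl b)
        have h2 : u ≠ b₂ := fun h => hdb u hu (h ▸ (hbc b₂).2 (Or.inr (Or.inl rfl)))
        rw [swap_apply_of_ne_of_ne h1 h2]
        exact hg₁o u (hdp u hu) (hdx u hu)
      have hgp : g p = x := by
        show g₁ (swap b b₂ p) = x
        have h1 : p ≠ b := hpb0
        have h2 : p ≠ b₂ := fun h => hpb' (hr₁.trans (h ▸ hr₁.refl p) (hr₁.symm ((hbc b₂).2 (Or.inr (Or.inl rfl)))))
        rw [swap_apply_of_ne_of_ne h1 h2]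
        exact hg₁p
      -- the 3-cycles
      have hpd2 : p ≠ d₂ := fun h => hdp d₂ rd2 (h ▸ hr₁.refl p)
      obtain ⟨t, ht, hte⟩ := hcyc₂ p d d₂ hrpp hpd hr2d2 hpd0 hpd2 hd12
      have h3 : cyc p d d₂ ∈ 𝒯 :=
        ⟨⟨t, mem_sup_right ht, hte⟩, cyc_isThreeCycle hpd0 hpd2 hd12⟩
      have h4 : Conn 𝒯 p d := by
        have := Conn.of_mem h3 p
        rwa [cyc_a hpd0 hpd2] at this
      have hxd : x ≠ d := fun h => hdx d rd1 (h ▸ hr₁.refl x)
      have hxd2 : x ≠ d₂ := fun h => hdx d₂ rd2 (h ▸ hr₁.refl x)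
      have h5 : cyc x d d₂ ∈ 𝒯 := by
        refine ⟨⟨⟨g, hgalt⟩ * t * ⟨g, hgalt⟩⁻¹, ?_, ?_⟩, cyc_isThreeCycle hxd hxd2 hd12⟩
        · exact mul_mem (mul_mem (mem_sup_left hgY) (mem_sup_right ht)) (inv_mem (mem_sup_left hgY))
        · show g * (t : Perm Ω) * g⁻¹ = cyc x d d₂
          rw [hte, cyc_conj, hgp, hgfix d rd1, hgfix d₂ rd2]
      have h6 : Conn 𝒯 x d := by
        have := Conn.of_mem h5 x
        rwa [cyc_a hxd hxd2] at this
      exact h4.trans h6.symm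
  have hsup : Y₁ ⊔ Y₂ = ⊤ := by
    apply sup_eq_top_of_conn
    · obtain ⟨t, ht, hte⟩ := hcyc₂ p b d hrpp hpb hpd hpb0 hpd0 hbd0
      refine ⟨t, mem_sup_right ht, ?_⟩
      rw [hte]
      exact cyc_isThreeCycle hpb0 hpd0 hbd0
    · intro x y
      exact (hconn x).symm.trans (hconn y)
  exact false_of_sup_eq_top hX T hTY₁ hTY₂ hY₁ hY₂ hsup

section Block

variable {Γ : Type*} [Group Γ] [MulAction Γ Ω]

/-- The relation given by blocks `t • (S c • c)`, on each orbit with representative `c`. -/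
def blockRel (ρ : Ω → Ω) (S : Ω → Subgroup Γ) : Ω → Ω → Prop := fun u v =>
  ρ u = ρ v ∧ ∃ t : Γ, ∃ s ∈ S (ρ u), t • ρ u = u ∧ t • s • ρ u = v

variable {ρ : Ω → Ω} {S : Ω → Subgroup Γ}

theorem blockRel_equiv (hρ : ∀ (t : Γ) x, ρ (t • x) = ρ x) (hρ' : ∀ x, ∃ t : Γ, t • ρ x = x)
    (hS : ∀ c, MulAction.stabilizer Γ c ≤ S c) : Equivalence (blockRel ρ S) := by
  refine ⟨?_, ?_, ?_⟩
  · intro x
    obtain ⟨t, ht⟩ := hρ' x
    exact ⟨rfl, t, 1, one_mem _, ht, by simpa using ht⟩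
  · rintro u v ⟨h, t, s, hs, rfl', hv⟩
    refine ⟨h.symm, t * s, ?_⟩
    rw [← h]
    refine ⟨s⁻¹, inv_mem hs, ?_, ?_⟩
    · rw [mul_smul]
      exact hv
    · rw [mul_smul, smul_inv_smul]
      exact rfl'
  · rintro u v w ⟨h, t, s, hs, ht, hv⟩ ⟨h', t', s', hs', ht', hw⟩
    refine ⟨h.trans h', t, ?_⟩
    rw [← h] at hs' ht' hw
    have e : (t * s)⁻¹ * t' ∈ MulAction.stabilizer Γ (ρ u) := by
      rw [MulAction.mem_stabilizer_iff, mul_smul, ht', ← hv, mul_inv_rev, mul_smul,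
        inv_smul_smul, inv_smul_smul]
    have e' := hS _ e
    refine ⟨s * ((t * s)⁻¹ * t') * s', mul_mem (mul_mem hs e') hs', ht, ?_⟩
    rw [← hw, ← mul_smul, ← mul_smul]
    congr 1
    group

theorem blockRel_inv (hρ : ∀ (t : Γ) x, ρ (t • x) = ρ x) (g : Γ) {u v : Ω}
    (h : blockRel ρ S u v) : blockRel ρ S (g • u) (g • v) := by
  obtain ⟨h1, t, s, hs, ht, hv⟩ := h
  refine ⟨by rw [hρ, hρ, h1], g * t, s, ?_, ?_, ?_⟩
  · rw [hρ]
    exact hs
  · rw [hρ, mul_smul, ht]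
  · rw [hρ, mul_smul, hv]

theorem blockRel_mono {S' : Ω → Subgroup Γ} (h : ∀ c, S c ≤ S' c) {u v : Ω}
    (huv : blockRel ρ S u v) : blockRel ρ S' u v := by
  obtain ⟨h1, t, s, hs, ht, hv⟩ := huv
  exact ⟨h1, t, s, h _ hs, ht, hv⟩

theorem blockRel_class (hρ : ∀ (t : Γ) x, ρ (t • x) = ρ x)
    (hS : ∀ c, MulAction.stabilizer Γ c ≤ S c) {x : Ω} {t₀ : Γ} (ht₀ : t₀ • ρ x = x) :
    {w | blockRel ρ S x w} = (fun y => t₀ • y) '' (MulAction.orbit (S (ρ x)) (ρ x)) := by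
  ext w
  constructor
  · rintro ⟨h1, t, s, hs, ht, hv⟩
    have e : t₀⁻¹ * t ∈ MulAction.stabilizer Γ (ρ x) := by
      rw [MulAction.mem_stabilizer_iff, mul_smul, ht, ← ht₀, inv_smul_smul, ht₀]
    refine ⟨(⟨t₀⁻¹ * t * s, mul_mem (hS _ e) hs⟩ : S (ρ x)) • ρ x, ⟨_, rfl⟩, ?_⟩
    show t₀ • ((t₀⁻¹ * t * s) • ρ x) = w
    rw [← hv, ← mul_smul, ← mul_smul]
    congr 1
    group
  · rintro ⟨_, ⟨s, rfl⟩, rfl⟩
    have h3 : ρ (ρ x) = ρ x := by
      have := hρ t₀ (ρ x)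
      rw [ht₀] at this
      exact this.symm
    have h2 : ρ (t₀ • ((s : Γ) • ρ x)) = ρ x := by rw [hρ, hρ, h3]
    exact ⟨h2.symm, t₀, s, s.2, ht₀, rfl⟩

theorem blockRel_ncard (hρ : ∀ (t : Γ) x, ρ (t • x) = ρ x) (hρ' : ∀ x, ∃ t : Γ, t • ρ x = x)
    (hS : ∀ c, MulAction.stabilizer Γ c ≤ S c) (x : Ω) :
    {w | blockRel ρ S x w}.ncard = (MulAction.orbit (S (ρ x)) (ρ x)).ncard := by
  obtain ⟨t₀, ht₀⟩ := hρ' x
  rw [blockRel_class hρ hS ht₀]
  exact Set.ncard_image_of_injective _ (MulAction.injective t₀)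

/-- Explicit classes of size three. -/
theorem exists_three_of_ncard {r : Ω → Ω → Prop} (hr : Equivalence r) {x : Ω}
    (h : {w | r x w}.ncard = 3) : ∃ y z, x ≠ y ∧ x ≠ z ∧ y ≠ z ∧ ∀ w, r x w ↔ w = x ∨ w = y ∨ w = z := by
  classical
  have hx : x ∈ {w | r x w} := hr.refl x
  have h1 : ({w | r x w} \ {x}).ncard = 2 := by
    rw [Set.ncard_sdiff_singleton_of_mem hx, h]
  obtain ⟨y, z, hyz, he⟩ := Set.ncard_eq_two.1 h1
  have hy : y ∈ {w | r x w} \ {x} := by rw [he]; simp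
  have hz : z ∈ {w | r x w} \ {x} := by rw [he]; simp
  refine ⟨y, z, fun h => hy.2 (by simp [h]), fun h => hz.2 (by simp [h]), hyz, ?_⟩
  intro w
  constructor
  · intro hw
    by_cases hwx : w = x
    · exact Or.inl hwx
    · right
      have : w ∈ {w | r x w} \ {x} := ⟨hw, by simpa using hwx⟩
      rw [he] at this
      simpa using this
  · rintro (rfl | rfl | rfl)
    · exact hr.refl _
    · exact hy.1
    · exact hz.1

end Block

/-- Version with cardinalities. -/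
theorem false_of_rels_ncard (hcard : 4 ≤ Fintype.card Ω) (hX : IsPMinimal 3 (alternatingGroup Ω))
    (T : Sylow 3 (alternatingGroup Ω)) (r₁ r₂ : Ω → Ω → Prop) (hr₁ : Equivalence r₁)
    (hr₂ : Equivalence r₂)
    (hT₁ : ∀ t ∈ (T : Subgroup (alternatingGroup Ω)), (t : Perm Ω) ∈ relStab r₁)
    (hT₂ : ∀ t ∈ (T : Subgroup (alternatingGroup Ω)), (t : Perm Ω) ∈ relStab r₂)
    (h3 : ∀ x, {w | r₁ x w}.ncard = 3) (hle : ∀ x y, r₁ x y → r₂ x y) {p y₀ : Ω}
    (h9 : 9 ≤ {w | r₂ p w}.ncard) (hy₀ : ¬ r₂ p y₀) : False := by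
  obtain ⟨b, hb, hb'⟩ := Set.exists_mem_notMem_of_ncard_lt_ncard
    (s := {w | r₁ p w}) (t := {w | r₂ p w}) (by rw [h3]; omega)
  have hU : ({w | r₁ p w} ∪ {w | r₁ b w}).ncard ≤ 6 := by
    have := Set.ncard_union_le {w | r₁ p w} {w | r₁ b w}
    rw [h3, h3] at this
    omega
  obtain ⟨d, hd, hd'⟩ := Set.exists_mem_notMem_of_ncard_lt_ncard
    (s := {w | r₁ p w} ∪ {w | r₁ b w}) (t := {w | r₂ p w}) (by omega)
  simp only [Set.mem_union, not_or] at hd'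
  exact false_of_two_rels hcard hX T r₁ r₂ hr₁ hr₂ hT₁ hT₂
    (fun x => exists_three_of_ncard hr₁ (h3 x)) hle hb hd hb' hd'.1 hd'.2 hy₀

/-- Overgroups of a point stabilizer with prescribed orbit length. -/
theorem exists_over {Γ : Type*} [Group Γ] [Finite Γ] [MulAction Γ Ω] (hΓ : IsPGroup 3 Γ) (c : Ω)
    (K₀ : Subgroup Γ) (hK₀ : MulAction.stabilizer Γ c ≤ K₀) {i j e : ℕ}
    (hi : (MulAction.orbit K₀ c).ncard = 3 ^ i) (he : (MulAction.orbit Γ c).ncard = 3 ^ e)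
    (hij : i ≤ j) (hje : j ≤ e) :
    ∃ K : Subgroup Γ, K₀ ≤ K ∧ (MulAction.orbit K c).ncard = 3 ^ j := by
  classical
  haveI : Fact (Nat.Prime 3) := ⟨Nat.prime_three⟩
  set St := MulAction.stabilizer Γ c with hSt
  have formula : ∀ K : Subgroup Γ, St ≤ K →
      (MulAction.orbit K c).ncard * Nat.card St = Nat.card K := by
    intro K hK
    have h1 := MulAction.index_stabilizer K c
    have h2 := Subgroup.index_mul_card (MulAction.stabilizer K c)
    rw [h1] at h2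
    have h3 : MulAction.stabilizer K c = St.subgroupOf K := by
      ext g
      rfl
    rw [h3] at h2
    rw [← h2]
    congr 1
    exact (Nat.card_congr (Subgroup.subgroupOfEquivOfLe hK).toEquiv).symm
  have hΓc : (MulAction.orbit Γ c).ncard * Nat.card St = Nat.card Γ := by
    have h1 := MulAction.index_stabilizer Γ c
    have h2 := Subgroup.index_mul_card (MulAction.stabilizer Γ c)
    rw [h1] at h2
    exact h2
  obtain ⟨s, hs⟩ := IsPGroup.iff_card.1 (hΓ.to_subgroup St)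
  have hK₀card := formula K₀ hK₀
  rw [hi, hs] at hK₀card
  have hdvd : 3 ^ (j + s) ∣ Nat.card Γ := by
    rw [← hΓc, he, hs, pow_add]
    exact mul_dvd_mul (pow_dvd_pow 3 hje) dvd_rfl
  obtain ⟨K, hK, hK₀K⟩ := Sylow.exists_subgroup_card_pow_prime_le 3 hdvd K₀
    (by rw [← hK₀card, pow_add]) (by omega : i + s ≤ j + s)
  refine ⟨K, hK₀K, ?_⟩
  have h := formula K (hK₀.trans hK₀K)
  rw [hK, hs, pow_add] at h
  exact Nat.eq_of_mul_eq_mul_right (pow_pos (by norm_num) s) h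

theorem exists_rho (Γ : Type*) [Group Γ] [MulAction Γ Ω] :
    ∃ ρ : Ω → Ω, (∀ (t : Γ) x, ρ (t • x) = ρ x) ∧ (∀ x, ∃ t : Γ, t • ρ x = x) := by
  classical
  let q : Ω → MulAction.orbitRel.Quotient Γ Ω := fun x => Quotient.mk (MulAction.orbitRel Γ Ω) x
  refine ⟨fun x => (q x).out, ?_, ?_⟩
  · intro t x
    have : q (t • x) = q x := by
      apply Quotient.sound
      exact MulAction.mem_orbit_iff.2 ⟨t, rfl⟩
    simp only [this]
  · intro x
    have h1 : (q x).out ∈ MulAction.orbit Γ x := by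
      have := Quotient.mk_out (s := MulAction.orbitRel Γ Ω) x
      exact this
    obtain ⟨g, hg⟩ := MulAction.mem_orbit_iff.1 h1
    refine ⟨g⁻¹, ?_⟩
    show g⁻¹ • (q x).out = x
    rw [← hg, inv_smul_smul]

/-- The arithmetic conclusion for 3-minimal alternating groups. -/
theorem arith_of_minimal (hn : 5 ≤ Fintype.card Ω) (hX : IsPMinimal 3 (alternatingGroup Ω)) :
    Fintype.card Ω = 6 ∨ Fintype.card Ω = 9 ∨ ∃ a : ℕ, 2 ≤ a ∧ Fintype.card Ω = 3 ^ a + 1 := by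
  classical
  haveI : Fact (Nat.Prime 3) := ⟨Nat.prime_three⟩
  obtain ⟨T⟩ : Nonempty (Sylow 3 (alternatingGroup Ω)) := inferInstance
  let Γ := ↥(T : Subgroup (alternatingGroup Ω))
  have hΓ : IsPGroup 3 Γ := T.isPGroup'
  have hcard4 : 4 ≤ Fintype.card Ω := by omega
  obtain ⟨ρ, hρ, hρ'⟩ := exists_rho (Ω := Ω) Γ
  have hinv : ∀ (r : Ω → Ω → Prop), (∀ (g : Γ) u v, r u v → r (g • u) (g • v)) →
      ∀ t ∈ (T : Subgroup (alternatingGroup Ω)), (t : Perm Ω) ∈ relStab r := by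
    intro r hr t ht
    apply mem_relStab_of_imp
    intro u v huv
    exact hr ⟨t, ht⟩ u v huv
  -- orbits
  let U : Ω → Set Ω := fun x => {z | ρ z = ρ x}
  have hUorb : ∀ x, U x = MulAction.orbit Γ x := by
    intro x
    ext z
    constructor
    · intro hz
      obtain ⟨t, ht⟩ := hρ' x
      obtain ⟨t', ht'⟩ := hρ' z
      have hz' : ρ z = ρ x := hz
      rw [hz'] at ht'
      refine MulAction.mem_orbit_iff.2 ⟨t' * t⁻¹, ?_⟩
      have e : t⁻¹ • x = ρ x := inv_smul_eq_iff.2 ht.symm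
      rw [mul_smul, e]
      exact ht'
    · intro hz
      obtain ⟨g, rfl⟩ := MulAction.mem_orbit_iff.1 hz
      exact hρ g x
  have hUpow : ∀ x, ∃ e, (U x).ncard = 3 ^ e := by
    intro x
    obtain ⟨e, he⟩ := hΓ.card_orbit x
    refine ⟨e, ?_⟩
    rw [hUorb, ← Nat.card_coe_set_eq, he]
  have hUx : ∀ x, x ∈ U x := fun x => rfl
  have hUpos : ∀ x, 1 ≤ (U x).ncard := fun x =>
    Set.ncard_pos (Set.toFinite _) |>.2 ⟨x, hUx x⟩
  have hUinv : ∀ (x : Ω) (t : Γ) (y : Ω), t • y ∈ U x ↔ y ∈ U x := by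
    intro x t y
    show ρ (t • y) = ρ x ↔ ρ y = ρ x
    rw [hρ]
  have hcompl : ∀ x, (U x)ᶜ.ncard + (U x).ncard = Fintype.card Ω := by
    intro x
    have := Set.ncard_add_ncard_compl (U x)
    rw [Nat.card_eq_fintype_card] at this
    omega
  -- three orbits are impossible
  have hbig : ∀ x y, ρ x ≠ ρ y → 3 ≤ (U x)ᶜ.ncard ∨ 3 ≤ (U y)ᶜ.ncard := by
    intro x y hxy
    by_contra hcon
    push Not at hcon
    obtain ⟨h1, h2⟩ := hcon
    have hsub : U y ⊆ (U x)ᶜ := fun z hz hz' => hxy (Eq.trans (Eq.symm hz') hz)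
    have h3 := Set.ncard_le_ncard hsub (Set.toFinite _)
    have h4 := hcompl y
    omega
  have hthree : ∀ x y z, ρ x ≠ ρ y → ρ x ≠ ρ z → ρ y ≠ ρ z → False := by
    have main : ∀ x y z, ρ x ≠ ρ y → ρ x ≠ ρ z → ρ y ≠ ρ z → 3 ≤ (U x)ᶜ.ncard →
        3 ≤ (U y)ᶜ.ncard → False := by
      intro x y z hxy hxz hyz hx hy
      have hthird : ∀ w, 3 ≤ (U w)ᶜ.ncard → ∀ u v, u ∉ U w → v ∉ U w →
          ∃ e, e ∉ U w ∧ e ≠ u ∧ e ≠ v := by
        intro w hw u v _ _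
        have h2 : ({u, v} : Set Ω).ncard ≤ 2 := (Set.ncard_insert_le u {v}).trans (by simp)
        obtain ⟨e, he, he'⟩ := Set.exists_mem_notMem_of_ncard_lt_ncard
          (s := ({u, v} : Set Ω)) (t := (U w)ᶜ) (by omega)
        simp only [Set.mem_insert_iff, Set.mem_singleton_iff, not_or] at he'
        exact ⟨e, he, he'.1, he'.2⟩
      have hdis : Disjoint (U x) (U y) := by
        rw [Set.disjoint_left]
        intro a ha hb
        exact hxy (ha.symm.trans hb)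
      exact false_of_two_sets hcard4 hX T (U x) (U y)
        (fun t ht w => hUinv x ⟨t, ht⟩ w) (fun t ht w => hUinv y ⟨t, ht⟩ w) hdis (hUx x) (hUx y)
        (fun h => hxz h.symm) (fun h => hyz h.symm) (hthird x hx) (hthird y hy)
    intro x y z hxy hxz hyz
    by_cases hx : 3 ≤ (U x)ᶜ.ncard
    · rcases hbig y z hyz with hy | hz
      · exact main x y z hxy hxz hyz hx hy
      · exact main x z y hxz hxy hyz.symm hx hz
    · have hy := (hbig x y hxy).resolve_left hx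
      have hz := (hbig x z hxz).resolve_left hx
      exact main y z x hyz hxy.symm hxz.symm hy hz
  -- the block relations
  have hSorb : ∀ c e, (U c).ncard = 3 ^ e → (MulAction.orbit Γ c).ncard = 3 ^ e := by
    intro c e h
    rw [← hUorb]
    exact h
  have hstab0 : ∀ c : Ω, (MulAction.orbit (MulAction.stabilizer Γ c) c).ncard = 3 ^ 0 := by
    intro c
    have : MulAction.orbit (MulAction.stabilizer Γ c) c = {c} := by
      ext z
      constructor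
      · rintro ⟨⟨g, hg⟩, rfl⟩
        exact hg
      · intro hz
        rw [Set.mem_singleton_iff] at hz
        rw [hz]
        exact ⟨1, one_smul _ _⟩
    rw [this]
    simp
  -- a block system with classes of size three, if no point is fixed
  have hρρ : ∀ x, ρ (ρ x) = ρ x := by
    intro x
    obtain ⟨t, ht⟩ := hρ' x
    have := hρ t (ρ x)
    rw [ht] at this
    exact this.symm
  have hUρ : ∀ x, U (ρ x) = U x := by
    intro x
    ext z
    show ρ z = ρ (ρ x) ↔ ρ z = ρ x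
    rw [hρρ]
  have hstabinv : ∀ (S : Ω → Subgroup Γ) (hS : ∀ c : Ω, MulAction.stabilizer Γ c ≤ S c),
      ∀ t ∈ (T : Subgroup (alternatingGroup Ω)), (t : Perm Ω) ∈ relStab (blockRel ρ S) := by
    intro S _
    exact hinv _ (fun g u v huv => blockRel_inv hρ g huv)
  have hblocks : (∀ x, 3 ≤ (U x).ncard) → ∃ S₁ : Ω → Subgroup Γ,
      (∀ c : Ω, MulAction.stabilizer Γ c ≤ S₁ c) ∧ (∀ c : Ω, (MulAction.orbit (S₁ c) c).ncard = 3 ^ 1) := by
    intro h
    have key : ∀ c : Ω, ∃ K : Subgroup Γ, MulAction.stabilizer Γ c ≤ K ∧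
        (MulAction.orbit K c).ncard = 3 ^ 1 := by
      intro c
      obtain ⟨e, he⟩ := hUpow c
      have he1 : 1 ≤ e := by
        by_contra hlt
        have : e = 0 := by omega
        have h2 := h c
        rw [he, this] at h2
        norm_num at h2
      exact exists_over hΓ c _ le_rfl (hstab0 c) (hSorb c e he) (Nat.zero_le 1) he1
    choose S₁ h1 h2 using key
    exact ⟨S₁, h1, h2⟩
  -- the transitive case
  obtain ⟨x₀⟩ : Nonempty Ω := Fintype.card_pos_iff.1 (by omega)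
  by_cases htrans : ∀ y, ρ y = ρ x₀
  · have hUuniv : ∀ x, U x = Set.univ := by
      intro x
      ext z
      simp only [Set.mem_univ, iff_true]
      show ρ z = ρ x
      rw [htrans z, htrans x]
    have hnU : ∀ x, (U x).ncard = Fintype.card Ω := by
      intro x
      rw [hUuniv, Set.ncard_univ, Nat.card_eq_fintype_card]
    obtain ⟨e, he⟩ := hUpow x₀
    rw [hnU] at he
    by_cases he2 : e = 2
    · right; left
      rw [he, he2]
      norm_num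
    have he3 : 3 ≤ e := by
      by_contra hlt
      have : e = 0 ∨ e = 1 := by omega
      rcases this with rfl | rfl <;> omega
    exfalso
    have h3pow : 27 ≤ Fintype.card Ω := by
      rw [he]
      calc 27 = 3 ^ 3 := by norm_num
        _ ≤ 3 ^ e := Nat.pow_le_pow_right (by norm_num) he3
    obtain ⟨S₁, hS₁, hS₁3⟩ := hblocks (fun x => by rw [hnU]; omega)
    have key : ∀ c : Ω, ∃ K : Subgroup Γ, S₁ c ≤ K ∧ (MulAction.orbit K c).ncard = 3 ^ 2 := by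
      intro c
      have hc : (U c).ncard = 3 ^ e := by rw [hnU]; exact he
      exact exists_over hΓ c _ (hS₁ c) (hS₁3 c) (hSorb c e hc) (by norm_num) (by omega)
    choose S₂ hS₂ hS₂9 using key
    have hS₂' : ∀ c : Ω, MulAction.stabilizer Γ c ≤ S₂ c := fun c => (hS₁ c).trans (hS₂ c)
    have hr₁ := blockRel_equiv hρ hρ' hS₁
    have hr₂ := blockRel_equiv hρ hρ' hS₂'
    have h9 : ∀ x, {w | blockRel ρ S₂ x w}.ncard = 9 := by
      intro x
      rw [blockRel_ncard hρ hρ' hS₂', hS₂9]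
      norm_num
    obtain ⟨y₀, hy₀⟩ : ∃ y₀, ¬ blockRel ρ S₂ x₀ y₀ := by
      by_contra hall
      push Not at hall
      have h1 : {w | blockRel ρ S₂ x₀ w} = Set.univ := Set.eq_univ_of_forall hall
      have h2 := h9 x₀
      rw [h1, Set.ncard_univ, Nat.card_eq_fintype_card] at h2
      omega
    exact false_of_rels_ncard hcard4 hX T _ _ hr₁ hr₂ (hstabinv S₁ hS₁) (hstabinv S₂ hS₂')
      (fun x => by rw [blockRel_ncard hρ hρ' hS₁, hS₁3]; norm_num)
      (fun x y h => blockRel_mono hS₂ h) (p := x₀) (y₀ := y₀) (by rw [h9]) hy₀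
  -- two orbits
  push Not at htrans
  obtain ⟨y₀, hy₀⟩ := htrans
  have hcover : ∀ z, ρ z = ρ x₀ ∨ ρ z = ρ y₀ := by
    intro z
    by_contra hcon
    push Not at hcon
    exact hthree x₀ y₀ z hy₀.symm (Ne.symm hcon.1) (Ne.symm hcon.2)
  have two : ∀ x y, ρ y ≠ ρ x → (∀ z, ρ z = ρ x ∨ ρ z = ρ y) → (U y).ncard ≤ (U x).ncard →
      Fintype.card Ω = 6 ∨ Fintype.card Ω = 9 ∨ ∃ a : ℕ, 2 ≤ a ∧ Fintype.card Ω = 3 ^ a + 1 := by
    intro x y hyx hcov hle
    have hcy : (U x)ᶜ = U y := by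
      ext z
      constructor
      · intro hz
        exact (hcov z).resolve_left hz
      · intro hz hz'
        exact hyx (Eq.trans (Eq.symm hz) hz')
    have hsum : (U y).ncard + (U x).ncard = Fintype.card Ω := by
      rw [← hcy]
      exact hcompl x
    obtain ⟨a, ha⟩ := hUpow x
    obtain ⟨b, hb⟩ := hUpow y
    rw [ha, hb] at hsum
    by_cases hb0 : b = 0
    · subst hb0
      right; right
      rw [pow_zero] at hsum
      have ha2 : 2 ≤ a := by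
        by_contra hlt
        have : a = 0 ∨ a = 1 := by omega
        rcases this with rfl | rfl <;> omega
      exact ⟨a, ha2, by omega⟩
    have hb1 : 1 ≤ b := by omega
    have hle' : b ≤ a := by
      rw [ha, hb] at hle
      exact (Nat.pow_le_pow_iff_right (by norm_num)).1 hle
    by_cases ha1 : a = 1
    · left
      have hb' : b = 1 := by omega
      subst ha1
      subst hb'
      omega
    exfalso
    have ha2 : 2 ≤ a := by omega
    have hUx3 : ∀ z, 3 ≤ (U z).ncard := by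
      intro z
      have h3 : 3 ^ 1 ≤ 3 ^ b := Nat.pow_le_pow_right (by norm_num) hb1
      have h3' : 3 ^ 1 ≤ 3 ^ a := Nat.pow_le_pow_right (by norm_num) (by omega)
      rcases hcov z with h | h
      · have : U z = U x := by
          ext w
          show ρ w = ρ z ↔ ρ w = ρ x
          rw [h]
        rw [this, ha]
        simpa using h3'
      · have : U z = U y := by
          ext w
          show ρ w = ρ z ↔ ρ w = ρ y
          rw [h]
        rw [this, hb]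
        simpa using h3
    obtain ⟨S₁, hS₁, hS₁3⟩ := hblocks hUx3
    let S₂ : Ω → Subgroup Γ := fun _ => ⊤
    have hS₂' : ∀ c, MulAction.stabilizer Γ c ≤ S₂ c := fun c => le_top
    have hr₁ := blockRel_equiv hρ hρ' hS₁
    have hr₂ := blockRel_equiv hρ hρ' hS₂'
    have hUr₂ : ∀ w, blockRel ρ S₂ x w ↔ w ∈ U x := by
      intro w
      constructor
      · rintro ⟨h, -⟩
        exact h.symm
      · intro hw
        have hw' : ρ w = ρ x := hw
        obtain ⟨t, ht⟩ := hρ' x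
        obtain ⟨t', ht'⟩ := hρ' w
        refine ⟨hw'.symm, t, t⁻¹ * t', mem_top _, ht, ?_⟩
        rw [← mul_smul, mul_inv_cancel_left, ← hw']
        exact ht'
    have hset : {w | blockRel ρ S₂ x w} = U x := Set.ext hUr₂
    refine false_of_rels_ncard hcard4 hX T _ _ hr₁ hr₂ (hstabinv S₁ hS₁) (hstabinv S₂ hS₂')
      (fun x => by rw [blockRel_ncard hρ hρ' hS₁, hS₁3]; norm_num)
      (fun x y h => blockRel_mono (fun c => le_top) h) (p := x) (y₀ := y) ?_ ?_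
    · rw [hset, ha]
      calc 9 = 3 ^ 2 := by norm_num
        _ ≤ 3 ^ a := Nat.pow_le_pow_right (by norm_num) ha2
    · intro h
      exact hyx ((hUr₂ y).1 h)
  rcases le_total (U y₀).ncard (U x₀).ncard with h | h
  · exact two x₀ y₀ hy₀ hcover h
  · exact two y₀ x₀ hy₀.symm (fun z => (hcover z).symm) h

end Cfsg.Agent.Lib.LocalEven.AltMin
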