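import Mathlib
import Cfsg.Agent.Lib.LocalEven.AltCore
import Cfsg.Agent.Lib.PermRec.Bochert

/-!
# Subgroups of symmetric groups containing a Sylow 2-subgroup of the alternating group,
with quasisimple `F*`: existence of a 3-cycle.
-/

set_option autoImplicit false

namespace Cfsg.Agent.Lib.LocalEven.AltTwo

open Equiv Equiv.Perm Subgroup Cfsg Cfsg.Agent.Lib.Components.Basic
  Cfsg.Agent.Lib.LocalEven.Util Cfsg.Agent.Lib.LocalEven.AltCore
open scoped commutatorElement Pointwise

variable {α : Type*} [DecidableEq α] [Fintype α]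

/-- A double transposition along the involution `τ`. -/
def tt (τ : Perm α) (x y : α) : Perm α := swap x (τ x) * swap y (τ y)

/-- The hypotheses of the combinatorial argument. -/
structure Setup (H : Subgroup (Perm α)) (τ : Perm α) : Prop where
  inv : ∀ x, τ (τ x) = x
  fix : ∀ a b, τ a = a → τ b = b → a = b
  big : 8 ≤ τ.support.card
  mem : ∀ x y, τ x ≠ x → τ y ≠ y → y ≠ x → y ≠ τ x → tt τ x y ∈ H
  no3 : ∀ t ∈ H, ¬ t.IsThreeCycle

/-- Supports of size four. -/
def Blk (H : Subgroup (Perm α)) (F : Finset α) : Prop := ∃ s ∈ H, s.support = F ∧ F.card = 4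

theorem Blk.card {H : Subgroup (Perm α)} {F : Finset α} (h : Blk H F) : F.card = 4 := by
  obtain ⟨_, _, _, h⟩ := h
  exact h

theorem exists_fourth {F : Finset α} (hc : F.card = 4) {a b c : α} (ha : a ∈ F) (hb : b ∈ F)
    (hc' : c ∈ F) (hab : a ≠ b) (hac : a ≠ c) (hbc : b ≠ c) :
    ∃ w ∈ F, w ≠ a ∧ w ≠ b ∧ w ≠ c ∧ ∀ q ∈ F, q = a ∨ q = b ∨ q = c ∨ q = w := by
  have h1 : ({a, b, c} : Finset α).card < F.card := by
    rw [hc]
    exact lt_of_le_of_lt Finset.card_le_three (by norm_num)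
  obtain ⟨w, hw, hw'⟩ := Finset.exists_mem_notMem_of_card_lt_card h1
  simp only [Finset.mem_insert, Finset.mem_singleton, not_or] at hw'
  refine ⟨w, hw, hw'.1, hw'.2.1, hw'.2.2, ?_⟩
  have hsub : ({a, b, c, w} : Finset α) ⊆ F := by
    intro q hq
    simp only [Finset.mem_insert, Finset.mem_singleton] at hq
    rcases hq with rfl | rfl | rfl | rfl <;> assumption
  have hcard : ({a, b, c, w} : Finset α).card = 4 := by
    rw [Finset.card_insert_of_notMem, Finset.card_insert_of_notMem, Finset.card_insert_of_notMem,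
      Finset.card_singleton]
    · simpa using (Ne.symm hw'.2.2)
    · simp only [Finset.mem_insert, Finset.mem_singleton, not_or]
      exact ⟨hbc, Ne.symm hw'.2.1⟩
    · simp only [Finset.mem_insert, Finset.mem_singleton, not_or]
      exact ⟨hab, hac, Ne.symm hw'.1⟩
  have heq := Finset.eq_of_subset_of_card_le hsub (by omega)
  intro q hq
  rw [← heq] at hq
  simpa using hq

theorem support_tt {τ : Perm α} (hinv : ∀ x, τ (τ x) = x) {x y : α} (hx : τ x ≠ x) (hy : τ y ≠ y)
    (h1 : y ≠ x) (h2 : y ≠ τ x) : (tt τ x y).support = {x, τ x, y, τ y} := by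
  have h3 : τ y ≠ x := fun h => h2 (by rw [← h, hinv])
  have h4 : τ y ≠ τ x := fun h => h1 (τ.injective h)
  have hd : Disjoint (swap x (τ x)) (swap y (τ y)) := by
    intro z
    by_cases hz1 : z = x
    · right
      subst hz1
      exact swap_apply_of_ne_of_ne (Ne.symm h1) (Ne.symm h3)
    by_cases hz2 : z = τ x
    · right
      subst hz2
      exact swap_apply_of_ne_of_ne (Ne.symm h2) (Ne.symm h4)
    left
    exact swap_apply_of_ne_of_ne hz1 hz2
  rw [tt, hd.support_mul, support_swap (Ne.symm hx), support_swap (Ne.symm hy)]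
  ext z
  simp
  tauto

namespace Setup

variable {H : Subgroup (Perm α)} {τ : Perm α}

theorem single (S : Setup H τ) {s s' : Perm α} (hs : s ∈ H) (hs' : s' ∈ H) {a : α}
    (h : s.support ∩ s'.support = {a}) : False :=
  S.no3 _ (mul_mem (mul_mem (mul_mem hs hs') (inv_mem hs)) (inv_mem hs'))
    (Cfsg.Agent.Lib.PermRec.Bochert.commutator_isThreeCycle s s' a h)

theorem blk_tt (S : Setup H τ) {x y : α} (hx : τ x ≠ x) (hy : τ y ≠ y)
    (h1 : y ≠ x) (h2 : y ≠ τ x) : Blk H {x, τ x, y, τ y} := by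
  refine ⟨_, S.mem x y hx hy h1 h2, support_tt S.inv hx hy h1 h2, ?_⟩
  have h3 : τ y ≠ x := fun h => h2 (by rw [← h, S.inv])
  have h4 : τ y ≠ τ x := fun h => h1 (τ.injective h)
  rw [Finset.card_insert_of_notMem, Finset.card_insert_of_notMem, Finset.card_insert_of_notMem,
    Finset.card_singleton]
  · simpa using hy.symm
  · simp only [Finset.mem_insert, Finset.mem_singleton, not_or]
    exact ⟨h2.symm, h4.symm⟩
  · simp only [Finset.mem_insert, Finset.mem_singleton, not_or]
    exact ⟨hx.symm, h1.symm, h3.symm⟩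

theorem blk_conj {F : Finset α} (hF : Blk H F) {h : Perm α} (hh : h ∈ H) :
    Blk H (F.image h) := by
  obtain ⟨s, hs, hsF, hc⟩ := hF
  refine ⟨h * s * h⁻¹, mul_mem (mul_mem hh hs) (inv_mem hh), ?_, ?_⟩
  · rw [support_conj, hsF, Finset.map_eq_image]
    rfl
  · rw [Finset.card_image_of_injective _ h.injective, hc]

theorem key (S : Setup H τ) {F : Finset α} (hF : Blk H F) {z y : α} (hz : z ∈ F) (hzm : τ z ≠ z)
    (hzo : τ z ∉ F) (hy : τ y ≠ y) (h1 : y ≠ z) (h2 : y ≠ τ z) : y ∈ F ∨ τ y ∈ F := by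
  by_contra hcon
  push Not at hcon
  obtain ⟨s, hs, hsF, -⟩ := hF
  apply S.single hs (S.mem z y hzm hy h1 h2) (a := z)
  rw [hsF, support_tt S.inv hzm hy h1 h2]
  ext w
  simp only [Finset.mem_inter, Finset.mem_insert, Finset.mem_singleton]
  constructor
  · rintro ⟨hw, rfl | rfl | rfl | rfl⟩
    · rfl
    · exact absurd hw hzo
    · exact absurd hw hcon.1
    · exact absurd hw hcon.2
  · rintro rfl
    exact ⟨hz, Or.inl rfl⟩

theorem card_cover (S : Setup H τ) {G : Finset α} {z : α}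
    (h : ∀ y, τ y ≠ y → y = z ∨ y = τ z ∨ y ∈ G ∨ τ y ∈ G) :
    τ.support.card ≤ 2 + 2 * G.card := by
  have hsub : τ.support ⊆ ({z, τ z} : Finset α) ∪ G ∪ G.image τ := by
    intro y hy
    rw [mem_support] at hy
    simp only [Finset.mem_union, Finset.mem_insert, Finset.mem_singleton, Finset.mem_image]
    rcases h y hy with h | h | h | h
    · exact Or.inl (Or.inl (Or.inl h))
    · exact Or.inl (Or.inl (Or.inr h))
    · exact Or.inl (Or.inr h)
    · exact Or.inr ⟨_, h, S.inv y⟩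
  have h1 := Finset.card_le_card hsub
  have h2 := Finset.card_union_le (({z, τ z} : Finset α) ∪ G) (G.image τ)
  have h3 := Finset.card_union_le ({z, τ z} : Finset α) G
  have h4 : ({z, τ z} : Finset α).card ≤ 2 := Finset.card_le_two
  have h5 : (G.image τ).card ≤ G.card := Finset.card_image_le
  omega

theorem no_inv_three (S : Setup H τ) {a b c : α} (hab : a ≠ b) (hac : a ≠ c) (hbc : b ≠ c)
    (ha : τ a ≠ a) (hb : τ b ≠ b) (hc : τ c ≠ c)
    (ha' : τ a = a ∨ τ a = b ∨ τ a = c) (hb' : τ b = a ∨ τ b = b ∨ τ b = c)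
    (hc' : τ c = a ∨ τ c = b ∨ τ c = c) : False := by
  have inv := S.inv
  rcases ha' with h | h | h
  · exact ha h
  · have e : τ b = a := by rw [← h, inv]
    rcases hc' with h' | h' | h'
    · exact hbc (by rw [← h, ← h', inv])
    · exact hac (by rw [← e, ← h', inv])
    · exact hc h'
  · have e : τ c = a := by rw [← h, inv]
    rcases hb' with h' | h' | h'
    · exact hbc (by rw [← inv b, h', h])
    · exact hb h'
    · exact hab (by rw [← e, ← h', inv])

/-- Every block consists of points moved by `τ`. -/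
theorem blk_moved (S : Setup H τ) {F : Finset α} (hF : Blk H F) {x : α} (hx : x ∈ F) :
    τ x ≠ x := by
  intro hxf
  have hm : ∀ q, q ≠ x → τ q ≠ q := fun q hq h => hq (S.fix _ _ h hxf)
  have hc : F.card = 4 := hF.card
  by_cases hex : ∃ z ∈ F, z ≠ x ∧ τ z ∉ F
  · obtain ⟨z, hz, hzx, hzo⟩ := hex
    have h1 := S.card_cover (G := (F.erase z).erase x) (z := z) (by
      intro y hy
      by_cases h1 : y = z
      · exact Or.inl h1
      by_cases h2 : y = τ z
      · exact Or.inr (Or.inl h2)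
      right; right
      have hyx : y ≠ x := fun h => hy (by rw [h, hxf])
      rcases S.key hF hz (hm z hzx) hzo hy h1 h2 with h | h
      · left
        simp [h, hyx, h1]
      · right
        have h3 : τ y ≠ z := fun h' => h2 (by rw [← h', S.inv])
        have h4 : τ y ≠ x := by
          intro h'
          have e := S.inv y
          rw [h', hxf] at e
          exact hy (by rw [h', e])
        simp [h, h3, h4])
    have h2 : ((F.erase z).erase x).card = 2 := by
      rw [Finset.card_erase_of_mem, Finset.card_erase_of_mem hz, hc]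
      exact Finset.mem_erase.2 ⟨hzx.symm, hx⟩
    have h3 := S.big
    omega
  · push Not at hex
    have h2 : (F.erase x).card = 3 := by rw [Finset.card_erase_of_mem hx, hc]
    obtain ⟨a, b, c, hab, hac, hbc, he⟩ := Finset.card_eq_three.1 h2
    have hmem : ∀ q, q ∈ F.erase x ↔ q = a ∨ q = b ∨ q = c := by
      intro q
      rw [he]
      simp
    have hax : a ≠ x := (Finset.mem_erase.1 ((hmem a).2 (Or.inl rfl))).1
    have hbx : b ≠ x := (Finset.mem_erase.1 ((hmem b).2 (Or.inr (Or.inl rfl)))).1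
    have hcx : c ≠ x := (Finset.mem_erase.1 ((hmem c).2 (Or.inr (Or.inr rfl)))).1
    have haF : a ∈ F := (Finset.mem_erase.1 ((hmem a).2 (Or.inl rfl))).2
    have hbF : b ∈ F := (Finset.mem_erase.1 ((hmem b).2 (Or.inr (Or.inl rfl)))).2
    have hcF : c ∈ F := (Finset.mem_erase.1 ((hmem c).2 (Or.inr (Or.inr rfl)))).2
    have hstay : ∀ q ∈ F, q ≠ x → τ q = a ∨ τ q = b ∨ τ q = c := by
      intro q hq hqx
      rw [← hmem]
      refine Finset.mem_erase.2 ⟨?_, hex q hq hqx⟩
      intro h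
      apply hqx
      have : τ (τ q) = τ x := by rw [h]
      rw [S.inv, hxf] at this
      exact this
    exact S.no_inv_three hab hac hbc (hm a hax) (hm b hbx) (hm c hcx)
      (hstay a haF hax) (hstay b hbF hbx) (hstay c hcF hcx)

/-- With at least ten moved points, blocks are `τ`-invariant. -/
theorem blk_big (S : Setup H τ) (hbig : 10 ≤ τ.support.card) {F : Finset α} (hF : Blk H F)
    {z : α} (hz : z ∈ F) : τ z ∈ F := by
  by_contra hzo
  have hc : F.card = 4 := hF.card
  have h1 := S.card_cover (G := F.erase z) (z := z) (by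
    intro y hy
    by_cases h1 : y = z
    · exact Or.inl h1
    by_cases h2 : y = τ z
    · exact Or.inr (Or.inl h2)
    right; right
    rcases S.key hF hz (S.blk_moved hF hz) hzo hy h1 h2 with h | h
    · left
      simp [h, h1]
    · right
      have h3 : τ y ≠ z := fun h' => h2 (by rw [← h', S.inv])
      simp [h, h3])
  rw [Finset.card_erase_of_mem hz, hc] at h1
  omega

/-- Blocks are invariant or transversal. -/
theorem blk_dich (S : Setup H τ) {F : Finset α} (hF : Blk H F) {x z : α} (hx : x ∈ F)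
    (hx' : τ x ∈ F) (hz : z ∈ F) : τ z ∈ F := by
  by_contra hzo
  have hc : F.card = 4 := hF.card
  have hzx : z ≠ x := fun h => hzo (h ▸ hx')
  have hzx' : z ≠ τ x := fun h => hzo (by rw [h, S.inv]; exact hx)
  have hxm := S.blk_moved hF hx
  obtain ⟨w, hw, -, -, -, hall⟩ := exists_fourth hc hx hx' hz hxm.symm hzx.symm hzx'.symm
  have h1 := S.card_cover (G := {x, w}) (z := z) (by
    intro y hy
    by_cases h1 : y = z
    · exact Or.inl h1
    by_cases h2 : y = τ z
    · exact Or.inr (Or.inl h2)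
    right; right
    simp only [Finset.mem_insert, Finset.mem_singleton]
    have h3 : τ y ≠ z := fun h' => h2 (by rw [← h', S.inv])
    rcases S.key hF hz (S.blk_moved hF hz) hzo hy h1 h2 with h | h
    · rcases hall y h with h' | h' | h' | h'
      · exact Or.inl (Or.inl h')
      · right; left; rw [h', S.inv]
      · exact absurd h' h1
      · exact Or.inl (Or.inr h')
    · rcases hall _ h with h' | h' | h' | h'
      · right; left; exact h'
      · left; left; exact τ.injective h'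
      · exact absurd h' h3
      · right; right; exact h')
  have h2 : ({x, w} : Finset α).card ≤ 2 := Finset.card_le_two
  have h3 := S.big
  omega

/-- Two blocks sharing three points coincide (eight moved points). -/
theorem blk_unique (S : Setup H τ) (h8 : τ.support.card = 8) {F₁ F₂ : Finset α}
    (hF₁ : Blk H F₁) (hF₂ : Blk H F₂) {a b c e₁ e₂ : α}
    (ha₁ : a ∈ F₁) (hb₁ : b ∈ F₁) (hc₁ : c ∈ F₁) (ha₂ : a ∈ F₂) (hb₂ : b ∈ F₂) (hc₂ : c ∈ F₂)
    (hab : a ≠ b) (hac : a ≠ c) (hbc : b ≠ c)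
    (he₁ : e₁ ∈ F₁) (he₁a : e₁ ≠ a) (he₁b : e₁ ≠ b) (he₁c : e₁ ≠ c)
    (he₂ : e₂ ∈ F₂) (he₂a : e₂ ≠ a) (he₂b : e₂ ≠ b) (he₂c : e₂ ≠ c) : e₁ = e₂ := by
  by_contra hne
  have hall₁ : ∀ q ∈ F₁, q = a ∨ q = b ∨ q = c ∨ q = e₁ := by
    obtain ⟨w, hw, hwa, hwb, hwc, hall⟩ := exists_fourth hF₁.card ha₁ hb₁ hc₁ hab hac hbc
    rcases hall e₁ he₁ with h | h | h | h
    · exact absurd h he₁a
    · exact absurd h he₁b
    · exact absurd h he₁c
    · rw [h]; exact hall
  have hall₂ : ∀ q ∈ F₂, q = a ∨ q = b ∨ q = c ∨ q = e₂ := by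
    obtain ⟨w, hw, hwa, hwb, hwc, hall⟩ := exists_fourth hF₂.card ha₂ hb₂ hc₂ hab hac hbc
    rcases hall e₂ he₂ with h | h | h | h
    · exact absurd h he₂a
    · exact absurd h he₂b
    · exact absurd h he₂c
    · rw [h]; exact hall
  have hma := S.blk_moved hF₁ ha₁
  have hmb := S.blk_moved hF₁ hb₁
  have hmc := S.blk_moved hF₁ hc₁
  -- a point in both blocks is among `a, b, c`
  have hboth : ∀ q, q ∈ F₁ → q ∈ F₂ → q = a ∨ q = b ∨ q = c := by
    intro q h1 h2
    rcases hall₁ q h1 with h | h | h | h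
    · exact Or.inl h
    · exact Or.inr (Or.inl h)
    · exact Or.inr (Or.inr h)
    · rcases hall₂ q h2 with h' | h' | h' | h'
      · exact Or.inl h'
      · exact Or.inr (Or.inl h')
      · exact Or.inr (Or.inr h')
      · exact absurd (h.symm.trans h') hne
  by_cases hi₁ : τ a ∈ F₁ <;> by_cases hi₂ : τ a ∈ F₂
  · -- both invariant
    have h1 : ∀ q ∈ F₁, τ q ∈ F₁ := fun q hq => S.blk_dich hF₁ ha₁ hi₁ hq
    have h2 : ∀ q ∈ F₂, τ q ∈ F₂ := fun q hq => S.blk_dich hF₂ ha₂ hi₂ hq
    exact S.no_inv_three hab hac hbc hma hmb hmc (hboth _ (h1 a ha₁) (h2 a ha₂))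
      (hboth _ (h1 b hb₁) (h2 b hb₂)) (hboth _ (h1 c hc₁) (h2 c hc₂))
  · -- `F₁` invariant, `F₂` transversal
    have h1 : ∀ q ∈ F₁, τ q ∈ F₁ := fun q hq => S.blk_dich hF₁ ha₁ hi₁ hq
    have h2 : ∀ q ∈ F₂, τ q ∉ F₂ := fun q hq hq' => hi₂ (S.blk_dich hF₂ hq hq' ha₂)
    have hh : ∀ q, (q = a ∨ q = b ∨ q = c) → q ∈ F₂ → q ∈ F₁ → τ q = e₁ := by
      intro q _ hq₂ hq₁
      rcases hall₁ _ (h1 q hq₁) with h | h | h | h
      · exact absurd (h ▸ ha₂) (h2 q hq₂)
      · exact absurd (h ▸ hb₂) (h2 q hq₂)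
      · exact absurd (h ▸ hc₂) (h2 q hq₂)
      · exact h
    have e1 := hh a (Or.inl rfl) ha₂ ha₁
    have e2 := hh b (Or.inr (Or.inl rfl)) hb₂ hb₁
    exact hab (τ.injective (e1.trans e2.symm))
  · -- `F₂` invariant, `F₁` transversal
    have h1 : ∀ q ∈ F₂, τ q ∈ F₂ := fun q hq => S.blk_dich hF₂ ha₂ hi₂ hq
    have h2 : ∀ q ∈ F₁, τ q ∉ F₁ := fun q hq hq' => hi₁ (S.blk_dich hF₁ hq hq' ha₁)
    have hh : ∀ q, q ∈ F₁ → q ∈ F₂ → τ q = e₂ := by
      intro q hq₁ hq₂
      rcases hall₂ _ (h1 q hq₂) with h | h | h | h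
      · exact absurd (h ▸ ha₁) (h2 q hq₁)
      · exact absurd (h ▸ hb₁) (h2 q hq₁)
      · exact absurd (h ▸ hc₁) (h2 q hq₁)
      · exact h
    have e1 := hh a ha₁ ha₂
    have e2 := hh b hb₁ hb₂
    exact hab (τ.injective (e1.trans e2.symm))
  · -- both transversal
    have h1 : ∀ q ∈ F₁, τ q ∉ F₁ := fun q hq hq' => hi₁ (S.blk_dich hF₁ hq hq' ha₁)
    have h2 : ∀ q ∈ F₂, τ q ∉ F₂ := fun q hq hq' => hi₂ (S.blk_dich hF₂ hq hq' ha₂)
    have hsub : F₁ ∪ F₁.image τ ⊆ τ.support := by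
      intro q hq
      rw [Finset.mem_union, Finset.mem_image] at hq
      rw [mem_support]
      rcases hq with hq | ⟨r, hr, rfl⟩
      · exact S.blk_moved hF₁ hq
      · rw [S.inv]
        exact (S.blk_moved hF₁ hr).symm
    have hdis : Disjoint F₁ (F₁.image τ) := by
      rw [Finset.disjoint_left]
      intro q hq hq'
      obtain ⟨r, hr, rfl⟩ := Finset.mem_image.1 hq'
      exact h1 r hr hq
    have hcard : (F₁ ∪ F₁.image τ).card = 8 := by
      rw [Finset.card_union_of_disjoint hdis, Finset.card_image_of_injective _ τ.injective,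
        hF₁.card]
    have heq := Finset.eq_of_subset_of_card_le hsub (by omega)
    have hm₂ : e₂ ∈ τ.support := mem_support.2 (S.blk_moved hF₂ he₂)
    rw [← heq, Finset.mem_union, Finset.mem_image] at hm₂
    have he₂F₁ : e₂ ∉ F₁ := by
      intro h
      rcases hall₁ _ h with h' | h' | h' | h'
      · exact he₂a h'
      · exact he₂b h'
      · exact he₂c h'
      · exact hne h'.symm
    have he₁F₂ : e₁ ∉ F₂ := by
      intro h
      rcases hall₂ _ h with h' | h' | h' | h'
      · exact he₁a h'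
      · exact he₁b h'
      · exact he₁c h'
      · exact hne h'
    rcases hm₂ with hm₂ | ⟨f, hf, hfe⟩
    · exact he₂F₁ hm₂
    have hfe₁ : f = e₁ := by
      rcases hall₁ f hf with h' | h' | h' | h'
      · exact absurd (hfe ▸ he₂) (h2 f (h' ▸ ha₂))
      · exact absurd (hfe ▸ he₂) (h2 f (h' ▸ hb₂))
      · exact absurd (hfe ▸ he₂) (h2 f (h' ▸ hc₂))
      · exact h'
    subst hfe₁
    -- now `e₂ = τ e₁`
    have hh1 : b ≠ τ a := fun h => h1 a ha₁ (h ▸ hb₁)
    have hs := S.mem a b hma hmb hab.symm hh1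
    have hsupp := support_tt S.inv hma hmb hab.symm hh1
    have hF₃ := blk_conj hF₁ hs
    obtain ⟨s₂, hs₂, hs₂F, -⟩ := hF₂
    obtain ⟨s₃, hs₃, hs₃F, -⟩ := hF₃
    apply S.single hs₃ hs₂ (a := c)
    rw [hs₃F, hs₂F]
    have hna : a ≠ τ b := fun h => h1 b hb₁ (h ▸ ha₁)
    have hca1 : c ≠ τ a := fun h => h1 a ha₁ (h ▸ hc₁)
    have hcb1 : c ≠ τ b := fun h => h1 b hb₁ (h ▸ hc₁)
    have hea1 : f ≠ τ a := fun h => h1 a ha₁ (h ▸ he₁)
    have heb1 : f ≠ τ b := fun h => h1 b hb₁ (h ▸ he₁)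
    have hsa : tt τ a b a = τ a := by
      simp only [tt, Perm.mul_apply]
      rw [swap_apply_of_ne_of_ne hab.symm.symm hna, swap_apply_left]
    have hsb : tt τ a b b = τ b := by
      simp only [tt, Perm.mul_apply]
      rw [swap_apply_left, swap_apply_of_ne_of_ne ?_ ?_]
      · exact fun h => h1 b hb₁ (h ▸ ha₁)
      · exact fun h => hab (τ.injective h).symm
    have hsc : tt τ a b c = c := by
      simp only [tt, Perm.mul_apply]
      rw [swap_apply_of_ne_of_ne hbc.symm hcb1, swap_apply_of_ne_of_ne hac.symm hca1]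
    have hse : tt τ a b f = f := by
      simp only [tt, Perm.mul_apply]
      rw [swap_apply_of_ne_of_ne he₁b heb1, swap_apply_of_ne_of_ne he₁a hea1]
    ext q
    simp only [Finset.mem_inter, Finset.mem_image, Finset.mem_singleton]
    constructor
    · rintro ⟨⟨r, hr, rfl⟩, hq₂⟩
      rcases hall₁ r hr with rfl | rfl | rfl | rfl
      · rw [hsa] at hq₂
        exact absurd hq₂ (h2 _ ha₂)
      · rw [hsb] at hq₂
        exact absurd hq₂ (h2 _ hb₂)
      · exact hsc
      · rw [hse] at hq₂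
        exact absurd hq₂ he₁F₂
    · rintro rfl
      exact ⟨⟨_, hc₁, hsc⟩, hc₂⟩

theorem exists_other (S : Setup H τ) (s : Finset α) (hs : s.card < 8) : ∃ y, τ y ≠ y ∧ y ∉ s := by
  obtain ⟨y, hy, hy'⟩ := Finset.exists_mem_notMem_of_card_lt_card (lt_of_lt_of_le hs S.big)
  exact ⟨y, mem_support.1 hy, hy'⟩

theorem exists_other₁ (S : Setup H τ) (x : α) : ∃ y, τ y ≠ y ∧ y ≠ x ∧ y ≠ τ x := by
  obtain ⟨y, hy, hy'⟩ := S.exists_other {x, τ x} (lt_of_le_of_lt Finset.card_le_two (by norm_num))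
  simp only [Finset.mem_insert, Finset.mem_singleton, not_or] at hy'
  exact ⟨y, hy, hy'⟩

theorem exists_other₂ (S : Setup H τ) (x y : α) :
    ∃ y', τ y' ≠ y' ∧ y' ≠ x ∧ y' ≠ τ x ∧ y' ≠ y ∧ y' ≠ τ y := by
  obtain ⟨y', hy, hy'⟩ := S.exists_other {x, τ x, y, τ y}
    (lt_of_le_of_lt Finset.card_le_four (by norm_num))
  simp only [Finset.mem_insert, Finset.mem_singleton, not_or] at hy'
  exact ⟨y', hy, hy'⟩

theorem H_moved (S : Setup H τ) {h : Perm α} (hh : h ∈ H) {x : α} (hx : τ x ≠ x) :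
    τ (h x) ≠ h x := by
  obtain ⟨y, hy, h1, h2⟩ := S.exists_other₁ x
  exact S.blk_moved (blk_conj (S.blk_tt hx hy h1 h2) hh) (Finset.mem_image_of_mem h (by simp))

theorem H_fix (S : Setup H τ) {h : Perm α} (hh : h ∈ H) {w : α} (hw : τ w = w) : h w = w := by
  by_contra hne
  have h1 : τ (h w) ≠ h w := fun e => hne (S.fix _ _ e hw)
  have h2 := S.H_moved (inv_mem hh) h1
  simp at h2
  exact h2 hw

/-- With at least ten moved points, `H` centralizes `τ`. -/
theorem H_comm (S : Setup H τ) (hbig : 10 ≤ τ.support.card) {h : Perm α} (hh : h ∈ H) (x : α) :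
    h (τ x) = τ (h x) := by
  by_cases hx : τ x = x
  · rw [hx, S.H_fix hh hx, hx]
  obtain ⟨y, hy, h1, h2⟩ := S.exists_other₁ x
  obtain ⟨y', hy', h3, h4, h5, h6⟩ := S.exists_other₂ x y
  have hF₁ := blk_conj (S.blk_tt hx hy h1 h2) hh
  have hF₂ := blk_conj (S.blk_tt hx hy' h3 h4) hh
  have hm₁ := S.blk_big hbig hF₁ (z := h x) (Finset.mem_image_of_mem h (by simp))
  have hm₂ := S.blk_big hbig hF₂ (z := h x) (Finset.mem_image_of_mem h (by simp))
  obtain ⟨q₁, hq₁, e₁⟩ := Finset.mem_image.1 hm₁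
  obtain ⟨q₂, hq₂, e₂⟩ := Finset.mem_image.1 hm₂
  have e : q₁ = q₂ := h.injective (e₁.trans e₂.symm)
  subst e
  simp only [Finset.mem_insert, Finset.mem_singleton] at hq₁ hq₂
  have hy6 : y ≠ τ y' := fun e => h6 (by rw [e, S.inv])
  rcases hq₁ with rfl | rfl | rfl | rfl
  · exact absurd e₁.symm (S.H_moved hh hx)
  · exact e₁
  · rcases hq₂ with e | e | e | e
    · exact absurd e h1
    · exact absurd e h2
    · exact absurd e.symm h5
    · exact absurd e hy6
  · rcases hq₂ with e | e | e | e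
    · exact absurd (by rw [← e, S.inv]) h2
    · exact absurd (τ.injective e) h1
    · exact absurd e.symm h6
    · exact absurd (τ.injective e).symm h5

/-- With eight moved points, `τ` commutes with its `H`-conjugates. -/
theorem conj_comm (S : Setup H τ) (h8 : τ.support.card = 8) {h : Perm α} (hh : h ∈ H) :
    (h * τ * h⁻¹) * τ = τ * (h * τ * h⁻¹) := by
  ext z
  set v := h * τ * h⁻¹ with hv
  have hvapp : ∀ q, v q = h (τ (h⁻¹ q)) := fun q => by simp [hv, Perm.mul_apply]
  have hvinv : ∀ q, v (v q) = q := by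
    intro q
    simp [hvapp, S.inv]
  have hmov : ∀ q, τ q ≠ q → τ (h⁻¹ q) ≠ h⁻¹ q := fun q hq => S.H_moved (inv_mem hh) hq
  have hvm : ∀ q, τ q ≠ q → v q ≠ q := by
    intro q hq e
    rw [hvapp] at e
    apply hmov q hq
    rw [Perm.eq_inv_iff_eq]
    exact e
  have hvτ : ∀ q, τ q ≠ q → τ (v q) ≠ v q := by
    intro q hq
    rw [hvapp]
    apply S.H_moved hh
    rw [S.inv]
    exact (hmov q hq).symm
  simp only [Perm.mul_apply]
  by_cases hz : τ z = z
  · have h1 : h⁻¹ z = z := S.H_fix (inv_mem hh) hz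
    have h2 : h z = z := S.H_fix hh hz
    have h3 : v z = z := by rw [hvapp, h1, hz, h2]
    rw [hz, h3, hz]
  have hvz := hvm z hz
  by_cases hzv : τ z = v z
  · rw [← hzv, S.inv, hzv, hvinv]
  have hτz : τ (τ z) ≠ τ z := by
    rw [S.inv]
    exact Ne.symm hz
  have hb₁ : Blk H {z, τ z, v z, τ (v z)} := S.blk_tt hz (hvτ z hz) hvz (Ne.symm hzv)
  have hb₂ : Blk H {z, v z, τ z, v (τ z)} := by
    have h1 : h⁻¹ (τ z) ≠ h⁻¹ z := fun e => hz (h⁻¹.injective e)
    have h2 : h⁻¹ (τ z) ≠ τ (h⁻¹ z) := by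
      intro e
      apply hzv
      rw [hvapp, ← e]
      simp
    have hb := blk_conj (S.blk_tt (hmov z hz) (hmov _ hτz) h1 h2) hh
    have e : ({h⁻¹ z, τ (h⁻¹ z), h⁻¹ (τ z), τ (h⁻¹ (τ z))} : Finset α).image h
        = {z, v z, τ z, v (τ z)} := by
      simp only [Finset.image_insert, Finset.image_singleton]
      rw [hvapp, hvapp]
      simp
    rwa [e] at hb
  have h1 : τ (v z) ≠ z := fun e => hzv (by
    have := congrArg τ e
    rw [S.inv] at this
    exact this.symm)
  have h2 : τ (v z) ≠ τ z := fun e => hvz (τ.injective e)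
  have h3 := hvτ z hz
  have h4 : v (τ z) ≠ z := fun e => hzv (by
    have := congrArg v e
    rw [hvinv] at this
    exact this)
  have h5 : v (τ z) ≠ τ z := hvm _ hτz
  have h6 : v (τ z) ≠ v z := fun e => hz (v.injective e)
  exact (S.blk_unique h8 hb₂ hb₁ (a := z) (b := τ z) (c := v z) (by simp) (by simp) (by simp)
    (by simp) (by simp) (by simp) (Ne.symm hz) (Ne.symm hvz) hzv (by simp) h4 h5 h6 (by simp)
    h1 h2 h3)

/-- Either way, `L` commutes with `τ`. -/
theorem L_comm (S : Setup H τ) {L : Subgroup (Perm α)} (hq : IsQuasisimple L) (hLH : L ≤ H)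
    (hN : H ≤ normalizer (L : Set (Perm α))) (hτ8 : τ.support.card = 8 → τ ∈ H) :
    ∀ l ∈ L, l * τ = τ * l := by
  have hpar : 2 ∣ τ.support.card := by
    apply two_dvd_card_support
    ext x
    simp [pow_two, S.inv]
  have hbig := S.big
  by_cases h8 : τ.support.card = 8
  · have hτH := hτ8 h8
    by_contra hnc
    let 𝒮 : Set (Perm α) := {s | ∃ h ∈ H, s = h * τ * h⁻¹}
    let X : Subgroup (Perm α) := centralizer 𝒮
    have hτX : τ ∈ X := by
      rw [mem_centralizer_iff]
      rintro _ ⟨h, hh, rfl⟩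
      exact S.conj_comm h8 hh
    have hLX : L ≤ normalizer (X : Set (Perm α)) := by
      intro l hl
      apply mem_normalizer_of_conj_le
      intro y hy
      rw [mem_centralizer_iff] at hy ⊢
      rintro _ ⟨h, hh, rfl⟩
      have h1 := hy (l⁻¹ * h * τ * (l⁻¹ * h)⁻¹) ⟨l⁻¹ * h, mul_mem (inv_mem (hLH hl)) hh, rfl⟩
      have e1 : h * τ * h⁻¹ * (l * y * l⁻¹) = l * ((l⁻¹ * h * τ * (l⁻¹ * h)⁻¹) * y) * l⁻¹ := by
        group
      have e2 : l * y * l⁻¹ * (h * τ * h⁻¹) = l * (y * (l⁻¹ * h * τ * (l⁻¹ * h)⁻¹)) * l⁻¹ := by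
        group
      rw [e1, e2, h1]
    have hLX' := le_of_not_commute hq hLX hτX (hN hτH) hnc
    apply hnc
    intro l hl
    have h1 := hLX' hl
    rw [mem_centralizer_iff] at h1
    have := h1 τ ⟨1, one_mem _, by simp⟩
    exact this.symm
  · have hbig' : 10 ≤ τ.support.card := by omega
    intro l hl
    ext x
    simp only [Perm.mul_apply]
    exact (S.H_comm hbig' (hLH hl) x).symm ▸ rfl

/-- The group of perms acting on `τ`-orbits. -/
def Yg (τ : Perm α) (hinv : ∀ x, τ (τ x) = x) : Subgroup (Perm α) where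
  carrier := {g | ∀ z, g z = z ∨ g z = τ z}
  one_mem' := fun z => Or.inl rfl
  mul_mem' := by
    intro a b ha hb z
    simp only [Perm.mul_apply]
    rcases hb z with h | h
    · rw [h]
      exact ha z
    · rw [h]
      rcases ha (τ z) with h' | h'
      · exact Or.inr h'
      · left
        rw [h', hinv]
  inv_mem' := by
    intro a ha z
    have e : a (a⁻¹ z) = z := by simp
    rcases ha (a⁻¹ z) with h | h
    · left
      rw [e] at h
      exact h.symm
    · right
      rw [e] at h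
      have e2 := congrArg τ h
      rw [hinv] at e2
      exact e2.symm

theorem mem_Yg {τ : Perm α} {hinv : ∀ x, τ (τ x) = x} {g : Perm α} :
    g ∈ Yg τ hinv ↔ ∀ z, g z = z ∨ g z = τ z := Iff.rfl

theorem Yg_swap {τ : Perm α} {hinv : ∀ x, τ (τ x) = x} {g : Perm α} (hg : g ∈ Yg τ hinv) {z : α}
    (h : g z = τ z) : g (τ z) = z := by
  rcases hg (τ z) with h' | h'
  · have : z = τ z := g.injective (h.trans h'.symm)
    rw [← this, h, ← this]
  · rw [h', hinv]

theorem Yg_fix {τ : Perm α} {hinv : ∀ x, τ (τ x) = x} {g : Perm α} (hg : g ∈ Yg τ hinv) {z : α}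
    (h : g z = z) : g (τ z) = τ z := by
  rcases hg (τ z) with h' | h'
  · exact h'
  · rw [hinv] at h'
    have : τ z = z := g.injective (h'.trans h.symm)
    rw [this, h]

theorem Yg_comm {τ : Perm α} {hinv : ∀ x, τ (τ x) = x} {g g' : Perm α} (hg : g ∈ Yg τ hinv)
    (hg' : g' ∈ Yg τ hinv) : g * g' = g' * g := by
  ext z
  simp only [Perm.mul_apply]
  rcases hg z with h | h <;> rcases hg' z with h' | h'
  · rw [h, h', h]
  · rw [h', h, Yg_fix hg h, h']
  · rw [h', h, Yg_fix hg' h']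
  · rw [h', h, Yg_swap hg h, Yg_swap hg' h']

theorem tt_mem_Yg {τ : Perm α} (hinv : ∀ x, τ (τ x) = x) (x y : α) : tt τ x y ∈ Yg τ hinv := by
  apply mul_mem
  · intro z
    rw [swap_apply_def]
    split_ifs with h1 h2
    · right; rw [h1]
    · right; rw [h2, hinv]
    · left; rfl
  · intro z
    rw [swap_apply_def]
    split_ifs with h1 h2
    · right; rw [h1]
    · right; rw [h2, hinv]
    · left; rfl

/-- The final contradiction. -/
theorem final (S : Setup H τ) {L : Subgroup (Perm α)} (hq : IsQuasisimple L) (hLH : L ≤ H)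
    (hN : H ≤ normalizer (L : Set (Perm α))) (hLC : ∀ l ∈ L, l * τ = τ * l) : False := by
  have hinv := S.inv
  have hlapp : ∀ l ∈ L, ∀ q, l (τ q) = τ (l q) := by
    intro l hl q
    have := congrArg (fun f : Perm α => f q) (hLC l hl)
    simpa using this
  have hab : ¬ L ≤ Yg τ hinv := by
    intro hle
    apply ne_bot_of_quasisimple hq
    rw [← commutator_self_of_quasisimple hq, eq_bot_iff, commutator_le]
    intro a ha b hb
    rw [mem_bot, commutatorElement_eq_one_iff_mul_comm]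
    exact Yg_comm (hle ha) (hle hb)
  have hLY : L ≤ normalizer (Yg τ hinv : Set (Perm α)) := by
    intro l hl
    apply mem_normalizer_of_conj_le
    intro y hy z
    simp only [Perm.mul_apply]
    rcases hy (l⁻¹ z) with h | h
    · left
      rw [h]
      simp
    · right
      rw [h, hlapp l hl]
      simp
  have htt : ∀ x y, τ x ≠ x → τ y ≠ y → y ≠ x → y ≠ τ x → ∀ l ∈ L, l * tt τ x y = tt τ x y * l := by
    intro x y hx hy h1 h2
    by_contra hnc
    exact hab (le_of_not_commute hq hLY (tt_mem_Yg hinv x y) (hN (S.mem x y hx hy h1 h2)) hnc)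
  apply hab
  intro l hl z
  by_cases hz : τ z = z
  · left
    exact S.fix _ _ (by rw [← hlapp l hl, hz]) hz
  obtain ⟨y, hy, h1, h2⟩ := S.exists_other₁ z
  obtain ⟨y', hy', h3, h4, h5, h6⟩ := S.exists_other₂ z y
  have hsupp : ∀ y'', τ y'' ≠ y'' → y'' ≠ z → y'' ≠ τ z →
      l z = z ∨ l z = τ z ∨ l z = y'' ∨ l z = τ y'' := by
    intro y'' a1 a2 a3
    have hm : z ∈ (tt τ z y'').support := by
      rw [support_tt hinv hz a1 a2 a3]
      simp
    have hm' : l z ∈ (tt τ z y'').support := by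
      rw [mem_support] at hm ⊢
      intro e
      apply hm
      apply l.injective
      have := congrArg (fun f : Perm α => f z) (htt z y'' hz a1 a2 a3 l hl)
      simp only [Perm.mul_apply] at this
      rw [this, e]
    rw [support_tt hinv hz a1 a2 a3] at hm'
    simpa using hm'
  rcases hsupp y hy h1 h2 with e | e | e | e
  · exact Or.inl e
  · exact Or.inr e
  · rcases hsupp y' hy' h3 h4 with e' | e' | e' | e'
    · exact Or.inl e'
    · exact Or.inr e'
    · exact absurd (e.symm.trans e').symm h5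
    · exact absurd (by rw [← e, e', hinv]) h6
  · rcases hsupp y' hy' h3 h4 with e' | e' | e' | e'
    · exact Or.inl e'
    · exact Or.inr e'
    · exact absurd (e.symm.trans e').symm h6
    · exact absurd (τ.injective (e.symm.trans e')).symm h5

end Setup

/-- A subgroup containing the even perms acting on the orbits of an involution with at most one
fixed point and at least eight moved points contains a 3-cycle, if its `F*` is quasisimple. -/
theorem exists_threeCycle {H L : Subgroup (Perm α)} (hN : H ≤ normalizer (L : Set (Perm α)))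
    (hq : IsQuasisimple L) (hLH : L ≤ H) {τ : Perm α} (hinv : ∀ x, τ (τ x) = x)
    (hfix : ∀ a b, τ a = a → τ b = b → a = b) (hbig : 8 ≤ τ.support.card)
    (hmem : ∀ g, (∀ z, g z = z ∨ g z = τ z) → sign g = 1 → g ∈ H)
    (hsign : τ.support.card = 8 → sign τ = 1) : ∃ t ∈ H, t.IsThreeCycle := by
  by_contra hcon
  push Not at hcon
  have S : Setup H τ := by
    refine ⟨hinv, hfix, hbig, ?_, hcon⟩
    intro x y hx hy h1 h2
    apply hmem _ (Setup.tt_mem_Yg hinv x y)
    rw [tt, map_mul, sign_swap (Ne.symm hx), sign_swap (Ne.symm hy)]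
    rfl
  have hτ8 : τ.support.card = 8 → τ ∈ H := fun h8 => hmem τ (fun z => Or.inr rfl) (hsign h8)
  exact S.final hq hLH hN (S.L_comm hq hLH hN hτ8)

/-- An involution with at most one fixed point on `Fin n`. -/
def tau₀ (n : ℕ) : Perm (Fin n) :=
  Function.Involutive.toPerm
    (fun i => ⟨if i.1 % 2 = 0 then (if i.1 + 1 < n then i.1 + 1 else i.1) else i.1 - 1, by
      have := i.2
      split_ifs <;> omega⟩)
    (by
      intro i
      have hi := i.2
      apply Fin.ext
      simp only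
      split_ifs <;> omega)

theorem tau₀_apply (n : ℕ) (i : Fin n) :
    ((tau₀ n i : Fin n) : ℕ) = if i.1 % 2 = 0 then (if i.1 + 1 < n then i.1 + 1 else i.1) else i.1 - 1 :=
  rfl

theorem tau₀_inv (n : ℕ) (i : Fin n) : tau₀ n (tau₀ n i) = i := by
  apply Fin.ext
  have hi := i.2
  simp only [tau₀_apply]
  split_ifs <;> omega

theorem tau₀_fix (n : ℕ) (a b : Fin n) (ha : tau₀ n a = a) (hb : tau₀ n b = b) : a = b := by
  have h1 := congrArg Fin.val ha
  have h2 := congrArg Fin.val hb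
  rw [tau₀_apply] at h1 h2
  have h3 := a.2
  have h4 := b.2
  apply Fin.ext
  split_ifs at h1 h2 <;> omega

theorem sign_of_card_eight {τ : Perm α} (hinv : ∀ x, τ (τ x) = x) (h8 : τ.support.card = 8) :
    sign τ = 1 := by
  have hpow : τ ^ 2 = 1 := by
    ext x
    simp [pow_two, hinv]
  have hall : ∀ k ∈ τ.cycleType, k = 2 := by
    intro k hk
    have h1 : k ∣ orderOf τ := dvd_of_mem_cycleType hk
    have h2 : orderOf τ ∣ 2 := orderOf_dvd_of_pow_eq_one hpow
    have h3 := two_le_of_mem_cycleType hk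
    have h4 := Nat.le_of_dvd (by norm_num) (h1.trans h2)
    omega
  have h1 := Multiset.eq_replicate.2 ⟨rfl, hall⟩
  have h2 : τ.cycleType.sum = 8 := by rw [sum_cycleType, h8]
  rw [h1, Multiset.sum_replicate, smul_eq_mul] at h2
  rw [sign_of_cycleType, h1, Multiset.sum_replicate, smul_eq_mul, Multiset.card_replicate]
  have h3 : Multiset.card τ.cycleType = 4 := by omega
  rw [h3]
  rfl

theorem big_of_fix {τ : Perm α} (hinv : ∀ x, τ (τ x) = x)
    (hfix : ∀ a b, τ a = a → τ b = b → a = b) (hα : 8 ≤ Fintype.card α) : 8 ≤ τ.support.card := by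
  have hpar : 2 ∣ τ.support.card := by
    apply two_dvd_card_support
    ext x
    simp [pow_two, hinv]
  have h1 : (τ.supportᶜ).card ≤ 1 := by
    rw [Finset.card_le_one]
    intro a ha b hb
    simp only [Finset.mem_compl, mem_support, not_not] at ha hb
    exact hfix a b ha hb
  have h2 := Finset.card_compl τ.support
  have h3 := Finset.card_le_univ τ.support
  omega

/-- Conjugating `Y(τ₀)` into the Sylow 2-subgroup. -/
theorem exists_tau {n : ℕ} (hn : 8 ≤ n) {H : Subgroup (Perm (Fin n))}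
    (P : Sylow 2 (alternatingGroup (Fin n)))
    (hP : (P : Subgroup (alternatingGroup (Fin n))).map (alternatingGroup (Fin n)).subtype ≤ H) :
    ∃ τ : Perm (Fin n), (∀ x, τ (τ x) = x) ∧ (∀ a b, τ a = a → τ b = b → a = b) ∧
      (∀ g, (∀ z, g z = z ∨ g z = τ z) → sign g = 1 → g ∈ H) := by
  let A := alternatingGroup (Fin n)
  let Y := Setup.Yg (tau₀ n) (tau₀_inv n)
  let E : Subgroup A := Y.comap A.subtype
  have hE : IsPGroup 2 E := by
    intro g
    refine ⟨1, ?_⟩
    apply Subtype.ext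
    apply Subtype.ext
    rw [pow_one]
    have hg : ((g : A) : Perm (Fin n)) ∈ Y := g.2
    have : ((g : A) : Perm (Fin n)) ^ 2 = 1 := by
      ext z
      simp only [pow_two, Perm.mul_apply, Perm.one_apply]
      congr 1
      rcases hg z with h | h
      · rw [h, h]
      · rw [h, Setup.Yg_swap hg h]
    simpa using this
  obtain ⟨Q, hQ⟩ := hE.exists_le_sylow
  obtain ⟨a, ha⟩ := MulAction.exists_smul_eq A Q P
  let g : Perm (Fin n) := (a : Perm (Fin n))
  refine ⟨g * tau₀ n * g⁻¹, ?_, ?_, ?_⟩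
  · intro x
    simp [tau₀_inv]
  · intro u v hu hv
    have hu' : tau₀ n (g⁻¹ u) = g⁻¹ u := by
      rw [Perm.eq_inv_iff_eq]
      simpa using hu
    have hv' : tau₀ n (g⁻¹ v) = g⁻¹ v := by
      rw [Perm.eq_inv_iff_eq]
      simpa using hv
    exact g⁻¹.injective (tau₀_fix n _ _ hu' hv')
  · intro y hy hs
    apply hP
    have hconj : g⁻¹ * y * g ∈ Y := by
      intro z
      rcases hy (g z) with h | h
      · left
        simp [h]
      · right
        simp [h]
    have hsign : sign (g⁻¹ * y * g) = 1 := by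
      simp [hs]
    let y' : A := ⟨g⁻¹ * y * g, hsign⟩
    have hy'E : y' ∈ E := hconj
    have hy'Q : y' ∈ (Q : Subgroup A) := hQ hy'E
    have h1 : a • Q = P := ha
    have h2 : a * y' * a⁻¹ ∈ (P : Subgroup A) := by
      rw [← h1]
      show _ ∈ MulAut.conj a • (Q : Subgroup A)
      exact ⟨y', hy'Q, rfl⟩
    refine ⟨_, h2, ?_⟩
    simp [y', g, mul_assoc]

/-- Given a 3-cycle in `H` and a Sylow 2-subgroup of the alternating group in `H`. -/
theorem main_core₂ (H L : Subgroup (Perm α)) (hN : H ≤ normalizer (L : Set (Perm α)))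
    (hq : IsQuasisimple L)
    (hC : ∀ h ∈ H, (∀ l ∈ L, l * h = h * l) → h ∈ L) (hLH : L ≤ H)
    (P : Sylow 2 (alternatingGroup α))
    (hP : (P : Subgroup (alternatingGroup α)).map (alternatingGroup α).subtype ≤ H)
    (t₁ : Perm α) (ht₁H : t₁ ∈ H) (ht₁ : t₁.IsThreeCycle) :
    ∃ m : ℕ, Fintype.card α ≤ m + 3 ∧ m ≤ Fintype.card α ∧
      Nonempty (L ≃* alternatingGroup (Fin m)) := by
  classical
  have hLne : L ≠ ⊥ := ne_bot_of_quasisimple hq
  have hPerf : ⁅L, L⁆ = L := commutator_self_of_quasisimple hq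
  let 𝒯 : Set (Perm α) := {t | t ∈ H ∧ t.IsThreeCycle}
  have hnc : ∀ t ∈ 𝒯, ¬ ∀ l ∈ L, l * t = t * l := by
    intro t ht hcomm
    exact threeCycle_not_mem_of_perfect hPerf ht.2 hcomm (hC t ht.1 hcomm)
  -- a 3-cycle in `H`
  obtain ⟨t₀, ht₀⟩ : 𝒯.Nonempty := ⟨t₁, ht₁H, ht₁⟩
  let M : Subgroup (Perm α) := closure 𝒯
  have hMH : M ≤ H := by
    rw [closure_le]
    exact fun t ht => ht.1
  have hHM : ∀ h ∈ H, h ∈ normalizer (M : Set (Perm α)) := by
    intro h hh
    apply mem_normalizer_of_conj_le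
    intro y hy
    have : M ≤ M.comap (MulAut.conj h).toMonoidHom := by
      rw [closure_le]
      intro t ht
      apply Subgroup.subset_closure
      exact ⟨mul_mem (mul_mem hh ht.1) (inv_mem hh), cycleType_conj.trans ht.2⟩
    exact this hy
  have hLM : L ≤ M :=
    le_of_not_commute hq (fun l hl => hHM l (hLH hl)) (Subgroup.subset_closure ht₀) (hN ht₀.1) (hnc t₀ ht₀)
  -- the orbit
  obtain ⟨a, ha, -⟩ := ht₀.2.isCycle
  let Δ : Set α := {x | ∃ m ∈ M, m a = x}
  have haΔ : a ∈ Δ := ⟨1, one_mem _, rfl⟩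
  have hΔ : ∀ m ∈ M, ∀ x, m x ∈ Δ ↔ x ∈ Δ := by
    intro m hm x
    constructor
    · rintro ⟨k, hk, hkx⟩
      refine ⟨m⁻¹ * k, mul_mem (inv_mem hm) hk, ?_⟩
      simp [hkx]
    · rintro ⟨k, hk, hkx⟩
      refine ⟨m * k, mul_mem hm hk, ?_⟩
      simp [hkx]
  have hΔc : ∀ m ∈ M, ∀ x, m x ∈ Δᶜ ↔ x ∈ Δᶜ := by
    intro m hm x
    simp only [Set.mem_compl_iff, hΔ m hm x]
  let K : Subgroup (Perm α) := fixingSubgroup (Perm α) Δᶜ
  let K' : Subgroup (Perm α) := fixingSubgroup (Perm α) Δ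
  have hMK : M ≤ normalizer (K : Set (Perm α)) := fun m hm => mem_normalizer_fixing (hΔc m hm)
  have hMK' : M ≤ normalizer (K' : Set (Perm α)) := fun m hm => mem_normalizer_fixing (hΔ m hm)
  have hKi : ∀ g : Perm α, g ∈ K ↔ ∀ x, x ∉ Δ → g x = x := by
    intro g
    rw [mem_fixingSubgroup_iff]
    rfl
  have hKi' : ∀ g : Perm α, g ∈ K' ↔ ∀ x, x ∈ Δ → g x = x := by
    intro g
    rw [mem_fixingSubgroup_iff]
    rfl
  have hdich : ∀ t ∈ 𝒯, t ∈ K ∨ t ∈ K' := by
    intro t ht
    by_contra hcon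
    push Not at hcon
    obtain ⟨h1, h2⟩ := hcon
    rw [hKi] at h1
    rw [hKi'] at h2
    push Not at h1 h2
    obtain ⟨x, hx, hxm⟩ := h1
    obtain ⟨b, hb, hbm⟩ := h2
    obtain ⟨i, hi⟩ := ht.2.isCycle.sameCycle hbm hxm
    apply hx
    rw [← hi]
    exact (hΔ (t ^ i) (zpow_mem (Subgroup.subset_closure ht) i) b).2 hb
  have ht₀K : t₀ ∈ K := by
    rcases hdich t₀ ht₀ with h | h
    · exact h
    · exact absurd ((hKi' t₀).1 h a haΔ) ha
  have hLK : L ≤ K :=
    le_of_not_commute hq (hLM.trans hMK) ht₀K (hN ht₀.1) (hnc t₀ ht₀)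
  have h𝒯K : ∀ t ∈ 𝒯, t ∈ K := by
    intro t ht
    rcases hdich t ht with h | h
    · exact h
    · exfalso
      have hLK' : L ≤ K' := le_of_not_commute hq (hLM.trans hMK') h (hN ht.1) (hnc t ht)
      apply hLne
      rw [eq_bot_iff]
      intro g hg
      rw [mem_bot]
      ext x
      by_cases hx : x ∈ Δ
      · simpa using (hKi' g).1 (hLK' hg) x hx
      · simpa using (hKi g).1 (hLK hg) x hx
  have hMKK : M ≤ K := by
    rw [closure_le]
    exact h𝒯K
  -- restriction to the orbit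
  let p : α → Prop := fun x => x ∈ Δ
  let D := Subtype p
  let f : Perm D →* Perm α := ofSubtype
  have hfinj : Function.Injective f := ofSubtype_injective
  have hrange : ∀ g ∈ K, ∃ g' : Perm D, f g' = g := by
    intro g hg
    have h1 : g ∈ (ofSubtype : Perm (Subtype p) →* Perm α).range := by
      rw [mem_range_ofSubtype_iff]
      intro x hx
      by_contra hxp
      exact (mem_support.1 hx) ((hKi g).1 hg x hxp)
    exact h1
  let T' : Set (Perm D) := {t' | f t' ∈ 𝒯}
  let N : Subgroup (Perm D) := closure T'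
  have hNM : N.map f = M := by
    show (closure T').map f = closure 𝒯
    rw [MonoidHom.map_closure]
    congr 1
    ext t
    constructor
    · rintro ⟨t', ht', rfl⟩
      exact ht'
    · intro ht
      obtain ⟨t', rfl⟩ := hrange t (h𝒯K t ht)
      exact ⟨t', ht, rfl⟩
  have hT' : ∀ t' ∈ T', t'.IsThreeCycle := by
    intro t' ht'
    have h1 : (f t').IsThreeCycle := ht'.2
    have h2 : (f t').cycleType = t'.cycleType := cycleType_ofSubtype
    rw [Perm.IsThreeCycle, h2] at h1
    exact h1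
  have hT'ne : T'.Nonempty := by
    obtain ⟨t', ht'⟩ := hrange t₀ ht₀K
    exact ⟨t', by show f t' ∈ 𝒯; rw [ht']; exact ht₀⟩
  have hfapply : ∀ (g : Perm D) (x : D), f g (x : α) = (g x : α) := fun g x => ofSubtype_apply_coe g x
  have htr : ∀ x y : D, ∃ g ∈ N, g x = y := by
    rintro ⟨x, m₁, hm₁, hx⟩ ⟨y, m₂, hm₂, hy⟩
    have hm : m₂ * m₁⁻¹ ∈ M := mul_mem hm₂ (inv_mem hm₁)
    rw [← hNM] at hm
    obtain ⟨g, hg, hgm⟩ := hm
    refine ⟨g, hg, ?_⟩
    apply Subtype.ext
    rw [← hfapply, hgm]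
    simp [← hx, ← hy]
  have hNalt : N = alternatingGroup D := closure_eq_alternating hT' hT'ne htr
  -- `L` comes from a normal subgroup of the alternating group
  let L₁ : Subgroup (Perm D) := L.comap f
  have hL₁map : L₁.map f = L := by
    apply le_antisymm
    · rintro _ ⟨g, hg, rfl⟩
      exact hg
    · intro g hg
      obtain ⟨g', rfl⟩ := hrange g (hLK hg)
      exact ⟨g', hg, rfl⟩
  have hL₁N : L₁ ≤ N := by
    intro g hg
    have h1 : f g ∈ M := hLM hg
    rw [← hNM] at h1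
    obtain ⟨g', hg', hgg⟩ := h1
    rwa [← hfinj hgg]
  let eL : L₁ ≃* L := (L₁.equivMapOfInjective f hfinj).trans (MulEquiv.subgroupCongr hL₁map)
  have hcardL : Nat.card L₁ = Nat.card L := Nat.card_congr eL.toEquiv
  -- the degree is at least five
  have hD5 : 5 ≤ Nat.card D := by
    by_contra hlt
    have hle : Nat.card D ≤ 4 := by omega
    have h1 : Nat.card L₁ ∣ Nat.card (Perm D) := Subgroup.card_subgroup_dvd_card L₁
    rw [Nat.card_perm] at h1
    have h2 : (Nat.card D).factorial ∣ 2 ^ 3 * 3 ^ 1 := by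
      have : (Nat.card D).factorial ∣ Nat.factorial 4 := Nat.factorial_dvd_factorial hle
      simpa [Nat.factorial] using this
    rw [hcardL] at h1
    obtain ⟨a', b', hab⟩ := Cfsg.Agent.Lib.Char.Burnside.exists_eq_pow_mul_pow_of_dvd
      Nat.prime_two Nat.prime_three (h1.trans h2)
    exact quasisimple_not_solvable hq
      (Cfsg.Agent.Lib.Char.Burnside.isSolvable_of_card_eq 2 3 a' b' Nat.prime_two Nat.prime_three hab)
  haveI hsimple : IsSimpleGroup (alternatingGroup D) := alternatingGroup.isSimpleGroup hD5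
  have hL₁alt : L₁ = alternatingGroup D := by
    apply le_antisymm (hL₁N.trans hNalt.le)
    have hnorm : (L₁.subgroupOf (alternatingGroup D)).Normal := by
      constructor
      intro n hn g
      rw [mem_subgroupOf] at hn ⊢
      have hg : (g : Perm D) ∈ N := by
        rw [hNalt]
        exact g.2
      have h1 : f g ∈ M := hNM.le (mem_map_of_mem f hg)
      have h2 : f g ∈ normalizer (L : Set (Perm α)) := hN (hMH h1)
      have hn' : f n ∈ L := hn
      show f ((g * n * g⁻¹ : alternatingGroup D) : Perm D) ∈ L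
      have h3 := (mem_normalizer_iff.mp h2 (f n)).mp hn'
      simpa using h3
    rcases hnorm.eq_bot_or_eq_top with hb | ht
    · exfalso
      apply hLne
      rw [← hL₁map, eq_bot_iff]
      rintro _ ⟨g, hg, rfl⟩
      have hgN : g ∈ alternatingGroup D := by
        rw [← hNalt]
        exact hL₁N hg
      have h1 : (⟨g, hgN⟩ : alternatingGroup D) ∈ L₁.subgroupOf (alternatingGroup D) := by
        rw [mem_subgroupOf]
        exact hg
      rw [hb, mem_bot] at h1
      have h2 : g = 1 := congrArg Subtype.val h1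
      rw [h2, map_one]
      exact one_mem _
    · exact subgroupOf_eq_top.mp ht
  -- the degree
  let m := Fintype.card D
  have hmle : m ≤ Fintype.card α := Fintype.card_subtype_le _
  have hiso : Nonempty (L ≃* alternatingGroup (Fin m)) :=
    ⟨eL.symm.trans ((MulEquiv.subgroupCongr hL₁alt).trans (Equiv.altCongrHom (Fintype.equivFin D)))⟩
  refine ⟨m, ?_, hmle, hiso⟩
  -- `H` stabilizes `Δ`
  have hHΔ : ∀ h ∈ H, ∀ x ∈ Δ, h x ∈ Δ := by
    rintro h hh x ⟨m₀, hm₀, rfl⟩
    by_contra hout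
    have h1 : m₀ * t₀ * m₀⁻¹ ∈ M := mul_mem (mul_mem hm₀ (Subgroup.subset_closure ht₀)) (inv_mem hm₀)
    have h2 : h * (m₀ * t₀ * m₀⁻¹) * h⁻¹ ∈ M := (mem_normalizer_iff.mp (hHM h hh) _).mp h1
    have h3 := (hKi _).1 (hMKK h2) _ hout
    apply ha
    simpa using h3
  let Y : Subgroup (Perm α) := MulAction.stabilizer (Perm α) Δ
  have hHY : H ≤ Y := by
    intro h hh
    show h ∈ MulAction.stabilizer (Perm α) Δ
    rw [MulAction.mem_stabilizer_iff]
    ext x
    rw [Set.mem_smul_set_iff_inv_smul_mem]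
    constructor
    · intro hx
      have := hHΔ h hh _ hx
      simpa using this
    · intro hx
      exact hHΔ h⁻¹ (inv_mem hh) _ hx
  by_contra hlt
  have hcompl : Fintype.card (Fin 4) ≤ Fintype.card {x // ¬ p x} := by
    have h1 := Fintype.card_subtype_compl p
    have h2 : Fintype.card {x // p x} = m := rfl
    simp only [Fintype.card_fin]
    omega
  obtain ⟨c⟩ := Function.Embedding.nonempty_of_card_le hcompl
  have hc : ∀ i, (c i : α) ∉ Δ := fun i => (c i).2
  have hcne : ∀ i j, i ≠ j → (c i : α) ≠ (c j : α) := fun i j hij h =>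
    hij (c.injective (Subtype.ext h))
  let u₀ : Perm α := swap (c 0 : α) (c 1 : α) * swap (c 2 : α) (c 3 : α)
  have hu₀ : ∀ x, x ∈ Δ → u₀ x = x := by
    intro x hx
    have h0 : x ≠ c 0 := fun h => hc 0 (h ▸ hx)
    have h1 : x ≠ c 1 := fun h => hc 1 (h ▸ hx)
    have h2 : x ≠ c 2 := fun h => hc 2 (h ▸ hx)
    have h3 : x ≠ c 3 := fun h => hc 3 (h ▸ hx)
    show (swap (c 0 : α) (c 1 : α) * swap (c 2 : α) (c 3 : α)) x = x
    rw [Perm.mul_apply, swap_apply_of_ne_of_ne h2 h3, swap_apply_of_ne_of_ne h0 h1]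
  have hu₀ne : u₀ (c 0 : α) = (c 1 : α) := by
    show (swap (c 0 : α) (c 1 : α) * swap (c 2 : α) (c 3 : α)) (c 0 : α) = (c 1 : α)
    rw [Perm.mul_apply, swap_apply_of_ne_of_ne (hcne 0 2 (by decide)) (hcne 0 3 (by decide)),
      swap_apply_left]
  have hu₀s : sign u₀ = 1 := by
    show sign (swap (c 0 : α) (c 1 : α) * swap (c 2 : α) (c 3 : α)) = 1
    rw [map_mul, sign_swap (hcne 0 1 (by decide)), sign_swap (hcne 2 3 (by decide))]
    rfl
  have hu₀sq : u₀ ^ 2 = 1 := by
    show (swap (c 0 : α) (c 1 : α) * swap (c 2 : α) (c 3 : α)) ^ 2 = 1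
    have hcomm : Commute (swap (c 0 : α) (c 1 : α)) (swap (c 2 : α) (c 3 : α)) := by
      apply Disjoint.commute
      intro x
      by_cases h0 : x = c 0
      · right
        subst h0
        exact swap_apply_of_ne_of_ne (hcne 0 2 (by decide)) (hcne 0 3 (by decide))
      by_cases h1 : x = c 1
      · right
        subst h1
        exact swap_apply_of_ne_of_ne (hcne 1 2 (by decide)) (hcne 1 3 (by decide))
      left
      exact swap_apply_of_ne_of_ne h0 h1
    rw [hcomm.mul_pow, pow_two, pow_two, swap_mul_self, swap_mul_self, one_mul]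
  have hYstab : ∀ y ∈ Y, ∀ x, y x ∈ Δ ↔ x ∈ Δ := by
    intro y hy x
    have h1 : y • Δ = Δ := hy
    constructor
    · intro hx
      rw [← h1, Set.mem_smul_set_iff_inv_smul_mem] at hx
      simpa using hx
    · intro hx
      rw [← h1]
      exact ⟨x, hx, rfl⟩
  have hu₀Y : u₀ ∈ Y := by
    show u₀ ∈ MulAction.stabilizer (Perm α) Δ
    rw [MulAction.mem_stabilizer_iff]
    ext x
    rw [Set.mem_smul_set_iff_inv_smul_mem]
    have e1 : u₀⁻¹ = u₀ := by
      rw [inv_eq_iff_mul_eq_one, ← pow_two, hu₀sq]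
    have e2 : u₀⁻¹ • x = u₀ x := by
      rw [e1]
      rfl
    rw [e2]
    constructor
    · intro hx
      have h1 := hu₀ _ hx
      have h2 : u₀ (u₀ x) = x := by
        rw [← Perm.mul_apply, ← pow_two, hu₀sq]
        rfl
      rw [h1] at h2
      rwa [h2] at hx
    · intro hx
      rwa [hu₀ x hx]
  -- conjugate into `P`
  let A := alternatingGroup α
  let Z : Subgroup A := Y.comap A.subtype
  have hPZ : (P : Subgroup A) ≤ Z := by
    intro g hg
    exact hHY (hP ⟨g, hg, rfl⟩)
  let u' : A := ⟨u₀, hu₀s⟩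
  have hu'Z : u' ∈ Z := hu₀Y
  have h2p : IsPGroup 2 (zpowers u') := by
    apply IsPGroup.of_card (n := 1)
    rw [Nat.card_zpowers, pow_one]
    apply orderOf_eq_prime
    · apply Subtype.ext
      exact hu₀sq
    · intro h
      have h1 : u₀ = 1 := congrArg Subtype.val h
      have h2 := hcne 0 1 (by decide)
      apply h2
      rw [← hu₀ne, h1]
      rfl
  obtain ⟨y, hy, hall⟩ := exists_conj_into_sylow (P.subtype hPZ) (zpowers u') h2p (zpowers_le.2 hu'Z)
  have h1 := hall u' (mem_zpowers u')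
  rw [Sylow.coe_subtype, map_subgroupOf_eq_of_le hPZ] at h1
  let ybar : Perm α := (y : Perm α)
  have hyY : ybar ∈ Y := hy
  let ū : Perm α := ybar⁻¹ * u₀ * ybar
  have hūH : ū ∈ H := hP ⟨_, h1, rfl⟩
  have hūfix : ∀ x, x ∈ Δ → ū x = x := by
    intro x hx
    have h2 : ybar x ∈ Δ := (hYstab _ hyY x).2 hx
    show (ybar⁻¹ * u₀ * ybar) x = x
    simp only [Perm.mul_apply]
    rw [hu₀ _ h2]
    simp
  have hūcomm : ∀ l ∈ L, l * ū = ū * l := by
    intro l hl
    have hd : Disjoint l ū := by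
      intro x
      by_cases hx : x ∈ Δ
      · exact Or.inr (hūfix x hx)
      · exact Or.inl ((hKi l).1 (hLK hl) x hx)
    exact hd.commute
  have hūL : ū ∈ L := hC ū hūH hūcomm
  have hū1 : ū = 1 := by
    ext x
    by_cases hx : x ∈ Δ
    · simpa using hūfix x hx
    · simpa using (hKi ū).1 (hLK hūL) x hx
  have hu₀1 : u₀ = 1 := by
    have : u₀ = ybar * ū * ybar⁻¹ := by
      show u₀ = ybar * (ybar⁻¹ * u₀ * ybar) * ybar⁻¹
      group
    rw [this, hū1]
    simp
  apply hcne 0 1 (by decide)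
  rw [← hu₀ne, hu₀1]
  rfl

/-- The main theorem, for `Fin n`. -/
theorem main {n : ℕ} (hn : 8 ≤ n) (H L : Subgroup (Perm (Fin n)))
    (hN : H ≤ normalizer (L : Set (Perm (Fin n)))) (hq : IsQuasisimple L)
    (hC : ∀ h ∈ H, (∀ l ∈ L, l * h = h * l) → h ∈ L) (hLH : L ≤ H)
    (P : Sylow 2 (alternatingGroup (Fin n)))
    (hP : (P : Subgroup (alternatingGroup (Fin n))).map (alternatingGroup (Fin n)).subtype ≤ H) :
    ∃ m : ℕ, n ≤ m + 3 ∧ m ≤ n ∧ Nonempty (L ≃* alternatingGroup (Fin m)) := by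
  obtain ⟨τ, hinv, hfix, hmem⟩ := exists_tau hn P hP
  obtain ⟨t, ht, ht3⟩ := exists_threeCycle hN hq hLH hinv hfix
    (big_of_fix hinv hfix (by simpa using hn)) hmem (sign_of_card_eight hinv)
  simpa using main_core₂ H L hN hq hC hLH P hP t ht ht3

end Cfsg.Agent.Lib.LocalEven.AltTwo
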