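import Mathlib
import Cfsg.Agent.Lib.PGroups.Special

/-!
# Faithful representations of groups with central commutators

If `E` has central commutators and acts on a vector space `W` over a field `L`, with `Z(E)` acting
faithfully by scalars, then `|E : Z(E)| ≤ (dim W)²`.  As a consequence an extraspecial group of
order `p^(2w+1)` acting faithfully on an elementary abelian `r`-group `V` (with `r ≠ p`) forces
`dim V ≥ n p^w`, where `n` is the order of `r` modulo `p`.
-/

set_option autoImplicit false

namespace Cfsg.Agent.Lib.LocalEven.ExtraRep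

open Subgroup Cfsg.Agent.Lib.PGroups.ClassTwo Cfsg.Agent.Lib.PGroups.Special
open scoped commutatorElement

section Step1

variable {E : Type*} [Group E] [Finite E] {L W : Type*} [Field L] [AddCommGroup W] [Module L W]
  [FiniteDimensional L W] [Nontrivial W]

/-- A group with central commutators, with centre acting faithfully by scalars on `W`, has central
quotient of order at most `(dim W)²`. -/
theorem card_quotient_center_le_sq (hc : ∀ a b : E, ⁅a, b⁆ ∈ center E) (ρ : E →* Module.End L W)
    (hs : ∀ c ∈ center E, ∃ l : L, ρ c = l • (1 : Module.End L W))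
    (hf : ∀ c ∈ center E, ρ c = 1 → c = 1) :
    Nat.card (E ⧸ center E) ≤ Module.finrank L W ^ 2 := by
  classical
  choose lam hlam using hs
  -- uniqueness of scalars
  have huniq : ∀ l l' : L, l • (1 : Module.End L W) = l' • (1 : Module.End L W) → l = l' := by
    intro l l' h
    obtain ⟨v, hv⟩ := exists_ne (0 : W)
    have h1 := congrArg (fun u : Module.End L W => u v) h
    simp only [LinearMap.smul_apply, Module.End.one_apply] at h1
    exact smul_left_injective L hv h1
  have hone : ∀ (h : (1 : E) ∈ center E), lam 1 h = 1 := by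
    intro h
    apply huniq
    rw [← hlam, map_one, one_smul]
  have hmul : ∀ (a b : E) (ha : a ∈ center E) (hb : b ∈ center E) (hab : a * b ∈ center E),
      lam (a * b) hab = lam a ha * lam b hb := by
    intro a b ha hb hab
    apply huniq
    rw [← hlam, map_mul, hlam a ha, hlam b hb, smul_mul_smul_comm, one_mul]
  -- the commutator characters
  let chi : E → (E →* L) := fun x =>
    { toFun := fun g => lam ⁅g, x⁆ (hc g x)
      map_one' := by
        have h1 : ⁅(1 : E), x⁆ = 1 := commutatorElement_one_left x
        simp only [h1]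
        exact hone _
      map_mul' := by
        intro a b
        have h1 : ⁅a * b, x⁆ = ⁅a, x⁆ * ⁅b, x⁆ := comm_mul_left hc a b x
        simp only [h1]
        exact hmul _ _ (hc a x) (hc b x) _ }
  have hchi : ∀ x g : E, chi x g = lam ⁅g, x⁆ (hc g x) := fun _ _ => rfl
  have hrel : ∀ g x : E, ρ g * ρ x = chi x g • (ρ x * ρ g) := by
    intro g x
    rw [hchi, ← map_mul]
    have h1 : g * x = ⁅g, x⁆ * (x * g) := by
      simp [commutatorElement_def, mul_assoc]
    rw [h1, map_mul, hlam _ (hc g x), map_mul, smul_mul_assoc, one_mul]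
  let _ : Fintype (E ⧸ center E) := Fintype.ofFinite _
  let s : E ⧸ center E → E := Quotient.out
  have hsmk : ∀ q : E ⧸ center E, ((s q : E) : E ⧸ center E) = q := fun q => QuotientGroup.out_eq' q
  have hinj : Function.Injective (fun q : E ⧸ center E => chi (s q)) := by
    intro q₁ q₂ h
    have h1 : ∀ g : E, ⁅g, s q₁⁆ = ⁅g, s q₂⁆ := by
      intro g
      have h2 : chi (s q₁) g = chi (s q₂) g := by
        have := congrArg (fun u : E →* L => u g) h
        exact this
      rw [hchi, hchi] at h2
      have h3 : ρ ⁅g, s q₁⁆ = ρ ⁅g, s q₂⁆ := by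
        rw [hlam _ (hc g _), hlam _ (hc g _), h2]
      have h4 : ρ (⁅g, s q₂⁆⁻¹ * ⁅g, s q₁⁆) = 1 := by
        rw [map_mul, h3, ← map_mul, inv_mul_cancel, map_one]
      have h5 := hf _ (mul_mem (inv_mem (hc g _)) (hc g _)) h4
      exact (inv_mul_eq_one.mp h5).symm
    have h2 : (s q₁)⁻¹ * s q₂ ∈ center E := by
      rw [mem_center_iff]
      intro g
      have h3 : ⁅g, (s q₁)⁻¹ * s q₂⁆ = 1 := by
        rw [comm_mul_right hc, comm_inv_right hc, ← h1 g, ← commutatorElement_inv g (s q₁),
          inv_mul_cancel]
      exact ((commutatorElement_eq_one_iff_mul_comm).mp h3)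
    rw [← hsmk q₁, ← hsmk q₂]
    exact QuotientGroup.eq.mpr h2
  have hli : LinearIndependent L (fun q : E ⧸ center E => (chi (s q) : E → L)) :=
    (linearIndependent_monoidHom E L).comp _ hinj
  have hli2 : LinearIndependent L (fun q : E ⧸ center E => ρ (s q)) := by
    rw [Fintype.linearIndependent_iff]
    intro c hsum q
    by_contra hcq
    -- `ρ (s q)` is invertible, so some vector is not killed
    have hne : ρ (s q) ≠ 0 := by
      intro h0
      have h1 : ρ (s q) * ρ (s q)⁻¹ = 1 := by
        rw [← map_mul, mul_inv_cancel, map_one]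
      rw [h0, zero_mul] at h1
      have := (zero_ne_one (α := Module.End L W)) h1
      exact this
    obtain ⟨v, hv⟩ : ∃ v, ρ (s q) v ≠ 0 := by
      by_contra hall
      push Not at hall
      exact hne (LinearMap.ext hall)
    obtain ⟨ψ, hψ⟩ : ∃ ψ : Module.Dual L W, ψ (ρ (s q) v) ≠ 0 := by
      by_contra hall
      push Not at hall
      exact hv ((Module.forall_dual_apply_eq_zero_iff L _).1 hall)
    rw [Fintype.linearIndependent_iff] at hli
    have key := hli (fun q => c q * ψ (ρ (s q) v)) ?_ q
    · exact (mul_ne_zero hcq hψ) key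
    · funext g
      have h1 := congrArg (fun u : Module.End L W => ψ (ρ g (u (ρ g⁻¹ v)))) hsum
      simp only [LinearMap.sum_apply, LinearMap.smul_apply, map_sum, map_smul, LinearMap.zero_apply,
        map_zero] at h1
      have h2 : ∀ q : E ⧸ center E, ρ g (ρ (s q) (ρ g⁻¹ v)) = chi (s q) g • ρ (s q) v := by
        intro q
        have h3 := hrel g (s q)
        have h4 := congrArg (fun u : Module.End L W => u (ρ g⁻¹ v)) h3
        simp only [Module.End.mul_apply, LinearMap.smul_apply] at h4
        rw [h4]
        congr 2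
        rw [← Module.End.mul_apply, ← map_mul, mul_inv_cancel, map_one, Module.End.one_apply]
      simp only [h2, map_smul] at h1
      simp only [Finset.sum_apply, Pi.smul_apply, smul_eq_mul, Pi.zero_apply]
      rw [← h1]
      apply Finset.sum_congr rfl
      intro i _
      ring
  have h1 := hli2.fintype_card_le_finrank
  rw [Module.finrank_linearMap, ← sq] at h1
  rwa [Nat.card_eq_fintype_card]

end Step1

section Step2

open Polynomial

variable {k : Type*} [Field k]

theorem commute_aeval {A : Type*} [Ring A] [Algebra k A] {x T : A} (h : Commute x T) (g : k[X]) :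
    Commute x (aeval T g) := by
  induction g using Polynomial.induction_on' with
  | add p q hp hq =>
    rw [map_add]
    exact hp.add_right hq
  | monomial n a =>
    rw [aeval_monomial]
    exact Commute.mul_right (Algebra.commutes a x).symm (h.pow_right n)

variable {V : Type*} [AddCommGroup V] [Module k V]

theorem exists_irreducible_kill (T : Module.End k V) (f : k[X]) :
    f ≠ 0 → ∀ v : V, v ≠ 0 → aeval T f v = 0 →
      ∃ (m : k[X]) (w : V), Irreducible m ∧ m ∣ f ∧ w ≠ 0 ∧ aeval T m w = 0 := by
  induction f using WfDvdMonoid.induction_on_irreducible with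
  | zero => exact fun h => absurd rfl h
  | unit u hu =>
    intro _ v hv h0
    exfalso
    obtain ⟨c, hc, rfl⟩ := Polynomial.isUnit_iff.1 hu
    rw [aeval_C] at h0
    have h1 : c • v = 0 := by
      simpa [Module.algebraMap_end_apply] using h0
    exact hv ((smul_eq_zero.1 h1).resolve_left hc.ne_zero)
  | mul a i ha hi ih =>
    intro _ v hv h0
    by_cases h1 : aeval T a v = 0
    · obtain ⟨m, w, h2, h3, h4, h5⟩ := ih ha v hv h1
      exact ⟨m, w, h2, h3.trans (dvd_mul_left _ _), h4, h5⟩
    · refine ⟨i, aeval T a v, hi, dvd_mul_right _ _, h1, ?_⟩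
      rw [map_mul] at h0
      exact h0

end Step2

section Step3

open Polynomial

variable {r p : ℕ} [Fact r.Prime] [Fact p.Prime]

/-- The main representation-theoretic bound: if a central element `z` of order `p` acts
nontrivially on `V` over the field with `r` elements then `dim V ≥ n D` if `D² ≤ |E : Z(E)|`
and every divisor condition holds. -/
theorem mul_le_finrank (hpr : p ≠ r) {E V : Type*} [Group E] [Finite E] [AddCommGroup V]
    [Module (ZMod r) V] [Finite V]
    (hc : ∀ a b : E, ⁅a, b⁆ ∈ center E) (z : E) (hz : z ∈ center E) (hzp : z ^ p = 1)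
    (hgen : ∀ c ∈ center E, ∃ i : ℕ, c = z ^ i)
    (ρ : E →* Module.End (ZMod r) V) (hρz : ρ z ≠ 1) (n : ℕ)
    (hmin : ∀ k : ℕ, 1 ≤ k → p ∣ r ^ k - 1 → n ≤ k) (D : ℕ)
    (hD : D ^ 2 ≤ Nat.card (E ⧸ center E)) :
    n * D ≤ Module.finrank (ZMod r) V := by
  classical
  have hrp : (r).Prime := Fact.out
  have hpp : (p).Prime := Fact.out
  have hp0 : ((p : ℕ) : ZMod r) ≠ 0 := by
    intro h
    rw [ZMod.natCast_eq_zero_iff] at h
    exact hpr ((Nat.prime_dvd_prime_iff_eq hrp hpp).1 h).symm
  let T : Module.End (ZMod r) V := ρ z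
  have hTp : T ^ p = 1 := by
    show (ρ z) ^ p = 1
    rw [← map_pow, hzp, map_one]
  let f : (ZMod r)[X] := ∑ i ∈ Finset.range p, X ^ i
  have hf0 : f ≠ 0 := by
    intro h
    have h1 : eval 1 f = (p : ZMod r) := by
      simp [f, eval_finsetSum]
    rw [h, eval_zero] at h1
    exact hp0 h1.symm
  have hfT : aeval T f * (T - 1) = 0 := by
    have h1 : aeval T f = ∑ i ∈ Finset.range p, T ^ i := by
      simp [f, map_sum]
    rw [h1, geom_sum_mul, hTp, sub_self]
  obtain ⟨v, hv⟩ : ∃ v, (T - 1) v ≠ 0 := by
    by_contra hall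
    push Not at hall
    apply hρz
    apply LinearMap.ext
    intro x
    have := hall x
    simp only [LinearMap.sub_apply, Module.End.one_apply, sub_eq_zero] at this
    simpa using this
  have hfv : aeval T f ((T - 1) v) = 0 := by
    have := congrArg (fun u : Module.End (ZMod r) V => u v) hfT
    simpa using this
  obtain ⟨m, w₀, hm, hmf, hw₀, hmw₀⟩ := exists_irreducible_kill T f hf0 _ hv hfv
  haveI : Fact (Irreducible m) := ⟨hm⟩
  have hm0 : m ≠ 0 := hm.ne_zero
  -- the eigenspace
  let W : Submodule (ZMod r) V := LinearMap.ker (aeval T m)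
  have hcomm : ∀ e : E, Commute (ρ e) T := by
    intro e
    show ρ e * ρ z = ρ z * ρ e
    rw [← map_mul, ← map_mul, (mem_center_iff.1 hz e).symm]
  have hinv : ∀ (e : E), ∀ x ∈ W, ρ e x ∈ W := by
    intro e x hx
    have h1 : aeval T m x = 0 := hx
    show aeval T m (ρ e x) = 0
    have h2 := (commute_aeval (hcomm e) m).eq
    have h3 := congrArg (fun u : Module.End (ZMod r) V => u x) h2
    simp only [Module.End.mul_apply] at h3
    rw [← h3, h1, map_zero]
  let ρ₁ : E →* Module.End (ZMod r) W :=
    { toFun := fun e => (ρ e).restrict (hinv e)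
      map_one' := by
        apply LinearMap.ext
        intro x
        apply Subtype.ext
        simp
      map_mul' := by
        intro a b
        apply LinearMap.ext
        intro x
        apply Subtype.ext
        simp }
  have hρ₁ : ∀ (e : E) (x : W), ((ρ₁ e x : W) : V) = ρ e x := fun _ _ => rfl
  let T₁ : Module.End (ZMod r) W := ρ₁ z
  have haeval : ∀ (g : (ZMod r)[X]) (x : W), ((aeval T₁ g x : W) : V) = aeval T g (x : V) := by
    intro g
    induction g using Polynomial.induction_on' with
    | add p q hp hq =>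
      intro x
      simp [map_add, hp, hq]
    | monomial n a =>
      intro x
      rw [aeval_monomial, aeval_monomial]
      simp only [Module.End.mul_apply, Module.algebraMap_end_apply]
      simp only [Submodule.coe_smul]
      congr 1
      induction n generalizing x with
      | zero => simp
      | succ n ih =>
        rw [pow_succ, pow_succ, Module.End.mul_apply, Module.End.mul_apply, ih]
        rfl
  have hT₁m : aeval T₁ m = 0 := by
    apply LinearMap.ext
    intro x
    apply Subtype.ext
    rw [haeval]
    exact x.2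
  have hcomm₁ : ∀ e : E, Commute (ρ₁ e) T₁ := by
    intro e
    show ρ₁ e * ρ₁ z = ρ₁ z * ρ₁ e
    rw [← map_mul, ← map_mul, (mem_center_iff.1 hz e).symm]
  let L := AdjoinRoot m
  let φ : L →ₐ[ZMod r] Module.End (ZMod r) W :=
    Ideal.Quotient.liftₐ (Ideal.span {m}) (aeval T₁) (by
      intro a ha
      obtain ⟨b, rfl⟩ := Ideal.mem_span_singleton.1 ha
      rw [map_mul, hT₁m, zero_mul])
  have hφ : ∀ g : (ZMod r)[X], φ (AdjoinRoot.mk m g) = aeval T₁ g := fun _ => rfl
  letI hmodL : Module L W := Module.compHom W φ.toRingHom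
  have hsmul : ∀ (l : L) (x : W), l • x = φ l x := fun _ _ => rfl
  haveI : IsScalarTower (ZMod r) L W := ⟨fun c l x => by
    rw [hsmul, hsmul, map_smul, LinearMap.smul_apply]⟩
  haveI hfinW : Finite W := inferInstance
  haveI : Module.Finite L W := Module.Finite.of_finite
  haveI : Nontrivial W := ⟨⟨⟨w₀, hmw₀⟩, 0, fun h => hw₀ (congrArg Subtype.val h)⟩⟩
  have hcommφ : ∀ (e : E) (l : L), Commute (ρ₁ e) (φ l) := by
    intro e l
    obtain ⟨g, rfl⟩ := AdjoinRoot.mk_surjective l
    rw [hφ]
    exact commute_aeval (hcomm₁ e) g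
  let ρL : E →* Module.End L W :=
    { toFun := fun e =>
        { toFun := ρ₁ e
          map_add' := (ρ₁ e).map_add
          map_smul' := by
            intro l x
            have h := (hcommφ e l).eq
            have h2 := congrArg (fun u : Module.End (ZMod r) W => u x) h
            exact h2 }
      map_one' := by
        apply LinearMap.ext
        intro x
        show ρ₁ 1 x = x
        rw [map_one]
        rfl
      map_mul' := by
        intro a b
        apply LinearMap.ext
        intro x
        show ρ₁ (a * b) x = ρ₁ a (ρ₁ b x)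
        rw [map_mul]
        rfl }
  have hρL : ∀ (e : E) (x : W), ρL e x = ρ₁ e x := fun _ _ => rfl
  let ζ : L := AdjoinRoot.root m
  have hζ : ρL z = ζ • (1 : Module.End L W) := by
    apply LinearMap.ext
    intro x
    rw [hρL, LinearMap.smul_apply, Module.End.one_apply, hsmul]
    show T₁ x = φ (AdjoinRoot.mk m X) x
    rw [hφ, aeval_X]
  -- ζ is a primitive p-th root of unity
  have hζf : aeval ζ f = 0 := by
    obtain ⟨g, hg⟩ := hmf
    rw [hg, map_mul]
    have : aeval ζ m = 0 := AdjoinRoot.eval₂_root m
    rw [this, zero_mul]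
  have hζsum : ∑ i ∈ Finset.range p, ζ ^ i = 0 := by
    have : aeval ζ f = ∑ i ∈ Finset.range p, ζ ^ i := by
      simp [f, map_sum]
    rw [← this, hζf]
  have hζp : ζ ^ p = 1 := by
    have := geom_sum_mul ζ p
    rw [hζsum, zero_mul] at this
    exact (sub_eq_zero.1 this.symm)
  have hζ1 : ζ ≠ 1 := by
    intro h
    rw [h] at hζsum
    simp only [one_pow, Finset.sum_const, Finset.card_range, nsmul_eq_mul, mul_one] at hζsum
    have h2 : algebraMap (ZMod r) L (p : ZMod r) = 0 := by
      rw [map_natCast]
      exact hζsum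
    exact hp0 ((map_eq_zero_iff _ (algebraMap (ZMod r) L).injective).1 h2)
  have hord : orderOf ζ = p := orderOf_eq_prime hζp hζ1
  haveI hfinL : Module.Finite (ZMod r) L := (AdjoinRoot.powerBasis hm0).finite
  haveI : Finite L := Module.finite_of_finite (ZMod r)
  let d := Module.finrank (ZMod r) L
  have hd : 1 ≤ d := Module.finrank_pos
  have hcardL : Nat.card L = r ^ d := by
    rw [Module.natCard_eq_pow_finrank (K := ZMod r) (V := L), Nat.card_zmod]
  have hpd : p ∣ r ^ d - 1 := by
    letI : Fintype L := Fintype.ofFinite L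
    have hζ0 : ζ ≠ 0 := by
      intro h
      rw [h, zero_pow hpp.ne_zero] at hζp
      exact zero_ne_one hζp
    have h1 := FiniteField.pow_card_sub_one_eq_one ζ hζ0
    rw [← Nat.card_eq_fintype_card, hcardL] at h1
    rw [← hord]
    exact orderOf_dvd_of_pow_eq_one h1
  have hnd : n ≤ d := hmin d hd hpd
  -- the bound on the degree
  have huniq : ∀ l l' : L, l • (1 : Module.End L W) = l' • (1 : Module.End L W) → l = l' := by
    intro l l' h
    obtain ⟨y, hy⟩ := exists_ne (0 : W)
    have h1 := congrArg (fun u : Module.End L W => u y) h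
    simp only [LinearMap.smul_apply, Module.End.one_apply] at h1
    exact smul_left_injective L hy h1
  have hsq := card_quotient_center_le_sq hc ρL
    (by
      intro c hc
      obtain ⟨i, rfl⟩ := hgen c hc
      refine ⟨ζ ^ i, ?_⟩
      rw [map_pow, hζ, _root_.smul_pow, one_pow])
    (by
      intro c hc h1
      obtain ⟨i, rfl⟩ := hgen c hc
      rw [map_pow, hζ, _root_.smul_pow, one_pow] at h1
      have h2 : ζ ^ i = 1 := by
        apply huniq
        rw [h1, one_smul]
      have h3 : p ∣ i := by
        rw [← hord]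
        exact orderOf_dvd_of_pow_eq_one h2
      obtain ⟨t, rfl⟩ := h3
      rw [pow_mul, hzp, one_pow])
  have hDW : D ≤ Module.finrank L W := by
    have h1 := hD.trans hsq
    exact (Nat.pow_le_pow_iff_left (by norm_num)).1 h1
  have hmul := Module.finrank_mul_finrank (ZMod r) L W
  have hle : Module.finrank (ZMod r) W ≤ Module.finrank (ZMod r) V := Submodule.finrank_le W
  calc n * D ≤ d * Module.finrank L W := Nat.mul_le_mul hnd hDW
    _ = Module.finrank (ZMod r) W := hmul
    _ ≤ _ := hle

/-- A faithful action on an elementary abelian group is a faithful linear representation. -/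
theorem exists_rep_of_mulAut {r : ℕ} {A : Type*} [CommGroup A] [Module (ZMod r) (Additive A)]
    {Γ : Type*} [Group Γ] (f : Γ →* MulAut A) (hf : Function.Injective f) :
    ∃ ρ : Γ →* Module.End (ZMod r) (Additive A), Function.Injective ρ := by
  let ρ₀ : Γ → Module.End (ZMod r) (Additive A) := fun g =>
    AddMonoidHom.toZModLinearMap r (MonoidHom.toAdditive ((f g).toMonoidHom))
  have h₀ : ∀ (g : Γ) (x : Additive A), ρ₀ g x = Additive.ofMul (f g (Additive.toMul x)) :=
    fun _ _ => rfl
  let ρ : Γ →* Module.End (ZMod r) (Additive A) :=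
    { toFun := ρ₀
      map_one' := by
        apply LinearMap.ext
        intro x
        rw [h₀, map_one]
        rfl
      map_mul' := by
        intro g h
        apply LinearMap.ext
        intro x
        rw [h₀, map_mul]
        rfl }
  refine ⟨ρ, ?_⟩
  intro g h hgh
  apply hf
  ext x
  have h2 : Additive.ofMul (f g x) = Additive.ofMul (f h x) :=
    congrArg (fun u : Module.End (ZMod r) (Additive A) => u (Additive.ofMul x)) hgh
  exact Additive.ofMul.injective h2

omit [Fact p.Prime] in
theorem card_eq_pow_finrank_additive {A : Type*} [CommGroup A] [Finite A]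
    [Module (ZMod r) (Additive A)] :
    Nat.card A = r ^ Module.finrank (ZMod r) (Additive A) := by
  haveI : Finite (Additive A) := inferInstanceAs (Finite A)
  haveI : Module.Finite (ZMod r) (Additive A) := Module.Finite.of_finite
  have h3 := Module.natCard_eq_pow_finrank (K := ZMod r) (V := Additive A)
  rw [Nat.card_zmod] at h3
  exact h3

/-- Extraspecial-type group `E` acting faithfully on an elementary abelian `r`-group `A`. -/
theorem pow_mul_le_card (hpr : p ≠ r) {E A : Type*} [Group E] [Finite E] [CommGroup A] [Finite A]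
    (hexp : ∀ x : A, x ^ r = 1) (f : E →* MulAut A) (hf : Function.Injective f)
    (hc : ∀ a b : E, ⁅a, b⁆ ∈ center E) (z : E) (hz : z ∈ center E) (hz1 : z ≠ 1) (hzp : z ^ p = 1)
    (hgen : ∀ c ∈ center E, ∃ i : ℕ, c = z ^ i) (n : ℕ)
    (hmin : ∀ k : ℕ, 1 ≤ k → p ∣ r ^ k - 1 → n ≤ k) (D : ℕ)
    (hD : D ^ 2 ≤ Nat.card (E ⧸ center E)) : r ^ (n * D) ≤ Nat.card A := by
  have hexp' : ∀ x : Additive A, r • x = 0 := fun x => hexp (Additive.toMul x)
  letI hmod : Module (ZMod r) (Additive A) := AddCommGroup.zmodModule hexp'
  obtain ⟨ρ, hρ⟩ := exists_rep_of_mulAut (r := r) f hf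
  haveI : Finite (Additive A) := inferInstanceAs (Finite A)
  have h1 := mul_le_finrank hpr hc z hz hzp hgen ρ (by
    intro h
    apply hz1
    apply hρ
    rw [h, map_one]) n hmin D hD
  have h2 : Nat.card A = r ^ Module.finrank (ZMod r) (Additive A) := by
    exact card_eq_pow_finrank_additive
  rw [h2]
  exact Nat.pow_le_pow_right (Fact.out : r.Prime).pos h1

end Step3

end Cfsg.Agent.Lib.LocalEven.ExtraRep
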