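/-
API for `Cfsg.Prelude.Def_SylowControl`: conjugation of subgroups on the right, `𝓕(S)`,
partial products of `List.ofFn`.
-/
import Cfsg.Prelude.Def_SylowChains
import Cfsg.Agent.Lib.LocalEven.Util

set_option autoImplicit false

namespace Cfsg.Agent.Lib.LocalEven.SylowControl

open Subgroup Cfsg
open Cfsg.Agent.Lib.LocalEven.Util

universe u

variable {G : Type u} [Group G] {p : ℕ}

theorem mem_subgroupConjRight {g y : G} {X : Subgroup G} :
    y ∈ subgroupConjRight g X ↔ g * y * g⁻¹ ∈ X := by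
  constructor
  · rintro ⟨u, hu, rfl⟩
    have e : g * (g⁻¹ * u * g⁻¹⁻¹) * g⁻¹ = u := by group
    show g * (g⁻¹ * u * g⁻¹⁻¹) * g⁻¹ ∈ X
    rw [e]; exact hu
  · intro h
    refine ⟨_, h, ?_⟩
    show g⁻¹ * (g * y * g⁻¹) * g⁻¹⁻¹ = y
    group

theorem subgroupConjRight_smul (g : G) (S : Sylow p G) :
    subgroupConjRight g⁻¹ (S : Subgroup G) = ((g • S : Sylow p G) : Subgroup G) := by
  ext y
  rw [mem_subgroupConjRight, mem_smul_sylow, inv_inv]

theorem subgroupConjRight_inf (g : G) (A B : Subgroup G) :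
    subgroupConjRight g (A ⊓ B) = subgroupConjRight g A ⊓ subgroupConjRight g B := by
  ext y
  simp only [mem_subgroupConjRight, mem_inf]

theorem subgroupConjRight_mul (g h : G) (A : Subgroup G) :
    subgroupConjRight (g * h) A = subgroupConjRight h (subgroupConjRight g A) := by
  ext y
  simp only [mem_subgroupConjRight]
  have e : g * h * y * (g * h)⁻¹ = g * (h * y * h⁻¹) * g⁻¹ := by group
  rw [e]

theorem subgroupConjRight_one (A : Subgroup G) : subgroupConjRight 1 A = A := by
  ext y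
  simp [mem_subgroupConjRight]

theorem subgroupConjRight_inv_cancel (g : G) (A : Subgroup G) :
    subgroupConjRight g⁻¹ (subgroupConjRight g A) = A := by
  rw [← subgroupConjRight_mul, mul_inv_cancel, subgroupConjRight_one]

theorem subgroupConjRight_cancel_inv (g : G) (A : Subgroup G) :
    subgroupConjRight g (subgroupConjRight g⁻¹ A) = A := by
  rw [← subgroupConjRight_mul, inv_mul_cancel, subgroupConjRight_one]

theorem subgroupConjRight_mono {g : G} {A B : Subgroup G} (h : A ≤ B) :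
    subgroupConjRight g A ≤ subgroupConjRight g B := by
  intro y hy
  rw [mem_subgroupConjRight] at hy ⊢
  exact h hy

theorem subgroupConjRight_of_mem {g : G} {A : Subgroup G} (hg : g ∈ A) :
    subgroupConjRight g A = A := by
  ext y
  rw [mem_subgroupConjRight]
  constructor
  · intro h
    have e : y = g⁻¹ * (g * y * g⁻¹) * g := by group
    rw [e]
    exact A.mul_mem (A.mul_mem (A.inv_mem hg) h) hg
  · intro h
    exact A.mul_mem (A.mul_mem hg h) (A.inv_mem hg)

theorem isPGroup_subgroupConjRight {A : Subgroup G} (hA : IsPGroup p A) (g : G) :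
    IsPGroup p (subgroupConjRight g A) := hA.map _

/-- Characterization of "`D` is the image of a Sylow subgroup of `X`", by maximality. -/
theorem exists_sylow_map_eq_iff [Fact p.Prime] {X D : Subgroup G} (hDX : D ≤ X) :
    (∃ P : Sylow p ↥X, (P : Subgroup ↥X).map X.subtype = D) ↔
      IsPGroup p D ∧ ∀ C : Subgroup G, C ≤ X → IsPGroup p C → D ≤ C → C = D := by
  constructor
  · rintro ⟨P, hP⟩
    have hD : IsPGroup p D := by
      rw [← hP]; exact P.isPGroup'.map _
    refine ⟨hD, fun C hCX hC hDC => ?_⟩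
    have hC₀ : IsPGroup p (C.subgroupOf X) := by
      intro x
      obtain ⟨k, hk⟩ := hC ⟨x.1.1, x.2⟩
      refine ⟨k, Subtype.ext (Subtype.ext ?_)⟩
      simpa using congrArg Subtype.val hk
    have hle : (P : Subgroup ↥X) ≤ C.subgroupOf X := by
      intro y hy
      rw [mem_subgroupOf]
      apply hDC
      rw [← hP]
      exact ⟨y, hy, rfl⟩
    have heq := P.is_maximal' hC₀ hle
    apply le_antisymm _ hDC
    intro c hc
    rw [← hP]
    have hmem : (⟨c, hCX hc⟩ : X) ∈ C.subgroupOf X := by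
      rw [mem_subgroupOf]; exact hc
    rw [heq] at hmem
    exact ⟨_, hmem, rfl⟩
  · rintro ⟨hD, hmax⟩
    have hD₀ : IsPGroup p (D.subgroupOf X) := by
      intro x
      obtain ⟨k, hk⟩ := hD ⟨x.1.1, x.2⟩
      refine ⟨k, Subtype.ext (Subtype.ext ?_)⟩
      simpa using congrArg Subtype.val hk
    refine ⟨⟨D.subgroupOf X, hD₀, ?_⟩, ?_⟩
    · intro Q hQ hDQ
      have e := hmax (Q.map X.subtype) (map_subtype_le _) (hQ.map _) (by
        intro a ha
        exact ⟨⟨a, hDX ha⟩, hDQ (by rwa [mem_subgroupOf]), rfl⟩)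
      apply le_antisymm _ hDQ
      intro x hx
      rw [mem_subgroupOf, ← e]
      exact ⟨x, hx, rfl⟩
    · show (D.subgroupOf X).map X.subtype = D
      rw [subgroupOf_map_subtype, inf_eq_left.2 hDX]

/-- `X ∈ 𝓕(S)` by maximality. -/
theorem mem_sylowMembers_iff [Fact p.Prime] {𝓕 : Set (Subgroup G)} {X S : Subgroup G} :
    X ∈ sylowMembers p 𝓕 S ↔ X ∈ 𝓕 ∧ IsPGroup p (S ⊓ X : Subgroup G) ∧
      ∀ C : Subgroup G, C ≤ X → IsPGroup p C → S ⊓ X ≤ C → C = S ⊓ X := by
  rw [sylowMembers]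
  show (X ∈ 𝓕 ∧ ∃ P : Sylow p ↥X, (P : Subgroup ↥X).map X.subtype = S ⊓ X) ↔ _
  rw [exists_sylow_map_eq_iff inf_le_right]

/-- `𝓕` normal: `X ∈ 𝓕(S)` implies `X^g ∈ 𝓕(S^g)`. -/
theorem mem_sylowMembers_conj [Fact p.Prime] {𝓕 : Set (Subgroup G)} (h𝓕 : IsNormalSet 𝓕)
    {X S : Subgroup G} (hX : X ∈ sylowMembers p 𝓕 S) (g : G) :
    subgroupConjRight g X ∈ sylowMembers p 𝓕 (subgroupConjRight g S) := by
  rw [mem_sylowMembers_iff] at hX ⊢
  obtain ⟨h1, h2, h3⟩ := hX
  refine ⟨h𝓕 X h1 g, ?_, ?_⟩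
  · rw [← subgroupConjRight_inf]
    exact isPGroup_subgroupConjRight h2 g
  · intro C hCX hC hDC
    rw [← subgroupConjRight_inf] at hDC ⊢
    have hC' : subgroupConjRight g⁻¹ C = S ⊓ X := by
      apply h3
      · have := subgroupConjRight_mono (g := g⁻¹) hCX
        rwa [subgroupConjRight_inv_cancel] at this
      · exact isPGroup_subgroupConjRight hC _
      · have := subgroupConjRight_mono (g := g⁻¹) hDC
        rwa [subgroupConjRight_inv_cancel] at this
    rw [← hC', subgroupConjRight_cancel_inv]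

/-- `X ∈ 𝓕(S)`, `x ∈ X`: then `X ∈ 𝓕(x S x⁻¹)`. -/
theorem mem_sylowMembers_of_mem [Fact p.Prime] {𝓕 : Set (Subgroup G)} (h𝓕 : IsNormalSet 𝓕)
    {X S : Subgroup G} (hX : X ∈ sylowMembers p 𝓕 S) {x : G} (hx : x ∈ X) :
    X ∈ sylowMembers p 𝓕 (subgroupConjRight x S) := by
  have := mem_sylowMembers_conj h𝓕 hX x
  rwa [subgroupConjRight_of_mem hx] at this

section prods

variable {n : ℕ}

/-- Partial products of `List.ofFn y`. -/
theorem prod_take_succ_ofFn (y : Fin n → G) (k : ℕ) (hk : k < n) :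
    ((List.ofFn y).take (k + 1)).prod = ((List.ofFn y).take k).prod * y ⟨k, hk⟩ := by
  have hlen : k < (List.ofFn y).length := by simpa using hk
  rw [List.prod_take_succ _ _ hlen]
  simp

theorem prod_take_zero_ofFn (y : Fin n → G) : ((List.ofFn y).take 0).prod = 1 := by simp

theorem prod_take_length_ofFn (y : Fin n → G) : ((List.ofFn y).take n).prod = (List.ofFn y).prod := by
  rw [List.take_of_length_le (by simp)]

end prods

end Cfsg.Agent.Lib.LocalEven.SylowControl
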