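/-
Chains of Sylow subgroups (`Def_SylowChains`) as `Relation.ReflTransGen` in the ambient group.
-/
import Cfsg.Agent.Lib.LocalEven.SylowControl

set_option autoImplicit false

namespace Cfsg.Agent.Lib.LocalEven.FunctorChains

open Subgroup Cfsg
open Cfsg.Agent.Lib.LocalEven.Util Cfsg.Agent.Lib.LocalEven.SylowControl

universe u

section general

variable {α : Type*}

/-- A `ReflTransGen` chain as a `Fin`-indexed chain. -/
theorem exists_fin_chain_of_reflTransGen {R : α → α → Prop} {a b : α}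
    (h : Relation.ReflTransGen R a b) :
    ∃ (n : ℕ) (c : Fin (n + 1) → α), c 0 = a ∧ c (Fin.last n) = b ∧
      ∀ i : Fin n, R (c i.castSucc) (c i.succ) := by
  induction h with
  | refl => exact ⟨0, fun _ => a, rfl, rfl, fun i => i.elim0⟩
  | @tail b' c' _ hbc ih =>
    obtain ⟨n, c, h0, hl, hi⟩ := ih
    refine ⟨n + 1, Fin.snoc c c', ?_, by simp, ?_⟩
    · have : (0 : Fin (n + 2)) = Fin.castSucc (0 : Fin (n + 1)) := rfl
      rw [this, Fin.snoc_castSucc, h0]
    · intro i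
      refine Fin.lastCases ?_ (fun j => ?_) i
      · have e1 : (Fin.last n : Fin (n + 1)).castSucc = Fin.castSucc (Fin.last n) := rfl
        have e2 : (Fin.last n : Fin (n + 1)).succ = Fin.last (n + 1) := rfl
        rw [e2, Fin.snoc_last, e1, Fin.snoc_castSucc, hl]
        exact hbc
      · have e1 : (Fin.castSucc j).castSucc = Fin.castSucc (j.castSucc) := rfl
        have e2 : (Fin.castSucc j).succ = Fin.castSucc (j.succ) := rfl
        rw [e1, e2, Fin.snoc_castSucc, Fin.snoc_castSucc]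
        exact hi j

/-- A `Fin`-indexed chain gives `ReflTransGen`. -/
theorem reflTransGen_of_fin_chain {R : α → α → Prop} {n : ℕ} (c : Fin (n + 1) → α)
    (h : ∀ i : Fin n, R (c i.castSucc) (c i.succ)) :
    Relation.ReflTransGen R (c 0) (c (Fin.last n)) := by
  have key : ∀ k (hk : k < n + 1), Relation.ReflTransGen R (c 0) (c ⟨k, hk⟩) := by
    intro k
    induction k with
    | zero => intro _; exact Relation.ReflTransGen.refl
    | succ k ih =>
      intro hk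
      have hk' : k < n := by omega
      refine Relation.ReflTransGen.tail (ih (by omega)) (h ⟨k, hk'⟩)
  exact key n (by omega)

end general

variable {G : Type u} [Group G] {p : ℕ}

/-- The one-step relation of `ControlsSylowIntersections`. -/
def CtlStep (p : ℕ) (𝓕 : Set (Subgroup G)) (D : Subgroup G) (A B : Sylow p G) : Prop :=
  ∃ X : Subgroup G, ∃ x : G, X ∈ sylowMembers p 𝓕 (A : Subgroup G) ∧
    X ∈ sylowMembers p 𝓕 (B : Subgroup G) ∧ x ∈ X ∧
    subgroupConjRight x (B : Subgroup G) = (A : Subgroup G) ∧ D ≤ (B : Subgroup G) ⊓ X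

theorem CtlStep.mono {𝓕 : Set (Subgroup G)} {D D' : Subgroup G} (hD : D' ≤ D) {A B : Sylow p G}
    (h : CtlStep p 𝓕 D A B) : CtlStep p 𝓕 D' A B := by
  obtain ⟨X, x, h1, h2, h3, h4, h5⟩ := h
  exact ⟨X, x, h1, h2, h3, h4, hD.trans h5⟩

/-- Chains of `CtlStep`s for a set of pairs give `ControlsSylowIntersections`. -/
theorem controls_of_reflTransGen {𝓕 : Set (Subgroup G)}
    (h : ∀ S T : Sylow p G, S ≠ T → (S : Subgroup G) ⊓ (T : Subgroup G) ≠ ⊥ →
      Relation.ReflTransGen (CtlStep p 𝓕 ((S : Subgroup G) ⊓ (T : Subgroup G))) S T) :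
    ControlsSylowIntersections p 𝓕 := by
  intro S T hST hne
  obtain ⟨n, c, h0, hl, hi⟩ := exists_fin_chain_of_reflTransGen (h S T hST hne)
  choose X x hx using hi
  exact ⟨n, c, X, x, h0, hl, fun i => by
    obtain ⟨h1, h2, h3, h4, h5⟩ := hx i
    exact ⟨h1, h2, h3, h4, h5⟩⟩

/-- `ControlsSylowIntersections` gives chains of `CtlStep`s. -/
theorem reflTransGen_of_controls {𝓕 : Set (Subgroup G)} (hc : ControlsSylowIntersections p 𝓕)
    {S T : Sylow p G} (hST : S ≠ T) (hne : (S : Subgroup G) ⊓ (T : Subgroup G) ≠ ⊥) :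
    Relation.ReflTransGen (CtlStep p 𝓕 ((S : Subgroup G) ⊓ (T : Subgroup G))) S T := by
  obtain ⟨n, c, X, x, h0, hl, hi⟩ := hc S T hST hne
  have := reflTransGen_of_fin_chain (R := CtlStep p 𝓕 ((S : Subgroup G) ⊓ (T : Subgroup G))) c
    (fun i => ⟨X i, x i, (hi i).1, (hi i).2.1, (hi i).2.2.1, (hi i).2.2.2.1, (hi i).2.2.2.2⟩)
  rwa [h0, hl] at this

/-! ### Sylow subgroups of a subgroup, in the ambient group -/

/-- `Q` is a Sylow `p`-subgroup of `M`, as a subgroup of the ambient group. -/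
def IsSylIn (p : ℕ) (M Q : Subgroup G) : Prop :=
  Q ≤ M ∧ IsPGroup p Q ∧ ∀ C : Subgroup G, C ≤ M → IsPGroup p C → Q ≤ C → C = Q

section isSylIn

variable [Fact p.Prime]

theorem isSylIn_iff {M Q : Subgroup G} :
    IsSylIn p M Q ↔ ∃ hQ : Q ≤ M, ∃ P : Sylow p ↥M, (P : Subgroup ↥M).map M.subtype = Q := by
  constructor
  · rintro ⟨h1, h2, h3⟩
    exact ⟨h1, (exists_sylow_map_eq_iff h1).2 ⟨h2, h3⟩⟩
  · rintro ⟨h1, hP⟩
    obtain ⟨h2, h3⟩ := (exists_sylow_map_eq_iff h1).1 hP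
    exact ⟨h1, h2, h3⟩

theorem isSylIn_map_sylow {M : Subgroup G} (P : Sylow p ↥M) :
    IsSylIn p M ((P : Subgroup ↥M).map M.subtype) :=
  isSylIn_iff.2 ⟨map_subtype_le _, P, rfl⟩

theorem IsSylIn.exists_sylow {M Q : Subgroup G} (h : IsSylIn p M Q) :
    ∃ P : Sylow p ↥M, (P : Subgroup ↥M).map M.subtype = Q :=
  (isSylIn_iff.1 h).2

theorem isSylIn_of_sylow {M : Subgroup G} (S : Sylow p G) (h : (S : Subgroup G) ≤ M) :
    IsSylIn p M (S : Subgroup G) :=
  ⟨h, S.isPGroup', fun _ _ hC hle => S.is_maximal' hC hle⟩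

theorem IsSylIn.mono {M X Q : Subgroup G} (h : IsSylIn p M Q) (hQX : Q ≤ X) (hXM : X ≤ M) :
    IsSylIn p X Q :=
  ⟨hQX, h.2.1, fun C hC hCp hle => h.2.2 C (hC.trans hXM) hCp hle⟩

theorem exists_isSylIn_le [Finite G] {M T : Subgroup G} (hT : T ≤ M) (hTp : IsPGroup p T) :
    ∃ Q, T ≤ Q ∧ IsSylIn p M Q := by
  have hA' : IsPGroup p (T.subgroupOf M) := by
    intro x
    obtain ⟨k, hk⟩ := hTp ⟨x.1.1, x.2⟩
    refine ⟨k, Subtype.ext (Subtype.ext ?_)⟩
    simpa using congrArg Subtype.val hk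
  obtain ⟨P, hP⟩ := hA'.exists_le_sylow
  refine ⟨_, ?_, isSylIn_map_sylow P⟩
  intro t ht
  exact ⟨⟨t, hT ht⟩, hP (by rwa [mem_subgroupOf]), rfl⟩

theorem IsSylIn.exists_conj_le [Finite G] {M Q₁ Q₂ : Subgroup G} (h₁ : IsSylIn p M Q₁)
    (h₂ : IsSylIn p M Q₂) : ∃ h ∈ M, ∀ t ∈ Q₂, h⁻¹ * t * h ∈ Q₁ := by
  obtain ⟨P, hP⟩ := h₁.exists_sylow
  obtain ⟨h, hh, hc⟩ := exists_conj_into_sylow P Q₂ h₂.2.1 h₂.1
  rw [hP] at hc
  exact ⟨h, hh, hc⟩

theorem card_le_of_conj_le [Finite G] {A B : Subgroup G} {h : G} (hc : ∀ t ∈ A, h⁻¹ * t * h ∈ B) :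
    Nat.card A ≤ Nat.card B := by
  have hle : subgroupConjRight h A ≤ B := by
    rintro _ ⟨t, ht, rfl⟩
    have e : (MulAut.conj h⁻¹).toMonoidHom t = h⁻¹ * t * h := by simp
    rw [e]; exact hc t ht
  have h1 : Nat.card (subgroupConjRight h A) = Nat.card A :=
    Subgroup.card_map_of_injective (MulAut.conj h⁻¹).injective
  rw [← h1]
  exact Nat.card_le_card_of_injective _ (Subgroup.inclusion_injective hle)

theorem IsSylIn.card_eq [Finite G] {M Q₁ Q₂ : Subgroup G} (h₁ : IsSylIn p M Q₁)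
    (h₂ : IsSylIn p M Q₂) : Nat.card Q₁ = Nat.card Q₂ := by
  obtain ⟨h, _, hc⟩ := h₁.exists_conj_le h₂
  obtain ⟨h', _, hc'⟩ := h₂.exists_conj_le h₁
  exact le_antisymm (card_le_of_conj_le hc') (card_le_of_conj_le hc)

/-- Two Sylow subgroups of `M` are conjugate in `M`. -/
theorem IsSylIn.exists_conj [Finite G] {M Q₁ Q₂ : Subgroup G} (h₁ : IsSylIn p M Q₁)
    (h₂ : IsSylIn p M Q₂) : ∃ m ∈ M, subgroupConjRight m Q₂ = Q₁ := by
  obtain ⟨h, hh, hc⟩ := h₁.exists_conj_le h₂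
  refine ⟨h, hh, ?_⟩
  have hle : subgroupConjRight h Q₂ ≤ Q₁ := by
    rintro _ ⟨t, ht, rfl⟩
    have e : (MulAut.conj h⁻¹).toMonoidHom t = h⁻¹ * t * h := by simp
    rw [e]; exact hc t ht
  refine Subgroup.eq_of_le_of_card_ge hle ?_
  have h2 : Nat.card (subgroupConjRight h Q₂) = Nat.card Q₂ :=
    Subgroup.card_map_of_injective (MulAut.conj h⁻¹).injective
  rw [h2, h₁.card_eq h₂]

theorem IsSylIn.eq_inf [Finite G] {M Q : Subgroup G} (h : IsSylIn p M Q) (A : Sylow p G)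
    (hQA : Q ≤ A) : (A : Subgroup G) ⊓ M = Q :=
  h.2.2 _ inf_le_right (A.isPGroup'.to_le inf_le_left) (le_inf hQA h.1)

theorem mem_sylowMembers_of_isSylIn {𝓕 : Set (Subgroup G)} {X S : Subgroup G} (hX : X ∈ 𝓕)
    (h : IsSylIn p X (S ⊓ X)) : X ∈ sylowMembers p 𝓕 S := by
  rw [mem_sylowMembers_iff]
  exact ⟨hX, h.2.1, h.2.2⟩

theorem isSylIn_of_mem_sylowMembers {𝓕 : Set (Subgroup G)} {X S : Subgroup G}
    (h : X ∈ sylowMembers p 𝓕 S) : IsSylIn p X (S ⊓ X) := by
  rw [mem_sylowMembers_iff] at h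
  exact ⟨inf_le_right, h.2.1, h.2.2⟩

/-- If `X` contains a Sylow subgroup of `M`, and `A ⊓ X` is Sylow in `X` for `A` Sylow in `M`,
then `A ≤ X`. -/
theorem le_of_isSylIn_inf [Finite G] {M X A P : Subgroup G} (hX : X ≤ M) (hA : IsSylIn p M A)
    (hP : IsSylIn p M P) (hPX : P ≤ X) (h : IsSylIn p X (A ⊓ X)) : A ≤ X := by
  have hPX' : IsSylIn p X P := hP.mono hPX hX
  have h1 := h.card_eq hPX'
  have h2 := hA.card_eq hP
  have hAX : A ⊓ X = A := by
    refine Subgroup.eq_of_le_of_card_ge inf_le_left ?_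
    rw [h1, h2]
  exact inf_eq_left.1 hAX

/-- A Sylow subgroup of `M` is a Sylow subgroup of `G`, if `M` contains one. -/
theorem IsSylIn.exists_sylow_eq [Finite G] {M Q : Subgroup G} (h : IsSylIn p M Q) (U : Sylow p G)
    (hU : (U : Subgroup G) ≤ M) : ∃ S : Sylow p G, (S : Subgroup G) = Q := by
  obtain ⟨S, hS⟩ := h.2.1.exists_le_sylow
  refine ⟨S, ?_⟩
  have h1 := h.card_eq (isSylIn_of_sylow U hU)
  have h2 : Nat.card (S : Subgroup G) = Nat.card (U : Subgroup G) := by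
    rw [S.card_eq_multiplicity, U.card_eq_multiplicity]
  exact (Subgroup.eq_of_le_of_card_ge hS (by rw [h1, h2])).symm

/-- Sylow subgroups of `⊤`. -/
theorem isSylIn_top_iff [Finite G] {Q : Subgroup G} :
    IsSylIn p ⊤ Q ↔ ∃ S : Sylow p G, (S : Subgroup G) = Q := by
  constructor
  · intro h
    obtain ⟨S, hS⟩ := h.2.1.exists_le_sylow
    exact ⟨S, (h.2.2 _ le_top S.isPGroup' hS)⟩
  · rintro ⟨S, rfl⟩
    exact isSylIn_of_sylow S le_top

/-- `Q ↦` its image: uniqueness. -/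
theorem sylow_eq_of_map_eq {M : Subgroup G} {P₁ P₂ : Sylow p ↥M}
    (h : (P₁ : Subgroup ↥M).map M.subtype = (P₂ : Subgroup ↥M).map M.subtype) : P₁ = P₂ := by
  apply Sylow.ext
  exact Subgroup.map_injective M.subtype_injective h

end isSylIn

/-! ### Ambient form of regularity -/

/-- One step of the chain in the definition of `IsFunctorRegular`, in the ambient group. -/
def AmbStep (p : ℕ) (f : Subgroup G → Set (Subgroup G)) (M D B₁ B₂ : Subgroup G) : Prop :=
  IsSylIn p M B₁ ∧ IsSylIn p M B₂ ∧ ∃ P F : Subgroup G, ∃ x : G, IsSylIn p M P ∧ F ∈ f P ∧ x ∈ M ∧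
    x ∈ normalizer (F : Set G) ∧ B₁ ≤ normalizer (F : Set G) ∧ B₂ ≤ normalizer (F : Set G) ∧
    D ≤ B₂ ∧ subgroupConjRight x B₂ = B₁

/-- `IsFunctorRegular`, in the ambient group. -/
def AmbReg (p : ℕ) (f : Subgroup G → Set (Subgroup G)) (M : Subgroup G) : Prop :=
  ∀ Q₁ Q₂ : Subgroup G, IsSylIn p M Q₁ → IsSylIn p M Q₂ → Q₁ ≠ Q₂ → Q₁ ⊓ Q₂ ≠ ⊥ →
    Relation.ReflTransGen (AmbStep p f M (Q₁ ⊓ Q₂)) Q₁ Q₂

theorem AmbStep.mono {f : Subgroup G → Set (Subgroup G)} {M D D' B₁ B₂ : Subgroup G} (hD : D' ≤ D)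
    (h : AmbStep p f M D B₁ B₂) : AmbStep p f M D' B₁ B₂ := by
  obtain ⟨h1, h2, P, F, x, h3, h4, h5, h6, h7, h8, h9, h10⟩ := h
  exact ⟨h1, h2, P, F, x, h3, h4, h5, h6, h7, h8, hD.trans h9, h10⟩

section translate

variable [Finite G] [Fact p.Prime] {f : Subgroup G → Set (Subgroup G)}

/-- A step of the `↥M`-chain gives an ambient step. -/
theorem ambStep_of_ctlStep (hf : IsNormalizerFunctor p f) {M : Subgroup G} {D₀ : Subgroup ↥M}
    {A B : Sylow p ↥M}
    (h : CtlStep p ((fun X : Subgroup G => X.subgroupOf M) '' functorFamily p f M) D₀ A B) :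
    AmbStep p f M (D₀.map M.subtype) ((A : Subgroup ↥M).map M.subtype)
      ((B : Subgroup ↥M).map M.subtype) := by
  obtain ⟨X, x, hXA, hXB, hx, hconj, hD⟩ := h
  have hXfam : X ∈ (fun X : Subgroup G => X.subgroupOf M) '' functorFamily p f M := by
    rw [mem_sylowMembers_iff] at hXA
    exact hXA.1
  obtain ⟨X', ⟨P, F, hF, rfl⟩, rfl⟩ := hXfam
  set P' : Subgroup G := (P : Subgroup ↥M).map M.subtype with hP'
  have hP'p : IsPGroup p P' := P.isPGroup'.map _
  have hFprop := (hf P' hP'p).1 F hF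
  have hP'N : P' ≤ normalizer (F : Set G) := le_normalizer.trans hFprop.2
  -- all in `↥M`: `P ≤ X`
  set X := (M ⊓ normalizer (F : Set G)).subgroupOf M with hX
  have hPX : (P : Subgroup ↥M) ≤ X := by
    intro y hy
    rw [hX, mem_subgroupOf]
    exact ⟨y.2, hP'N ⟨y, hy, rfl⟩⟩
  have hAX : (A : Subgroup ↥M) ≤ X := by
    refine le_of_isSylIn_inf (M := ⊤) le_top (isSylIn_of_sylow A le_top) (isSylIn_of_sylow P le_top)
      hPX (isSylIn_of_mem_sylowMembers hXA)
  have hBX : (B : Subgroup ↥M) ≤ X := by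
    refine le_of_isSylIn_inf (M := ⊤) le_top (isSylIn_of_sylow B le_top) (isSylIn_of_sylow P le_top)
      hPX (isSylIn_of_mem_sylowMembers hXB)
  have hAN : (A : Subgroup ↥M).map M.subtype ≤ normalizer (F : Set G) := by
    rintro _ ⟨y, hy, rfl⟩
    have := hAX hy
    rw [hX, mem_subgroupOf] at this
    exact this.2
  have hBN : (B : Subgroup ↥M).map M.subtype ≤ normalizer (F : Set G) := by
    rintro _ ⟨y, hy, rfl⟩
    have := hBX hy
    rw [hX, mem_subgroupOf] at this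
    exact this.2
  refine ⟨isSylIn_map_sylow A, isSylIn_map_sylow B, P', F, x, isSylIn_map_sylow P, hF, x.2, ?_,
    hAN, hBN, ?_, ?_⟩
  · have : x ∈ (M ⊓ normalizer (F : Set G)).subgroupOf M := hx
    rw [mem_subgroupOf] at this
    exact this.2
  · rintro _ ⟨y, hy, rfl⟩
    exact ⟨y, (hD hy).1, rfl⟩
  · ext y
    rw [mem_subgroupConjRight]
    constructor
    · intro hy
      obtain ⟨u, hu, hue⟩ := hy
      have h1 : (x⁻¹ * u * x : ↥M) ∈ (A : Subgroup ↥M) := by
        rw [← hconj, mem_subgroupConjRight]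
        have e : x * (x⁻¹ * u * x) * x⁻¹ = u := by group
        rw [e]; exact hu
      refine ⟨_, h1, ?_⟩
      have hue' : (u : G) = x * y * (x : G)⁻¹ := hue
      show ((x : G)⁻¹ * u * x) = y
      rw [hue']; group
    · intro hy
      obtain ⟨u, hu, rfl⟩ := hy
      have h1 : u ∈ subgroupConjRight x (B : Subgroup ↥M) := by
        rw [hconj]; exact hu
      rw [mem_subgroupConjRight] at h1
      exact ⟨_, h1, rfl⟩

/-- Regularity gives the ambient form. -/
theorem ambReg_of_regular (hf : IsNormalizerFunctor p f) {M : Subgroup G}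
    (hr : IsFunctorRegular p f M) : AmbReg p f M := by
  intro Q₁ Q₂ h₁ h₂ hne hint
  obtain ⟨S₀, hS₀⟩ := h₁.exists_sylow
  obtain ⟨T₀, hT₀⟩ := h₂.exists_sylow
  have hST : S₀ ≠ T₀ := by
    rintro rfl
    exact hne (hS₀.symm.trans hT₀)
  have hD : (S₀ : Subgroup ↥M) ⊓ (T₀ : Subgroup ↥M) ≠ ⊥ := by
    intro hbot
    apply hint
    rw [← hS₀, ← hT₀, ← Subgroup.map_inf _ _ _ M.subtype_injective, hbot, Subgroup.map_bot]
  have hchain := reflTransGen_of_controls hr hST hD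
  have hmap : ((S₀ : Subgroup ↥M) ⊓ (T₀ : Subgroup ↥M)).map M.subtype = Q₁ ⊓ Q₂ := by
    rw [Subgroup.map_inf _ _ _ M.subtype_injective, hS₀, hT₀]
  have hlift := Relation.ReflTransGen.lift (r := CtlStep p ((fun X : Subgroup G => X.subgroupOf M) ''
      functorFamily p f M) ((S₀ : Subgroup ↥M) ⊓ (T₀ : Subgroup ↥M)))
    (p := AmbStep p f M (Q₁ ⊓ Q₂)) (fun c : Sylow p ↥M => (c : Subgroup ↥M).map M.subtype)
    (fun a b hab => by
      have := ambStep_of_ctlStep hf hab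
      rw [hmap] at this
      exact this) _ _ hchain
  have h3 : Relation.ReflTransGen (AmbStep p f M (Q₁ ⊓ Q₂)) ((S₀ : Subgroup ↥M).map M.subtype)
    ((T₀ : Subgroup ↥M).map M.subtype) := hlift
  rwa [hS₀, hT₀] at h3

/-- An ambient step gives a step of the `↥M`-chain. -/
theorem ctlStep_of_ambStep {M : Subgroup G} {D₀ : Subgroup ↥M} {A B : Sylow p ↥M}
    (h : AmbStep p f M (D₀.map M.subtype) ((A : Subgroup ↥M).map M.subtype)
      ((B : Subgroup ↥M).map M.subtype)) :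
    CtlStep p ((fun X : Subgroup G => X.subgroupOf M) '' functorFamily p f M) D₀ A B := by
  obtain ⟨-, -, P', F, x, hP', hF, hxM, hxN, hAN, hBN, hD, hconj⟩ := h
  obtain ⟨P, rfl⟩ := hP'.exists_sylow
  set X := (M ⊓ normalizer (F : Set G)).subgroupOf M with hX
  have hXfam : X ∈ (fun X : Subgroup G => X.subgroupOf M) '' functorFamily p f M :=
    ⟨_, ⟨P, F, hF, rfl⟩, rfl⟩
  have hle : ∀ C : Sylow p ↥M, (C : Subgroup ↥M).map M.subtype ≤ normalizer (F : Set G) →
      (C : Subgroup ↥M) ≤ X := by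
    intro C hC y hy
    rw [hX, mem_subgroupOf]
    exact ⟨y.2, hC ⟨y, hy, rfl⟩⟩
  have hmem : ∀ C : Sylow p ↥M, (C : Subgroup ↥M).map M.subtype ≤ normalizer (F : Set G) →
      X ∈ sylowMembers p ((fun X : Subgroup G => X.subgroupOf M) '' functorFamily p f M)
        (C : Subgroup ↥M) := by
    intro C hC
    apply mem_sylowMembers_of_isSylIn hXfam
    rw [inf_eq_left.2 (hle C hC)]
    exact (isSylIn_of_sylow C le_top).mono (hle C hC) le_top
  refine ⟨X, ⟨x, hxM⟩, hmem A hAN, hmem B hBN, ?_, ?_, ?_⟩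
  · rw [hX, mem_subgroupOf]
    exact ⟨hxM, hxN⟩
  · ext y
    rw [mem_subgroupConjRight]
    constructor
    · intro hy
      have h1 : (y : G) ∈ subgroupConjRight x ((B : Subgroup ↥M).map M.subtype) :=
        (mem_subgroupConjRight).2 ⟨_, hy, rfl⟩
      rw [hconj] at h1
      obtain ⟨u, hu, hue⟩ := h1
      have : u = y := Subtype.ext hue
      rwa [← this]
    · intro hy
      have h1 : (y : G) ∈ subgroupConjRight x ((B : Subgroup ↥M).map M.subtype) := by
        rw [hconj]; exact ⟨y, hy, rfl⟩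
      rw [mem_subgroupConjRight] at h1
      obtain ⟨u, hu, hue⟩ := h1
      have : u = (⟨x, hxM⟩ : ↥M) * y * (⟨x, hxM⟩ : ↥M)⁻¹ := Subtype.ext hue
      rwa [← this]
  · intro y hy
    exact ⟨by
      have h1 := hD ⟨y, hy, rfl⟩
      obtain ⟨u, hu, hue⟩ := h1
      have : u = y := Subtype.ext hue
      rwa [← this], by
      have h1 := hD ⟨y, hy, rfl⟩
      exact (hle B hBN) (by
        obtain ⟨u, hu, hue⟩ := h1
        have : u = y := Subtype.ext hue
        rwa [← this])⟩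

/-- The ambient form gives regularity. -/
theorem regular_of_ambReg {M : Subgroup G} (hr : AmbReg p f M) : IsFunctorRegular p f M := by
  apply controls_of_reflTransGen
  intro S₀ T₀ hST hD
  have hne : (S₀ : Subgroup ↥M).map M.subtype ≠ (T₀ : Subgroup ↥M).map M.subtype := fun h =>
    hST (sylow_eq_of_map_eq h)
  have hint : (S₀ : Subgroup ↥M).map M.subtype ⊓ (T₀ : Subgroup ↥M).map M.subtype ≠ ⊥ := by
    intro hbot
    apply hD
    rw [← Subgroup.map_inf _ _ _ M.subtype_injective] at hbot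
    exact (Subgroup.map_eq_bot_iff_of_injective _ M.subtype_injective).1 hbot
  have hchain := hr _ _ (isSylIn_map_sylow S₀) (isSylIn_map_sylow T₀) hne hint
  rw [← Subgroup.map_inf _ _ _ M.subtype_injective] at hchain
  set D₀ := (S₀ : Subgroup ↥M) ⊓ (T₀ : Subgroup ↥M) with hD₀
  have key : ∀ B, Relation.ReflTransGen (AmbStep p f M (D₀.map M.subtype))
      ((S₀ : Subgroup ↥M).map M.subtype) B →
      ∃ B₀ : Sylow p ↥M, (B₀ : Subgroup ↥M).map M.subtype = B ∧
        Relation.ReflTransGen (CtlStep p ((fun X : Subgroup G => X.subgroupOf M) '' functorFamily p f M) D₀)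
          S₀ B₀ := by
    intro B hB
    induction hB with
    | refl => exact ⟨S₀, rfl, Relation.ReflTransGen.refl⟩
    | @tail b c _ hbc ih =>
      obtain ⟨B₀, rfl, hB₀⟩ := ih
      obtain ⟨C₀, rfl⟩ := hbc.2.1.exists_sylow
      exact ⟨C₀, rfl, hB₀.tail (ctlStep_of_ambStep hbc)⟩
  obtain ⟨B₀, hB₀, hch⟩ := key _ hchain
  rwa [sylow_eq_of_map_eq hB₀] at hch

end translate

end Cfsg.Agent.Lib.LocalEven.FunctorChains
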