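/-
A finite group whose Sylow `2`-subgroups are `ℤ/2 × D₈` has a subgroup of index `2`.
-/
import Mathlib
import Cfsg.Agent.Lib.PLocal.AlperinApps
import Cfsg.Agent.Lib.Transfer.Focal
import Cfsg.Agent.Lib.LocalEven.Util

set_option autoImplicit false
set_option linter.unusedSectionVars false

namespace Cfsg.Agent.Lib.LocalEven.Z2D8

open Subgroup
open Cfsg.Agent.Lib.LocalEven.Util
open scoped commutatorElement

/-- The model group. -/
abbrev S0 := Multiplicative (ZMod 2) × DihedralGroup 4

def tt : S0 := (Multiplicative.ofAdd 1, 1)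
def rr : S0 := (1, DihedralGroup.r 1)
def ss : S0 := (1, DihedralGroup.sr 0)
def zz : S0 := (1, DihedralGroup.r 2)

section Facts

set_option maxRecDepth 100000
set_option synthInstance.maxHeartbeats 400000
set_option synthInstance.maxSize 4000

theorem F_sq : ∀ x : S0, x * x = 1 ∨ x * x = zz := by decide
theorem F_cen : ∀ x : S0, (∀ y : S0, x * y = y * x) → x = 1 ∨ x = tt ∨ x = zz ∨ x = tt * zz := by
  decide
theorem F_list : ∀ a x : S0, a * a = 1 → ¬ (∀ y : S0, a * y = y * a) → x * a = a * x →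
    x = 1 ∨ x = zz ∨ x = tt ∨ x = tt * zz ∨ x = a ∨ x = a * zz ∨ x = tt * a ∨ x = tt * a * zz := by
  decide
theorem F_card : ∀ a : S0, a * a = 1 → ¬ (∀ y : S0, a * y = y * a) →
    Fintype.card {x : S0 // x * a = a * x} = 8 := by decide
theorem F_cardZ : Fintype.card {x : S0 // ∀ y : S0, x * y = y * x} = 4 := by decide
theorem F_inv : ∀ a x : S0, a * a = 1 → ¬ (∀ y : S0, a * y = y * a) → x * a = a * x → x * x = 1 := by
  decide
theorem F_ab : ∀ a x y : S0, a * a = 1 → ¬ (∀ y : S0, a * y = y * a) → x * a = a * x → y * a = a * y →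
    x * y = y * x := by decide
theorem F_conj : ∀ a : S0, a * a = 1 → ¬ (∀ y : S0, a * y = y * a) →
    ∃ s : S0, s * a * s⁻¹ = a * zz := by decide
theorem F_sqz : ∀ x : S0, x * x = zz → x = rr ∨ x = rr⁻¹ ∨ x = tt * rr ∨ x = tt * rr⁻¹ := by decide
theorem F_refl : ∀ c : S0, c * c = 1 → c * rr * c⁻¹ = rr⁻¹ →
    ∃ i : Fin 2, ∃ j : Fin 4, c = tt ^ (i : ℕ) * rr ^ (j : ℕ) * ss := by decide
theorem F_gen : ∀ x : S0, ∃ i : Fin 2, ∃ j : Fin 4, ∃ k : Fin 2,
    x = tt ^ (i : ℕ) * rr ^ (j : ℕ) * ss ^ (k : ℕ) := by decide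
theorem F_four : ∀ x : S0, x * x * x * x = 1 := by decide
theorem F_rr : rr * rr = zz := by decide
theorem F_ne : tt ≠ zz := by decide
theorem F_z1 : zz ≠ 1 := by decide
theorem F_t1 : tt ≠ 1 := by decide
theorem F_tz1 : tt * zz ≠ 1 := by decide
theorem F_tz2 : tt * zz ≠ zz := by decide
theorem F_tcen : ∀ y : S0, tt * y = y * tt := by decide
theorem F_zcen : ∀ y : S0, zz * y = y * zz := by decide
theorem F_ttz : (tt * zz) * (tt * zz) = 1 := by decide
theorem F_tt : tt * tt = 1 := by decide
theorem F_zz : zz * zz = 1 := by decide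
theorem F_tz : tt * zz = zz * tt := by decide
theorem F_ssrr : ss * rr * ss⁻¹ = rr⁻¹ := by decide
theorem F_ssss : ss * ss = 1 := by decide
theorem F_comm : ∀ u v : S0, ⁅u, v⁆ = 1 ∨ ⁅u, v⁆ = zz := by decide
theorem F_X : ∀ x : S0, x * x = 1 → x ≠ 1 → x ≠ tt → x ≠ tt * zz →
    x = zz ∨ x = ss ∨ x = ss * zz ∨ x = tt * ss ∨ x = tt * ss * zz ∨
      x = rr * ss ∨ x = rr * ss * zz ∨ x = tt * (rr * ss) ∨ x = tt * (rr * ss) * zz := by decide
theorem F_ssnc : ¬ (∀ y : S0, ss * y = y * ss) := by decide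
theorem F_rsnc : ¬ (∀ y : S0, (rr * ss) * y = y * (rr * ss)) := by decide
theorem F_rsinv : (rr * ss) * (rr * ss) = 1 := by decide

end Facts

/-- `φ` fixes `x` if `φ²` does and `φ` has odd order. -/
theorem fix_of_sq (φ : MulAut S0) {m : ℕ} (hm : Odd m) (h1 : φ ^ m = 1) {x : S0}
    (h : φ (φ x) = x) : φ x = x := by
  obtain ⟨q, rfl⟩ := hm
  have h2 : ∀ q : ℕ, ((φ * φ) ^ q) x = x := by
    intro q
    induction q with
    | zero => rfl
    | succ q ih =>
      rw [pow_succ, MulAut.mul_apply, MulAut.mul_apply, h, ih]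
  have h3 : φ ^ (2 * q + 1) = φ * (φ * φ) ^ q := by
    rw [pow_succ', pow_mul, pow_two]
  have h4 := congrArg (fun θ : MulAut S0 => θ x) h1
  simp only [h3, MulAut.mul_apply, h2, MulAut.one_apply] at h4
  exact h4

/-- An automorphism of `ℤ/2 × D₈` of odd order is trivial. -/
theorem odd_aut_trivial (θ : MulAut S0) {m : ℕ} (hm : Odd m) (h1 : θ ^ m = 1) : θ = 1 := by
  have hz : θ zz = zz := by
    have h2 : θ rr * θ rr = θ zz := by rw [← map_mul, F_rr]
    rcases F_sq (θ rr) with h3 | h3
    · rw [h3] at h2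
      exact absurd (θ.injective (h2.symm.trans (map_one θ).symm)) F_z1
    · rw [← h2, h3]
  have ht : θ tt = tt := by
    apply fix_of_sq θ hm h1
    have hc : ∀ y : S0, θ tt * y = y * θ tt := by
      intro y
      obtain ⟨w, rfl⟩ := θ.surjective y
      rw [← map_mul, ← map_mul, F_tcen]
    rcases F_cen _ hc with h | h | h | h
    · exact absurd (θ.injective (h.trans (map_one θ).symm)) F_t1
    · rw [h, h]
    · exact absurd (θ.injective (h.trans hz.symm)) F_ne
    · rw [h, map_mul, h, hz]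
      have : tt * zz * zz = tt * (zz * zz) := mul_assoc _ _ _
      rw [this, F_zz, mul_one]
  have hr : θ rr = rr := by
    apply fix_of_sq θ hm h1
    have h2 : θ rr * θ rr = zz := by rw [← map_mul, F_rr, hz]
    rcases F_sqz _ h2 with h | h | h | h
    · rw [h, h]
    · rw [h, map_inv, h, inv_inv]
    · rw [h, map_mul, h, ht, ← mul_assoc, F_tt, one_mul]
    · rw [h, map_mul, map_inv, h, ht, mul_inv_rev, inv_inv]
      have h3 : tt⁻¹ = tt := inv_eq_of_mul_eq_one_left F_tt
      rw [h3]
      calc tt * (rr * tt) = tt * (tt * rr) := by rw [F_tcen rr]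
        _ = rr := by rw [← mul_assoc, F_tt, one_mul]
  have hs : θ ss = ss := by
    have hw : ∀ (i j : ℕ), θ (tt ^ i * rr ^ j) = tt ^ i * rr ^ j := by
      intro i j
      rw [map_mul, map_pow, map_pow, ht, hr]
    have hφ : (θ * θ) ^ m = 1 := by
      have : θ * θ = θ ^ 2 := (pow_two θ).symm
      rw [this, ← pow_mul, mul_comm, pow_mul, h1, one_pow]
    have h2 : (θ * θ) ss = ss := by
      apply fix_of_sq (θ * θ) hm hφ
      have h3 : θ ss * θ ss = 1 := by rw [← map_mul, F_ssss, map_one]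
      have h4 : θ ss * rr * (θ ss)⁻¹ = rr⁻¹ := by
        have := congrArg θ F_ssrr
        rwa [map_mul, map_mul, map_inv, map_inv, hr] at this
      obtain ⟨i, j, hc⟩ := F_refl _ h3 h4
      set w := tt ^ (i : ℕ) * rr ^ (j : ℕ) with hwdef
      have hθw : θ w = w := hw _ _
      have h5 : (θ * θ) ss = w * w * ss := by
        rw [MulAut.mul_apply, hc, map_mul, hθw, hc]
        exact (mul_assoc _ _ _).symm
      have h6 : (θ * θ) w = w := by rw [MulAut.mul_apply, hθw, hθw]
      rw [h5, map_mul, map_mul, h6, h5]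
      calc w * w * (w * w * ss) = (w * w * w * w) * ss := by group
        _ = ss := by rw [F_four, one_mul]
    apply fix_of_sq θ hm h1
    exact h2
  apply MulEquiv.ext
  intro x
  obtain ⟨i, j, k, rfl⟩ := F_gen x
  simp only [map_mul, map_pow, ht, hr, hs, MulAut.one_apply]

section Functional

/-- The parity of a rotation index. -/
def par (i : ZMod 4) : ZMod 2 := ((i.val : ℕ) : ZMod 2)

/-- On `D₈`. -/
def lamD (α β : ZMod 2) : DihedralGroup 4 → ZMod 2
  | DihedralGroup.r i => β * par i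
  | DihedralGroup.sr i => α + β * par i

/-- On `ℤ/2 × D₈`. -/
def lam (α β : ZMod 2) (x : S0) : ZMod 2 := Multiplicative.toAdd x.1 + lamD α β x.2

set_option maxRecDepth 100000
set_option synthInstance.maxHeartbeats 400000
set_option synthInstance.maxSize 4000

theorem lam_mul : ∀ (α β : ZMod 2) (x y : S0), lam α β (x * y) = lam α β x + lam α β y := by
  decide

theorem lam_tt : ∀ (α β : ZMod 2), lam α β tt = 1 := by decide
theorem lam_zz : ∀ (α β : ZMod 2), lam α β zz = 0 := by decide
theorem lam_ss : ∀ (α β : ZMod 2), lam α β ss = α := by decide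
theorem lam_rs : ∀ (α β : ZMod 2), lam α β (rr * ss) = α + β := by decide

/-- The homomorphism. -/
def lamHom (α β : ZMod 2) : S0 →* Multiplicative (ZMod 2) :=
  MonoidHom.mk' (fun x => Multiplicative.ofAdd (lam α β x)) (by
    intro x y
    rw [lam_mul, ofAdd_add])

theorem F_tta : ∀ a : S0, a * a = 1 → ¬ (∀ y : S0, a * y = y * a) →
    (tt * a) * (tt * a) = 1 ∧ ¬ (∀ y : S0, (tt * a) * y = y * (tt * a)) := by decide

theorem F_azz : ∀ a : S0, a * a = 1 → ¬ (∀ y : S0, a * y = y * a) →
    (a * zz) * (a * zz) = 1 ∧ ¬ (∀ y : S0, (a * zz) * y = y * (a * zz)) := by decide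

theorem F_azz2 : ∀ a : S0, a * zz * zz = a := by decide

theorem F_prod1 : tt * (tt * zz) = zz := by decide
theorem F_prod2 : tt * zz * tt = zz := by decide
theorem F_t_tz : tt ≠ tt * zz := by decide

end Functional

section Main

variable {G : Type*} [Group G] [Finite G] (S : Sylow 2 G) (e : ↥(S : Subgroup G) ≃* S0)

/-- The embedding of the model group. -/
def iota : S0 →* G := (S : Subgroup G).subtype.comp e.symm.toMonoidHom

theorem iota_inj : Function.Injective (iota S e) := by
  intro x y h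
  exact e.symm.injective (Subtype.ext h)

theorem iota_mem (x : S0) : iota S e x ∈ (S : Subgroup G) := (e.symm x).2

theorem exists_iota {g : G} (hg : g ∈ (S : Subgroup G)) : ∃ x : S0, iota S e x = g :=
  ⟨e ⟨g, hg⟩, by simp [iota]⟩

theorem isPGroup_zpowers_of_pow {x : G} {k : ℕ} (h : x ^ (2 ^ k) = 1) :
    IsPGroup 2 (zpowers x) := by
  rintro ⟨w, hw⟩
  obtain ⟨i, rfl⟩ := mem_zpowers_iff.1 hw
  refine ⟨k, Subtype.ext ?_⟩
  show (x ^ i) ^ (2 ^ k) = 1
  rw [← zpow_natCast, ← zpow_mul, mul_comm, zpow_mul, zpow_natCast, h, one_zpow]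

theorem mem_of_mem_normalizer {x : G} (hx : x ∈ normalizer ((S : Subgroup G) : Set G)) {k : ℕ}
    (h : x ^ (2 ^ k) = 1) : x ∈ (S : Subgroup G) := by
  have hZ : IsPGroup 2 (zpowers x) := isPGroup_zpowers_of_pow h
  have hle : zpowers x ≤ normalizer ((S : Subgroup G) : Set G) := zpowers_le.2 hx
  have hp : IsPGroup 2 ((S : Subgroup G) ⊔ zpowers x : Subgroup G) :=
    S.isPGroup'.to_sup_of_normal_left' hZ hle
  have heq := S.3 hp le_sup_left
  rw [← heq]
  exact mem_sup_right (mem_zpowers x)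

/-- The homomorphism to the automorphism group of the model. -/
def autHom : normalizer ((S : Subgroup G) : Set G) →* MulAut S0 :=
  (MulAut.congr e).toMonoidHom.comp (S : Subgroup G).normalizerMonoidHom

theorem iota_autHom (n : normalizer ((S : Subgroup G) : Set G)) (x : S0) :
    iota S e (autHom S e n x) = (n : G) * iota S e x * (n : G)⁻¹ := by
  have : e.symm (autHom S e n x) = ⟨(n : G) * iota S e x * (n : G)⁻¹, by
      exact (mem_normalizer_iff.1 n.2 _).1 (iota_mem S e x)⟩ := by
    simp only [autHom, MonoidHom.comp_apply]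
    apply Subtype.ext
    simp [MulAut.congr, iota]
    rfl
  show ((e.symm (autHom S e n x) : ↥(S : Subgroup G)) : G) = _
  rw [this]

/-- Odd-order elements of `N(S)` centralize `S`. -/
theorem centralizes_of_odd {n : G} (hn : n ∈ normalizer ((S : Subgroup G) : Set G)) {m : ℕ}
    (hm : Odd m) (h1 : n ^ m = 1) (x : S0) : n * iota S e x * n⁻¹ = iota S e x := by
  have h2 : autHom S e ⟨n, hn⟩ = 1 := by
    apply odd_aut_trivial _ hm
    rw [← map_pow]
    have : (⟨n, hn⟩ : normalizer ((S : Subgroup G) : Set G)) ^ m = 1 := Subtype.ext h1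
    rw [this, map_one]
  have h3 := iota_autHom S e ⟨n, hn⟩ x
  rw [h2] at h3
  exact h3.symm

/-- `N(S)` acts on `S` by inner automorphisms. -/
theorem normalizer_inner {n : G} (hn : n ∈ normalizer ((S : Subgroup G) : Set G)) :
    ∃ s : S0, ∀ x : S0, n * iota S e x * n⁻¹ = iota S e (s * x * s⁻¹) := by
  have ho : orderOf n ≠ 0 := (orderOf_pos n).ne'
  obtain ⟨b, r, hr, hor⟩ := Nat.exists_eq_two_pow_mul_odd ho
  have hcop : Nat.gcd (2 ^ b) r = 1 := Nat.Coprime.pow_left _ (Nat.coprime_two_left.2 hr)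
  have hbez := Nat.gcd_eq_gcd_ab (2 ^ b) r
  rw [hcop] at hbez
  set u := Nat.gcdA (2 ^ b) r with hu
  set v := Nat.gcdB (2 ^ b) r with hv
  have hn2 : (n ^ r) ^ (2 ^ b) = 1 := by
    rw [← pow_mul, mul_comm, ← hor, pow_orderOf_eq_one]
  have hn0 : (n ^ (2 ^ b)) ^ r = 1 := by
    rw [← pow_mul, ← hor, pow_orderOf_eq_one]
  have hdec : n = (n ^ (2 ^ b)) ^ u * (n ^ r) ^ v := by
    have : (n ^ (2 ^ b)) ^ u * (n ^ r) ^ v = n ^ (((2 ^ b : ℕ) : ℤ) * u + (r : ℤ) * v) := by
      rw [zpow_add, zpow_mul, zpow_mul, zpow_natCast, zpow_natCast]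
    rw [this, ← hbez]
    simp
  have hmem : (n ^ r) ∈ (S : Subgroup G) :=
    mem_of_mem_normalizer S (pow_mem hn r) hn2
  obtain ⟨s₀, hs₀⟩ := exists_iota S e (zpow_mem hmem v)
  refine ⟨s₀, fun x => ?_⟩
  have hs : iota S e (s₀ * x * s₀⁻¹) = (n ^ r) ^ v * iota S e x * ((n ^ r) ^ v)⁻¹ := by
    rw [map_mul, map_mul, map_inv, hs₀]
  have hc : ∀ y : S0, (n ^ (2 ^ b)) ^ u * iota S e y * ((n ^ (2 ^ b)) ^ u)⁻¹ = iota S e y := by
    intro y
    set c := n ^ (2 ^ b) with hc
    have hcn : c ∈ normalizer ((S : Subgroup G) : Set G) := pow_mem hn _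
    have hc1 : ∀ y : S0, c * iota S e y * c⁻¹ = iota S e y :=
      fun y => centralizes_of_odd S e hcn hr hn0 y
    have : c ^ u ∈ centralizer ({iota S e y} : Set G) := by
      apply zpow_mem
      rw [mem_centralizer_iff]
      intro h hh
      rw [Set.mem_singleton_iff] at hh
      rw [hh]
      have := hc1 y
      calc iota S e y * c = (c * iota S e y * c⁻¹) * c := by rw [hc1 y]
        _ = c * iota S e y := by group
    have h2 := mem_centralizer_iff.1 this (iota S e y) rfl
    calc c ^ u * iota S e y * (c ^ u)⁻¹ = iota S e y * c ^ u * (c ^ u)⁻¹ := by rw [h2]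
      _ = iota S e y := by group
  calc n * iota S e x * n⁻¹
      = ((n ^ (2 ^ b)) ^ u * (n ^ r) ^ v) * iota S e x * ((n ^ (2 ^ b)) ^ u * (n ^ r) ^ v)⁻¹ := by
        rw [← hdec]
    _ = (n ^ (2 ^ b)) ^ u * ((n ^ r) ^ v * iota S e x * ((n ^ r) ^ v)⁻¹) * ((n ^ (2 ^ b)) ^ u)⁻¹ := by
        group
    _ = iota S e (s₀ * x * s₀⁻¹) := by rw [← hs, hc]

/-- The conjugates of the central involution inside `S`. -/
def X0 (x : S0) : Prop := ∃ g : G, g * iota S e zz * g⁻¹ = iota S e x

variable {S e}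

theorem X0_conj {x : S0} (h : X0 S e x) (s : S0) : X0 S e (s * x * s⁻¹) := by
  obtain ⟨g, hg⟩ := h
  refine ⟨iota S e s * g, ?_⟩
  rw [map_mul, map_mul, map_inv, ← hg]
  group

theorem X0_sq {x : S0} (h : X0 S e x) : x * x = 1 := by
  obtain ⟨g, hg⟩ := h
  apply iota_inj S e
  rw [map_mul, map_one, ← hg]
  have : iota S e zz * iota S e zz = 1 := by rw [← map_mul, F_zz, map_one]
  calc g * iota S e zz * g⁻¹ * (g * iota S e zz * g⁻¹)
      = g * (iota S e zz * iota S e zz) * g⁻¹ := by group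
    _ = 1 := by rw [this]; group

theorem X0_ne_one {x : S0} (h : X0 S e x) : x ≠ 1 := by
  rintro rfl
  obtain ⟨g, hg⟩ := h
  rw [map_one] at hg
  have h1 : iota S e zz = 1 := by
    have : iota S e zz = g⁻¹ * (g * iota S e zz * g⁻¹) * g := by group
    rw [this, hg]
    group
  exact F_z1 (iota_inj S e (h1.trans (map_one _).symm))

theorem X0_zz : X0 S e zz := ⟨1, by group⟩

theorem X0_of_azz {a : S0} (ha : a * a = 1) (hc : ¬ (∀ y : S0, a * y = y * a))
    (h : X0 S e (a * zz)) : X0 S e a := by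
  obtain ⟨h1, h2⟩ := F_azz a ha hc
  obtain ⟨s, hs⟩ := F_conj _ h1 h2
  have := X0_conj h s
  rwa [hs, F_azz2] at this

theorem X0_azz {a : S0} (ha : a * a = 1) (hc : ¬ (∀ y : S0, a * y = y * a))
    (h : X0 S e a) : X0 S e (a * zz) := by
  obtain ⟨s, hs⟩ := F_conj _ ha hc
  have := X0_conj h s
  rwa [hs] at this

/-- Burnside: a central conjugate of `z` equals `z`. -/
theorem X0_central {x : S0} (hc : ∀ y : S0, x * y = y * x) (h : X0 S e x) : x = zz := by
  obtain ⟨g, hg⟩ := h
  set C : Subgroup G := centralizer ({iota S e x} : Set G) with hC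
  have hmemC : ∀ w, w ∈ C ↔ w * iota S e x = iota S e x * w := by
    intro w
    rw [hC, mem_centralizer_iff]
    constructor
    · intro h1
      exact (h1 _ rfl).symm
    · intro h1 y hy
      rw [Set.mem_singleton_iff] at hy
      rw [hy, h1]
  have hSC : (S : Subgroup G) ≤ C := by
    intro w hw
    obtain ⟨u, rfl⟩ := exists_iota S e hw
    rw [hmemC, ← map_mul, ← map_mul, hc u]
  have hgSC : ((g • S : Sylow 2 G) : Subgroup G) ≤ C := by
    intro w hw
    have h1 := (mem_smul_sylow S g w).1 hw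
    obtain ⟨u, hu⟩ := exists_iota S e h1
    have hw' : w = g * iota S e u * g⁻¹ := by rw [hu]; group
    rw [hmemC, hw', ← hg]
    have h2 : iota S e u * iota S e zz = iota S e zz * iota S e u := by
      rw [← map_mul, ← map_mul, F_zcen u]
    calc g * iota S e u * g⁻¹ * (g * iota S e zz * g⁻¹)
        = g * (iota S e u * iota S e zz) * g⁻¹ := by group
      _ = g * (iota S e zz * iota S e u) * g⁻¹ := by rw [h2]
      _ = _ := by group
  have hp : IsPGroup 2 ((g • S : Sylow 2 G) : Subgroup G) := (g • S).isPGroup'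
  obtain ⟨h, hhC, hh⟩ := exists_conj_into_sylow (S.subtype hSC) _ hp hgSC
  have hmap : ((S.subtype hSC : Sylow 2 C) : Subgroup C).map C.subtype ≤ (S : Subgroup G) := by
    rw [Sylow.coe_subtype, map_subgroupOf_eq_of_le hSC]
  set n := h⁻¹ * g with hn
  have hconj : ∀ y ∈ (S : Subgroup G), n * y * n⁻¹ ∈ (S : Subgroup G) := by
    intro y hy
    have h1 : g * y * g⁻¹ ∈ ((g • S : Sylow 2 G) : Subgroup G) := by
      rw [mem_smul_sylow]
      have : g⁻¹ * (g * y * g⁻¹) * g = y := by group
      rwa [this]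
    have h2 := hmap (hh _ h1)
    have : n * y * n⁻¹ = h⁻¹ * (g * y * g⁻¹) * h := by rw [hn]; group
    rwa [this]
  have hnz : n * iota S e zz * n⁻¹ = iota S e x := by
    have h1 : h⁻¹ * iota S e x * h = iota S e x := by
      calc h⁻¹ * iota S e x * h = h⁻¹ * (iota S e x * h) := by group
        _ = h⁻¹ * (h * iota S e x) := by rw [(hmemC h).1 hhC]
        _ = iota S e x := by group
    have : n * iota S e zz * n⁻¹ = h⁻¹ * (g * iota S e zz * g⁻¹) * h := by rw [hn]; group
    rw [this, hg, h1]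
  obtain ⟨y, hy⟩ := exists_iota S e (hconj _ (iota_mem S e rr))
  have hsq : iota S e (y * y) = iota S e x := by
    rw [map_mul, hy, ← hnz, ← F_rr, map_mul]
    group
  have hx : y * y = x := iota_inj S e hsq
  have hne : x ≠ 1 := X0_ne_one ⟨g, hg⟩
  rcases F_sq y with h3 | h3
  · exact absurd (hx.symm.trans h3) hne
  · exact hx.symm.trans h3

/-- Two conjugates of `z` in the same elementary abelian subgroup cannot differ by `t`. -/
theorem not_both {a : S0} (ha : a * a = 1) (hc : ¬ (∀ y : S0, a * y = y * a))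
    (h1 : X0 S e a) (h2 : X0 S e (tt * a)) : False := by
  classical
  obtain ⟨hta, htc⟩ := F_tta a ha hc
  have h3 := X0_azz ha hc h1
  have h4 := X0_azz hta htc h2
  obtain ⟨g, hg⟩ := h1
  have h1' : X0 S e a := ⟨g, hg⟩
  set C : Subgroup G := centralizer ({iota S e a} : Set G) with hC
  have hmemC : ∀ w, w ∈ C ↔ w * iota S e a = iota S e a * w := by
    intro w
    rw [hC, mem_centralizer_iff]
    constructor
    · intro h1
      exact (h1 _ rfl).symm
    · intro h1 y hy
      rw [Set.mem_singleton_iff] at hy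
      rw [hy, h1]
  have hgSC : ((g • S : Sylow 2 G) : Subgroup G) ≤ C := by
    intro w hw
    have h1 := (mem_smul_sylow S g w).1 hw
    obtain ⟨u, hu⟩ := exists_iota S e h1
    have hw' : w = g * iota S e u * g⁻¹ := by rw [hu]; group
    rw [hmemC, hw', ← hg]
    have h2 : iota S e u * iota S e zz = iota S e zz * iota S e u := by
      rw [← map_mul, ← map_mul, F_zcen u]
    calc g * iota S e u * g⁻¹ * (g * iota S e zz * g⁻¹)
        = g * (iota S e u * iota S e zz) * g⁻¹ := by group
      _ = g * (iota S e zz * iota S e u) * g⁻¹ := by rw [h2]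
      _ = _ := by group
  -- the elementary abelian subgroup
  let A : Subgroup S0 := centralizer ({a} : Set S0)
  have hmemA : ∀ x, x ∈ A ↔ x * a = a * x := by
    intro x
    show x ∈ centralizer ({a} : Set S0) ↔ _
    rw [mem_centralizer_iff]
    constructor
    · intro h1
      exact (h1 _ rfl).symm
    · intro h1 y hy
      rw [Set.mem_singleton_iff] at hy
      rw [hy, h1]
  have hAC : A.map (iota S e) ≤ C := by
    rintro _ ⟨u, hu, rfl⟩
    rw [hmemC, ← map_mul, ← map_mul, (hmemA u).1 hu]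
  have hAp : IsPGroup 2 (A.map (iota S e)) := S.isPGroup'.to_le (by
    rintro _ ⟨u, -, rfl⟩
    exact iota_mem S e u)
  obtain ⟨h, hhC, hh⟩ := exists_conj_into_sylow ((g • S).subtype hgSC) _ hAp hAC
  have hmap : (((g • S).subtype hgSC : Sylow 2 C) : Subgroup C).map C.subtype ≤
      ((g • S : Sylow 2 G) : Subgroup G) := by
    rw [Sylow.coe_subtype, map_subgroupOf_eq_of_le hgSC]
  set v := g⁻¹ * h⁻¹ with hv
  have hv1 : ∀ u : S0, u * a = a * u → v * iota S e u * v⁻¹ ∈ (S : Subgroup G) := by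
    intro u hu
    have h5 := hmap (hh _ ⟨u, (hmemA u).2 hu, rfl⟩)
    have h6 := (mem_smul_sylow S g _).1 h5
    have : v * iota S e u * v⁻¹ = g⁻¹ * (h⁻¹ * iota S e u * h) * g := by rw [hv]; group
    rwa [this]
  have hva : v * iota S e a * v⁻¹ = iota S e zz := by
    have h5 : h⁻¹ * iota S e a * h = iota S e a := by
      calc h⁻¹ * iota S e a * h = h⁻¹ * (iota S e a * h) := by group
        _ = h⁻¹ * (h * iota S e a) := by rw [(hmemC h).1 hhC]
        _ = iota S e a := by group
    have : v * iota S e a * v⁻¹ = g⁻¹ * (h⁻¹ * iota S e a * h) * g := by rw [hv]; group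
    rw [this, h5, ← hg]
    group
  -- the induced map
  let Aa := {x : S0 // x * a = a * x}
  have hex : ∀ u : Aa, ∃ w : S0, iota S e w = v * iota S e u.1 * v⁻¹ :=
    fun u => exists_iota S e (hv1 u.1 u.2)
  choose f hf using hex
  have hfinj : Function.Injective f := by
    intro u u' huu
    apply Subtype.ext
    apply iota_inj S e
    have := hf u
    rw [huu, hf u'] at this
    have h7 := mul_left_cancel (mul_right_cancel this)
    exact h7.symm
  have hXf : ∀ u : Aa, X0 S e (f u) → X0 S e u.1 := by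
    rintro u ⟨g₁, hg₁⟩
    refine ⟨v⁻¹ * g₁, ?_⟩
    have := hf u
    calc (v⁻¹ * g₁) * iota S e zz * (v⁻¹ * g₁)⁻¹ = v⁻¹ * (g₁ * iota S e zz * g₁⁻¹) * v := by group
      _ = v⁻¹ * (v * iota S e u.1 * v⁻¹) * v := by rw [hg₁, hf u]
      _ = iota S e u.1 := by group
  have hcardA : Fintype.card Aa = 8 := F_card a ha hc
  -- a noncentral image
  have hnc : ∃ u : Aa, ¬ (∀ y : S0, f u * y = y * f u) := by
    by_contra hcon
    push Not at hcon
    let f' : Aa → {x : S0 // ∀ y : S0, x * y = y * x} := fun u => ⟨f u, hcon u⟩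
    have hf' : Function.Injective f' := fun u u' h => hfinj (congrArg Subtype.val h)
    have := Fintype.card_le_of_injective f' hf'
    rw [hcardA, F_cardZ] at this
    omega
  obtain ⟨u₀, hu₀⟩ := hnc
  set b := f u₀ with hb
  have hfmul : ∀ u u' : Aa, iota S e (f u * f u') = v * iota S e (u.1 * u'.1) * v⁻¹ := by
    intro u u'
    rw [map_mul, hf, hf, map_mul]
    group
  have hbb : b * b = 1 := by
    apply iota_inj S e
    rw [hb, hfmul, F_inv a u₀.1 ha hc u₀.2, map_one]
    group
  have hfb : ∀ u : Aa, f u * b = b * f u := by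
    intro u
    apply iota_inj S e
    rw [hb, hfmul, hfmul, F_ab a u.1 u₀.1 ha hc u.2 u₀.2]
  let g' : Aa → {x : S0 // x * b = b * x} := fun u => ⟨f u, hfb u⟩
  have hg'inj : Function.Injective g' := fun u u' h => hfinj (congrArg Subtype.val h)
  have hg'surj : Function.Surjective g' := by
    have hcard : Fintype.card Aa = Fintype.card {x : S0 // x * b = b * x} := by
      rw [hcardA, F_card b hbb hu₀]
    exact ((Fintype.bijective_iff_injective_and_card g').2 ⟨hg'inj, hcard⟩).2
  obtain ⟨x, hx⟩ := hg'surj ⟨tt, F_tcen b⟩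
  obtain ⟨y, hy⟩ := hg'surj ⟨tt * zz, by
    rw [mul_assoc, F_zcen b, ← mul_assoc, F_tcen b, mul_assoc]⟩
  have hfx : f x = tt := congrArg Subtype.val hx
  have hfy : f y = tt * zz := congrArg Subtype.val hy
  have hnt : ¬ X0 S e tt := fun h => F_ne (X0_central F_tcen h)
  have hntz : ¬ X0 S e (tt * zz) := fun h => F_tz2 (X0_central (by
    intro w
    rw [mul_assoc, F_zcen w, ← mul_assoc, F_tcen w, mul_assoc]) h)
  have hXf₂ : ∀ u : Aa, X0 S e u.1 → X0 S e (f u) := by
    rintro u ⟨g₁, hg₁⟩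
    refine ⟨v * g₁, ?_⟩
    calc (v * g₁) * iota S e zz * (v * g₁)⁻¹ = v * (g₁ * iota S e zz * g₁⁻¹) * v⁻¹ := by group
      _ = v * iota S e u.1 * v⁻¹ := by rw [hg₁]
      _ = iota S e (f u) := (hf u).symm
  have hne1 : ∀ u : Aa, f u ≠ 1 → u.1 ≠ 1 := by
    intro u hu h1
    apply hu
    apply iota_inj S e
    rw [hf u, h1, map_one]
    group
  have hform : ∀ u : Aa, ¬ X0 S e (f u) → f u ≠ 1 → u.1 = tt ∨ u.1 = tt * zz := by
    intro u hu hu1
    have hu2 : ¬ X0 S e u.1 := fun h => hu (hXf₂ u h)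
    rcases F_list a u.1 ha hc u.2 with h | h | h | h | h | h | h | h
    · exact absurd h (hne1 u hu1)
    · exact absurd (by rw [h]; exact X0_zz) hu2
    · exact Or.inl h
    · exact Or.inr h
    · exact absurd (by rw [h]; exact h1') hu2
    · exact absurd (by rw [h]; exact h3) hu2
    · exact absurd (by rw [h]; exact h2) hu2
    · exact absurd (by rw [h]; exact h4) hu2
  have hxf := hform x (by rw [hfx]; exact hnt) (by rw [hfx]; exact F_t1)
  have hyf := hform y (by rw [hfy]; exact hntz) (by rw [hfy]; exact F_tz1)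
  have hxy : x ≠ y := by
    rintro rfl
    rw [hfx] at hfy
    exact F_t_tz hfy
  have hprod : x.1 * y.1 = zz := by
    rcases hxf with h5 | h5 <;> rcases hyf with h6 | h6
    · exact absurd (Subtype.ext (h5.trans h6.symm)) hxy
    · rw [h5, h6]; exact F_prod1
    · rw [h5, h6]; exact F_prod2
    · exact absurd (Subtype.ext (h5.trans h6.symm)) hxy
  have h7 := hfmul x y
  rw [hfx, hfy, F_prod1, hprod] at h7
  have h8 : iota S e a = iota S e zz := by
    have h9 := hva.trans h7
    exact mul_left_cancel (mul_right_cancel h9)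
  have h10 : a = zz := iota_inj S e h8
  exact hc (fun y => by rw [h10]; exact F_zcen y)

/-- The focal subgroup lies in the kernel of a functional vanishing on the conjugates of `z`. -/
theorem focal_le (L : S0 →* Multiplicative (ZMod 2)) (hX : ∀ x : S0, X0 S e x → L x = 1) :
    (S : Subgroup G) ⊓ commutator G ≤ L.ker.map (iota S e) := by
  classical
  have : Fact (Nat.Prime 2) := ⟨Nat.prime_two⟩
  rw [Cfsg.Agent.Lib.PLocal.AlperinApps.inf_commutator_eq_focalLocal]
  unfold Cfsg.Agent.Lib.PLocal.AlperinApps.focalLocal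
  refine sup_le ?_ ?_
  · rw [commutator_le]
    intro a ha n hn
    obtain ⟨x, rfl⟩ := exists_iota S e ha
    obtain ⟨s, hs⟩ := normalizer_inner S e hn
    have h1 : ⁅iota S e x, n⁆ = iota S e (x * (s * x⁻¹ * s⁻¹)) := by
      rw [map_mul, ← hs, map_inv]
      simp only [commutatorElement_def]
      group
    rw [h1]
    refine ⟨_, ?_, rfl⟩
    show L _ = 1
    rw [map_mul, map_mul, map_mul, map_inv, map_inv, mul_comm (L s)]
    group
  · refine iSup_le fun Q => iSup_le fun htame => iSup_le fun x₁ => iSup_le fun hx₁ => ?_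
    rw [commutator_le]
    intro a ha y hy
    set D : Subgroup G := (S : Subgroup G) ⊓ (Q : Subgroup G) with hD
    set N : Subgroup G := normalizer ((D : Subgroup G) : Set G) with hN
    obtain ⟨hx₁N, k, hk⟩ := hx₁
    have hyN : y ∈ N := (zpowers_le.2 hx₁N) hy
    have hyp : y ^ (2 ^ k) = 1 := by
      obtain ⟨i, rfl⟩ := mem_zpowers_iff.1 hy
      rw [← zpow_natCast, ← zpow_mul, mul_comm, zpow_mul, zpow_natCast, ← hk, pow_orderOf_eq_one,
        one_zpow]
    -- `N_S(D)` is Sylow in `N(D)`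
    have hRp : IsPGroup 2 (((S : Subgroup G) ⊓ N).subgroupOf N) :=
      IsPGroup.comap_of_injective (S.isPGroup'.to_le inf_le_left) N.subtype N.subtype_injective
    have hRi : ¬ 2 ∣ (((S : Subgroup G) ⊓ N).subgroupOf N).index := htame.1
    let R : Sylow 2 N := hRp.toSylow hRi
    have hZN : zpowers y ≤ N := zpowers_le.2 hyN
    obtain ⟨h, hhN, hh⟩ := exists_conj_into_sylow R _ (isPGroup_zpowers_of_pow hyp) hZN
    have hmapR : (R : Subgroup N).map N.subtype ≤ (S : Subgroup G) := by
      rintro _ ⟨w, hw, rfl⟩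
      exact (mem_inf.1 (show (w : G) ∈ (S : Subgroup G) ⊓ N from hw)).1
    have hy' : h⁻¹ * y * h ∈ (S : Subgroup G) := hmapR (hh y (mem_zpowers y))
    have ha' : h⁻¹ * a * h ∈ D := by
      have := conj_mem_of_mem_normalizer (inv_mem hhN) ha
      simpa using this
    obtain ⟨u, hu⟩ := exists_iota S e (mem_inf.1 ha').1
    obtain ⟨w, hw⟩ := exists_iota S e hy'
    have hcomm : ⁅a, y⁆ = h * iota S e ⁅u, w⁆ * h⁻¹ := by
      rw [map_commutatorElement, hu, hw]
      simp only [commutatorElement_def]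
      group
    have haD : ⁅a, y⁆ ∈ D := by
      have h1 : y * a⁻¹ * y⁻¹ ∈ D := conj_mem_of_mem_normalizer hyN (inv_mem ha)
      have h2 : ⁅a, y⁆ = a * (y * a⁻¹ * y⁻¹) := by
        simp only [commutatorElement_def]
        group
      rw [h2]
      exact mul_mem ha h1
    obtain ⟨c, hc⟩ := exists_iota S e (mem_inf.1 haD).1
    rw [← hc]
    refine ⟨c, ?_, rfl⟩
    rcases F_comm u w with h1 | h1
    · rw [hcomm, h1, map_one] at hc
      have : c = 1 := by
        apply iota_inj S e
        rw [hc, map_one]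
        group
      rw [this]
      exact one_mem _
    · apply hX
      refine ⟨h, ?_⟩
      rw [hc, hcomm, h1]

/-- The conclusion from a functional. -/
theorem exists_index_two (L : S0 →* Multiplicative (ZMod 2)) (hX : ∀ x : S0, X0 S e x → L x = 1)
    (htt : L tt ≠ 1) : ∃ H : Subgroup G, H.index = 2 := by
  classical
  have : Fact (Nat.Prime 2) := ⟨Nat.prime_two⟩
  have hfoc := focal_le L hX
  have hcard : Nat.card (Multiplicative (ZMod 2)) = 2 := by
    rw [Nat.card_eq_fintype_card]
    rfl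
  have hcop : Nat.Coprime (Nat.card (Multiplicative (ZMod 2))) (S : Subgroup G).index := by
    rw [hcard]
    exact (Nat.Prime.coprime_iff_not_dvd Nat.prime_two).2 S.not_dvd_index
  obtain ⟨f, hf⟩ := Cfsg.Agent.Lib.Transfer.Focal.exists_extension hcop
    (L.comp e.toMonoidHom) (by
      intro x y g hxy
      have h1 : (x : G)⁻¹ * (y : G) ∈ (S : Subgroup G) ⊓ commutator G := by
        refine mem_inf.2 ⟨mul_mem (inv_mem x.2) y.2, ?_⟩
        rw [hxy]
        have : (x : G)⁻¹ * (g * (x : G) * g⁻¹) = ⁅(x : G)⁻¹, g⁆ := by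
          simp only [commutatorElement_def]
          group
        rw [this]
        exact commutator_mem_commutator (mem_top _) (mem_top _)
      obtain ⟨w, hw, hwe⟩ := hfoc h1
      have h2 : e (x⁻¹ * y) = w := by
        have : e.symm w = x⁻¹ * y := by
          apply Subtype.ext
          exact hwe
        rw [← this]
        simp
      have h3 : L (e (x⁻¹ * y)) = 1 := by
        rw [h2]
        exact hw
      rw [map_mul, map_inv, map_mul, map_inv] at h3
      show L (e y) = L (e x)
      exact (inv_mul_eq_one.1 h3).symm)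
  refine ⟨f.ker, ?_⟩
  rw [Subgroup.index_ker]
  have h1 : f (e.symm tt) = L tt := by
    have := hf (e.symm tt)
    simpa using this
  have h2 := Subgroup.card_subgroup_dvd_card f.range
  rw [hcard] at h2
  rcases (Nat.dvd_prime Nat.prime_two).1 h2 with h3 | h3
  · exfalso
    have h4 : f.range = ⊥ := by
      rw [Subgroup.card_eq_one] at h3
      exact h3
    have h5 : f (e.symm tt) ∈ f.range := ⟨_, rfl⟩
    rw [h4, mem_bot, h1] at h5
    exact htt h5
  · exact h3

/-- The main result. -/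
theorem main (S : Sylow 2 G) (e : ↥(S : Subgroup G) ≃* S0) : ∃ H : Subgroup G, H.index = 2 := by
  classical
  set α : ZMod 2 := if X0 S e (tt * ss) then 1 else 0 with hα
  set γ : ZMod 2 := if X0 S e (tt * (rr * ss)) then 1 else 0 with hγ
  set β : ZMod 2 := α + γ with hβ
  have hαγ : α + β = γ := by
    rw [hβ, ← add_assoc, CharTwo.add_self_eq_zero, zero_add]
  set L := lamHom α β with hL
  have hLv : ∀ x, L x = Multiplicative.ofAdd (lam α β x) := fun x => rfl
  have hLz : L zz = 1 := by rw [hLv, lam_zz]; rfl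
  have hLt : L tt = Multiplicative.ofAdd 1 := by rw [hLv, lam_tt]
  have hLs : L ss = Multiplicative.ofAdd α := by rw [hLv, lam_ss]
  have hLr : L (rr * ss) = Multiplicative.ofAdd γ := by rw [hLv, lam_rs, hαγ]
  have hss : ss * ss = 1 := F_ssss
  have hnX : ∀ x : S0, X0 S e x → L x = 1 := by
    intro x hx
    have hsq := X0_sq hx
    have hne := X0_ne_one hx
    have hnt : x ≠ tt := by
      rintro rfl
      exact F_ne (X0_central F_tcen hx)
    have hntz : x ≠ tt * zz := by
      rintro rfl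
      exact F_tz2 (X0_central (by
        intro w
        rw [mul_assoc, F_zcen w, ← mul_assoc, F_tcen w, mul_assoc]) hx)
    have hAcase : ¬ (X0 S e ss ∧ X0 S e (tt * ss)) := fun h => not_both F_ssss F_ssnc h.1 h.2
    have hBcase : ¬ (X0 S e (rr * ss) ∧ X0 S e (tt * (rr * ss))) :=
      fun h => not_both F_rsinv F_rsnc h.1 h.2
    obtain ⟨h1a, h1b⟩ := F_tta ss F_ssss F_ssnc
    obtain ⟨h2a, h2b⟩ := F_tta (rr * ss) F_rsinv F_rsnc
    have hone : (Multiplicative.ofAdd (1 : ZMod 2)) * Multiplicative.ofAdd (1 : ZMod 2) = 1 := by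
      decide
    rcases F_X x hsq hne hnt hntz with h | h | h | h | h | h | h | h | h
    · rw [h]; exact hLz
    · subst h
      have : α = 0 := by
        rw [hα, if_neg (fun h => hAcase ⟨hx, h⟩)]
      rw [hLs, this]; rfl
    · subst h
      have hx' := X0_of_azz F_ssss F_ssnc hx
      have : α = 0 := by
        rw [hα, if_neg (fun h => hAcase ⟨hx', h⟩)]
      rw [map_mul, hLz, mul_one, hLs, this]; rfl
    · subst h
      have : α = 1 := by
        rw [hα, if_pos hx]
      rw [map_mul, hLt, hLs, this]; exact hone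
    · subst h
      have hx' := X0_of_azz h1a h1b hx
      have : α = 1 := by
        rw [hα, if_pos hx']
      rw [map_mul, hLz, mul_one, map_mul, hLt, hLs, this]; exact hone
    · subst h
      have : γ = 0 := by
        rw [hγ, if_neg (fun h => hBcase ⟨hx, h⟩)]
      rw [hLr, this]; rfl
    · subst h
      have hx' := X0_of_azz F_rsinv F_rsnc hx
      have : γ = 0 := by
        rw [hγ, if_neg (fun h => hBcase ⟨hx', h⟩)]
      rw [map_mul, hLz, mul_one, hLr, this]; rfl
    · subst h
      have : γ = 1 := by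
        rw [hγ, if_pos hx]
      rw [map_mul, hLt, hLr, this]; exact hone
    · subst h
      have hx' := X0_of_azz h2a h2b hx
      have : γ = 1 := by
        rw [hγ, if_pos hx']
      rw [map_mul, hLz, mul_one, map_mul, hLt, hLr, this]; exact hone
  refine exists_index_two L hnX ?_
  rw [hLt]
  decide

end Main

end Cfsg.Agent.Lib.LocalEven.Z2D8
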